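import Cfsg.Agent.Lib.Helper4.AutZ

set_option autoImplicit false

namespace Cfsg.Agent.Lib.Helper4
namespace AutA

open Pointwise Golay

/-- Subgroups of order 887040 stabilise a pair of points. -/
theorem idx276 (K : Subgroup (Equiv.Perm GolayPt)) (hK : K ≤ M24) (hc : Nat.card K = 887040) :
    ∃ p q : GolayPt, p ≠ q ∧ ∀ k ∈ K, k • ({p, q} : Finset GolayPt) = {p, q} := by
  classical
  have p11 : Fact (Nat.Prime 11) := ⟨by norm_num⟩
  have p7 : Fact (Nat.Prime 7) := ⟨by norm_num⟩
  obtain ⟨g, hgK, hg11, hg1, hglt, hgmod⟩ :=
    prime_elt K hK 11 (by rw [hc]; norm_num) (by norm_num)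
  have hg2 : (Finset.univ.filter (fun x => g x = x)).card = 2 := by omega
  obtain ⟨p, q, hpq, hFix⟩ := Finset.card_eq_two.1 hg2
  have hgp : g p = p := by
    have : p ∈ Finset.univ.filter (fun x => g x = x) := by
      rw [hFix]
      simp
    exact (Finset.mem_filter.1 this).2
  have hgq : g q = q := by
    have : q ∈ Finset.univ.filter (fun x => g x = x) := by
      rw [hFix]
      simp
    exact (Finset.mem_filter.1 this).2
  have hgF : ∀ x, g x = x → x = p ∨ x = q := by
    intro x hx
    have : x ∈ Finset.univ.filter (fun x => g x = x) :=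
      Finset.mem_filter.2 ⟨Finset.mem_univ _, hx⟩
    rw [hFix, Finset.mem_insert, Finset.mem_singleton] at this
    exact this
  have heven : 2 ∣ (orb K p).card :=
    orb_dvd_of_card K hK p 887040 2 443520 hc (by norm_num) (by norm_num) (by norm_num)
  have hle24 := orb_le24 K p
  have hpos := orb_pos K p
  by_cases hq : q ∈ orb K p
  · have hmod : (orb K p).card % 11 = 2 := by
      have h := card_modEq_fixed g 11 hg11 (orb K p) (fun x => orb_inv hgK x)
      have hf : (orb K p).filter (fun x => g x = x) = {p, q} := by
        ext x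
        simp only [Finset.mem_filter, Finset.mem_insert, Finset.mem_singleton]
        constructor
        · rintro ⟨-, hx⟩
          exact hgF x hx
        · rintro (rfl | rfl)
          · exact ⟨self_mem_orb K _, hgp⟩
          · exact ⟨hq, hgq⟩
      rw [hf, Finset.card_pair hpq] at h
      unfold Nat.ModEq at h
      omega
    have h224 : (orb K p).card = 2 ∨ (orb K p).card = 24 := by
      obtain ⟨j, hj⟩ := heven
      omega
    rcases h224 with h2 | h24
    · have horb : orb K p = {p, q} := by
        symm
        apply Finset.eq_of_subset_of_card_le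
        · intro x hx
          rw [Finset.mem_insert, Finset.mem_singleton] at hx
          rcases hx with rfl | rfl
          · exact self_mem_orb K _
          · exact hq
        · rw [h2, Finset.card_pair hpq]
      refine ⟨p, q, hpq, fun k hk => ?_⟩
      apply smul_eq_of_iff
      intro w
      rw [← horb]
      exact orb_inv hk w
    · exfalso
      have huniv : orb K p = Finset.univ := Finset.eq_univ_of_card _ (by rw [h24, card_pts])
      have horb : ∀ v, (orb K v).card = 24 := by
        intro v
        have hv : v ∈ orb K p := by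
          rw [huniv]
          exact Finset.mem_univ v
        rw [orb_eq hv, h24]
      have htr := trans_of_card K horb
      have hca : Nat.card ↥(stp K p) = 36960 := by
        have := card_orb' K p
        rw [hc, h24] at this
        omega
      have hLM : stp K p ≤ M24 := inf_le_left.trans hK
      have hgL : g ∈ stp K p := ⟨hgK, hgp⟩
      have hpq' : p ∉ orb (stp K p) q := by
        intro h
        obtain ⟨k, hk, e⟩ := mem_orb.1 h
        exact hpq (k.injective (hk.2.trans e.symm))
      have hm1 : (orb (stp K p) q).card % 11 = 1 := by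
        have h := orb_mod1' hgL 11 hg11 hgq (fun x hx hgx => by
          rcases hgF x hgx with h | h
          · exact absurd (h ▸ hx) hpq'
          · exact h)
        omega
      have hco := card_orb' (stp K p) q
      rw [hca] at hco
      have hle := orb_le24 (stp K p) q
      have hsz : (orb (stp K p) q).card = 1 ∨ (orb (stp K p) q).card = 12 := by
        obtain ⟨m, hm⟩ : ∃ m, m = (orb (stp K p) q).card := ⟨_, rfl⟩
        rw [← hm] at hco hle hm1 ⊢
        have hm23 : m = 1 ∨ m = 12 ∨ m = 23 := by omega
        rcases hm23 with h | h | h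
        · exact Or.inl h
        · exact Or.inr h
        · rw [h] at hco
          omega
      have hfixq : ∀ k ∈ stp K p, k q = q := by
        rcases hsz with h1 | h12
        · exact fix_of_orb_one h1
        · exfalso
          obtain ⟨t, htL, ht7, ht1, htlt, htmod⟩ :=
            prime_elt (stp K p) hLM 7 (by rw [hca]; norm_num) (by norm_num)
          have h1 := fix_ge 7 ht7 (orb (stp K p) q) (fun x => orb_inv htL x)
          have h2 := fix_sub (f := t) (orb (stp K p) q)
          rw [h12] at h1
          omega
      have hno3 : ∀ c, c ≠ p → c ≠ q → ¬ ∀ k ∈ stp K p, k c = c := by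
        intro c hcp hcq hfc
        rcases hgF c (hfc g hgL) with h | h
        · exact hcp h
        · exact hcq h
      obtain ⟨c, hc'⟩ := ex_notMem {p, q} (by rw [Finset.card_pair hpq]; norm_num)
      rw [Finset.mem_insert, Finset.mem_singleton, not_or] at hc'
      have h960 := two_fix K hK htr hpq hfixq hno3 hc'.1 hc'.2
      have h960' := Nat.le_of_dvd (by norm_num) h960
      have hco2 := card_orb' (stp K p) c
      have h3 := Nat.mul_le_mul (orb_le24 (stp K p) c) h960'
      rw [← hco2, hca] at h3
      omega
  · have hmod : (orb K p).card % 11 = 1 := by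
      have h := orb_mod1' hgK 11 hg11 hgp (fun x hx hgx => by
        rcases hgF x hgx with h | h
        · exact h
        · exact absurd (h ▸ hx) hq)
      omega
    have h12 : (orb K p).card = 12 := by
      obtain ⟨j, hj⟩ := heven
      omega
    exfalso
    obtain ⟨t, htK, ht7, ht1, htlt, htmod⟩ :=
      prime_elt K hK 7 (by rw [hc]; norm_num) (by norm_num)
    have h1 := fix_ge 7 ht7 (orb K p) (fun x => orb_inv htK x)
    have h2 := fix_sub (f := t) (orb K p)
    rw [h12] at h1
    omega

theorem moved_card (f : Equiv.Perm GolayPt) (S : Finset GolayPt) :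
    (S.filter (fun v => f v = v)).card + (S.filter (fun v => f v ≠ v)).card = S.card := by
  have := Finset.card_filter_add_card_filter_not (s := S) (fun v => f v = v)
  have e : (S.filter (fun v => ¬ f v = v)) = S.filter (fun v => f v ≠ v) :=
    Finset.filter_congr (fun v _ => Iff.rfl)
  rw [e] at this
  exact this

/-- An invariant eight-set is almost an invariant octad. -/
theorem inv8_oct (K : Subgroup (Equiv.Perm GolayPt)) (hK : K ≤ M24) (h5 : 5 ∣ Nat.card K)
    (S : Finset GolayPt) (hS8 : S.card = 8) (hS : ∀ k ∈ K, ∀ x, k x ∈ S ↔ x ∈ S) :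
    ∃ O ∈ octads, (∀ k ∈ K, k • O = O) ∧
      (O = S ∨ ((∃ s ∈ S, ∀ k ∈ K, k s = s) ∧ ∃ o, o ∉ S ∧ ∀ k ∈ K, k o = o)) := by
  classical
  have p5 : Fact (Nat.Prime 5) := ⟨by norm_num⟩
  obtain ⟨f, hfK, hf5, hf1, hflt, hfmod⟩ := prime_elt K hK 5 h5 (by norm_num)
  have hf4 : (Finset.univ.filter (fun x => f x = x)).card = 4 := by omega
  have hSf : (S.filter (fun x => f x = x)).card = 3 := by
    have h1 := card_modEq_fixed f 5 hf5 S (hS f hfK)
    have h2 := fix_sub (f := f) S
    rw [hS8] at h1
    unfold Nat.ModEq at h1
    omega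
  have hc5 : (S.filter (fun x => f x ≠ x)).card = 5 := by
    have := moved_card f S
    omega
  obtain ⟨O, hO, hsub, hfO, hfixO⟩ := five_oct (hK hfK) hf5 (hS f hfK) hc5
  have hO8 : O.card = 8 := hO.2
  have hOS : 7 ≤ (O ∩ S).card := by
    have hsd : O \ S ⊆
        (Finset.univ.filter (fun x => f x = x)) \ (S.filter (fun x => f x = x)) := by
      intro u hu
      rw [Finset.mem_sdiff] at hu
      rw [Finset.mem_sdiff, Finset.mem_filter, Finset.mem_filter]
      refine ⟨⟨Finset.mem_univ _, hfixO u hu.1 (fun h => hu.2 (Finset.mem_filter.1 h).1)⟩, ?_⟩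
      exact fun h => hu.2 h.1
    have h1 := Finset.card_le_card hsd
    rw [Finset.card_sdiff_of_subset (fun x hx => Finset.mem_filter.2
      ⟨Finset.mem_univ _, (Finset.mem_filter.1 hx).2⟩), hf4, hSf] at h1
    have h2 := Finset.card_sdiff_add_card_inter O S
    omega
  have hKO : ∀ k ∈ K, k • O = O := oct_inv_of_big hK hO hS (by rw [hS8]; omega)
  refine ⟨O, hO, hKO, ?_⟩
  by_cases hOS8 : (O ∩ S).card = 8
  · left
    have h1 : O ∩ S = O :=
      Finset.eq_of_subset_of_card_le Finset.inter_subset_left (by rw [hOS8, hO8])
    have h2 : O ∩ S = S :=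
      Finset.eq_of_subset_of_card_le Finset.inter_subset_right (by rw [hOS8, hS8])
    exact h1.symm.trans h2
  · right
    have h7 : (O ∩ S).card = 7 := by
      have := Finset.card_le_card (Finset.inter_subset_left : O ∩ S ⊆ O)
      omega
    have hs1 : (S \ O).card = 1 := by
      have := Finset.card_sdiff_add_card_inter S O
      rw [Finset.inter_comm] at this
      omega
    have ho1 : (O \ S).card = 1 := by
      have := Finset.card_sdiff_add_card_inter O S
      omega
    obtain ⟨s, hs⟩ := Finset.card_eq_one.1 hs1
    obtain ⟨o, ho⟩ := Finset.card_eq_one.1 ho1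
    have hsm : s ∈ S \ O := by
      rw [hs]
      exact Finset.mem_singleton_self s
    have hom : o ∈ O \ S := by
      rw [ho]
      exact Finset.mem_singleton_self o
    rw [Finset.mem_sdiff] at hsm hom
    refine ⟨⟨s, hsm.1, fun k hk => ?_⟩, o, hom.2, fun k hk => ?_⟩
    · have : k s ∈ S \ O := Finset.mem_sdiff.2
        ⟨(hS k hk s).2 hsm.1, fun h => hsm.2 ((mem_of_smul_eq (hKO k hk) s).1 h)⟩
      rw [hs] at this
      exact Finset.mem_singleton.1 this
    · have : k o ∈ O \ S := Finset.mem_sdiff.2
        ⟨(mem_of_smul_eq (hKO k hk) o).2 hom.1, fun h => hom.2 ((hS k hk o).1 h)⟩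
      rw [ho] at this
      exact Finset.mem_singleton.1 this

/-- With two fixed points, a subgroup of order 13440 has only even further orbits. -/
theorem even_of_two_fix (L : Subgroup (Equiv.Perm GolayPt)) (hL : L ≤ M24) {a s : GolayPt}
    (has : a ≠ s) (hc : Nat.card L = 13440) (ha : ∀ k ∈ L, k a = a) (hs : ∀ k ∈ L, k s = s)
    {w : GolayPt} (hwa : w ≠ a) (hws : w ≠ s) : 2 ∣ (orb L w).card := by
  have hco := card_orb' L w
  rw [hc] at hco
  have h1 : Nat.card ↥(stp L w) ∣ 20160 := by
    apply card_dvd_20160 _ (inf_le_left.trans hL) (insert w {a, s})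
    · rw [Finset.card_insert_of_notMem, Finset.card_pair has]
      simp only [Finset.mem_insert, Finset.mem_singleton, not_or]
      exact ⟨hwa, hws⟩
    · intro k hk u hu
      simp only [Finset.mem_insert, Finset.mem_singleton] at hu
      rcases hu with rfl | rfl | rfl
      · exact hk.2
      · exact ha k hk.1
      · exact hs k hk.1
  have h2 : Nat.card ↥(stp L w) ∣ 13440 := Dvd.intro_left _ hco.symm
  have h3 : Nat.card ↥(stp L w) ∣ 6720 := by
    have hg : Nat.gcd 13440 20160 = 6720 := by norm_num
    rw [← hg]
    exact Nat.dvd_gcd h2 h1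
  obtain ⟨q, hq⟩ := h3
  refine ⟨q, ?_⟩
  apply Nat.eq_of_mul_eq_mul_right (Nat.card_pos (α := ↥(stp L w)))
  calc (orb L w).card * Nat.card ↥(stp L w) = 13440 := hco.symm
    _ = 2 * 6720 := by norm_num
    _ = 2 * q * Nat.card ↥(stp L w) := by rw [hq, mul_assoc, mul_comm q]

/-- No transitive subgroup has a large point stabiliser stabilising a pair. -/
theorem no_duad (K : Subgroup (Equiv.Perm GolayPt)) (hK : K ≤ M24)
    (htr : ∀ v w : GolayPt, ∃ k ∈ K, k v = w) {a b c : GolayPt} (n : ℕ)
    (hca : Nat.card ↥(stp K a) = n) (h5 : 5 ∣ n) (hbig : 3840 < n)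
    (hbc : b ≠ c) (hba : b ≠ a) (hca' : c ≠ a)
    (hinv : ∀ k ∈ stp K a, k • ({b, c} : Finset GolayPt) = {b, c}) : False := by
  classical
  have hLM : stp K a ≤ M24 := inf_le_left.trans hK
  have p5 : Fact (Nat.Prime 5) := ⟨by norm_num⟩
  obtain ⟨f, hfL, hf5, hf1, hflt, hfmod⟩ :=
    prime_elt (stp K a) hLM 5 (by rw [hca]; exact h5) (by norm_num)
  have hf4 : (Finset.univ.filter (fun x => f x = x)).card = 4 := by omega
  have hfa : f a = a := hfL.2
  have h5bc : ∀ φ ∈ stp K a, φ ^ 5 = 1 → φ b = b ∧ φ c = c := by
    intro φ hφ hφ5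
    have h := fix_all_of_small 5 hφ5 {b, c} (mem_of_smul_eq (hinv φ hφ))
      (by rw [Finset.card_pair hbc]; norm_num)
    exact ⟨h b (by simp), h c (by simp)⟩
  obtain ⟨hfb, hfc⟩ := h5bc f hfL hf5
  obtain ⟨T, hT⟩ : ∃ T : Finset GolayPt, T = insert a {b, c} := ⟨_, rfl⟩
  have hTc : T.card = 3 := by
    rw [hT, Finset.card_insert_of_notMem, Finset.card_pair hbc]
    simp only [Finset.mem_insert, Finset.mem_singleton, not_or]
    exact ⟨hba.symm, hca'.symm⟩
  have hTmem : ∀ x, x ∈ T ↔ x = a ∨ x = b ∨ x = c := by
    intro x
    rw [hT]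
    simp
  have hN3 : n ≤ 2 * Nat.card ↥(stp (stp K a) b) := by
    have hco := card_orb' (stp K a) b
    have horb : (orb (stp K a) b).card ≤ 2 := by
      have hsub : orb (stp K a) b ⊆ {b, c} := by
        intro v hv
        obtain ⟨k, hk, rfl⟩ := mem_orb.1 hv
        exact (mem_of_smul_eq (hinv k hk) b).2 (by simp)
      exact (Finset.card_le_card hsub).trans (by rw [Finset.card_pair hbc])
    have := Nat.mul_le_mul horb (le_refl (Nat.card ↥(stp (stp K a) b)))
    rw [← hco, hca] at this
    exact this
  have hN3fix : ∀ g ∈ stp (stp K a) b, g a = a ∧ g b = b ∧ g c = c := by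
    intro g hg
    refine ⟨hg.1.2, hg.2, ?_⟩
    have h1 : g c ∈ ({b, c} : Finset GolayPt) := (mem_of_smul_eq (hinv g hg.1) c).2 (by simp)
    rw [Finset.mem_insert, Finset.mem_singleton] at h1
    rcases h1 with h1 | h1
    · exact absurd (g.injective (h1.trans hg.2.symm)) hbc.symm
    · exact h1
  have hA : ∀ k ∈ K, k a ∈ T → k • T = T := by
    intro k hk hka
    apply smul_eq_of_maps
    by_cases hkaa : k a = a
    · have hkL : k ∈ stp K a := ⟨hk, hkaa⟩
      intro q hq
      rw [hTmem] at hq ⊢
      rcases hq with rfl | hq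
      · exact Or.inl hkaa
      · right
        have h1 : k q ∈ ({b, c} : Finset GolayPt) := (mem_of_smul_eq (hinv k hkL) q).2 (by
          rw [Finset.mem_insert, Finset.mem_singleton]
          exact hq)
        rw [Finset.mem_insert, Finset.mem_singleton] at h1
        exact h1
    · have hkz : ∀ z, (z = b ∨ z = c) → k z ∈ T := by
        intro z hz
        by_contra hzT
        have hg : ∀ g ∈ stp (stp K a) b, g (k z) = k b ∨ g (k z) = k c := by
          intro g hg
          obtain ⟨ga, gb, gc⟩ := hN3fix g hg
          have hgka : g (k a) = k a := by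
            rw [hTmem] at hka
            rcases hka with h | h | h
            · exact absurd h hkaa
            · rw [h]
              exact gb
            · rw [h]
              exact gc
          have hconj := conj_mem_stp hk hg.1.1 hgka
          have h2 := hinv _ hconj
          have h3 : (k⁻¹ * g * k) z ∈ ({b, c} : Finset GolayPt) := (mem_of_smul_eq h2 z).2 (by
            rw [Finset.mem_insert, Finset.mem_singleton]
            exact hz)
          rw [Finset.mem_insert, Finset.mem_singleton, Equiv.Perm.mul_apply,
            Equiv.Perm.mul_apply] at h3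
          rcases h3 with h3 | h3
          · left
            have := congrArg k h3
            simpa using this
          · right
            have := congrArg k h3
            simpa using this
        have horb : (orb (stp (stp K a) b) (k z)).card ≤ 2 := by
          have hsub : orb (stp (stp K a) b) (k z) ⊆ {k b, k c} := by
            intro v hv
            obtain ⟨g, hg', rfl⟩ := mem_orb.1 hv
            rw [Finset.mem_insert, Finset.mem_singleton]
            exact hg g hg'
          exact (Finset.card_le_card hsub).trans Finset.card_le_two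
        have hco := card_orb' (stp (stp K a) b) (k z)
        have h960 : Nat.card ↥(stp (stp (stp K a) b) (k z)) ∣ 960 := by
          apply card_dvd_960 _ ((inf_le_left.trans inf_le_left).trans hLM) (insert (k z) T)
          · rw [Finset.card_insert_of_notMem hzT, hTc]
          · intro g hg u hu
            rcases Finset.mem_insert.1 hu with rfl | hu
            · exact hg.2
            · obtain ⟨ga, gb, gc⟩ := hN3fix g hg.1
              rw [hTmem] at hu
              rcases hu with rfl | rfl | rfl
              · exact ga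
              · exact gb
              · exact gc
        have h960' := Nat.le_of_dvd (by norm_num) h960
        have := Nat.mul_le_mul horb h960'
        rw [← hco] at this
        omega
      intro q hq
      rw [hTmem] at hq
      rcases hq with rfl | hq
      · exact hka
      · exact hkz q hq
  have hA' := block_of_base K htr hA
  have hfT : ∀ x ∈ T, f x = x := by
    intro x hx
    rw [hTmem] at hx
    rcases hx with rfl | rfl | rfl
    · exact hfa
    · exact hfb
    · exact hfc
  obtain ⟨y, hyT, hfy, hyF⟩ := fixset1 hfT (by rw [hf4, hTc])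
  obtain ⟨h, hh, hha⟩ := htr a y
  have hconj := conj_mem_stp hh hfL.1 (by rw [hha]; exact hfy)
  obtain ⟨e1, e2⟩ := h5bc _ hconj (conj_pow5 5 hf5)
  have hfhb : f (h b) = h b := conj_apply e1
  have hhbT : h b ∈ T := by
    rcases hyF (h b) hfhb with h1 | h1
    · exact h1
    · exfalso
      rw [← hha] at h1
      exact hba (h.injective h1)
  have hbT : b ∈ T := by
    rw [hTmem]
    exact Or.inr (Or.inl rfl)
  have haT : a ∈ T := by
    rw [hTmem]
    exact Or.inl rfl
  have h3 := hA' h hh b hbT hhbT
  have : h a ∈ T := (mem_of_smul_eq h3 a).2 haT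
  rw [hha] at this
  exact hyT this

/-- An octad that is a block through the base point gives a contradiction. -/
theorem oct_block_end (K : Subgroup (Equiv.Perm GolayPt)) (hK : K ≤ M24)
    (htr : ∀ v w : GolayPt, ∃ k ∈ K, k v = w) {a : GolayPt} {O : Finset GolayPt}
    (hO : O ∈ octads) (haO : a ∈ O) (h5 : 5 ∣ Nat.card ↥(stp K a))
    (hinv : ∀ k ∈ stp K a, k • O = O) (hA : ∀ k ∈ K, k a ∈ O → k • O = O) : False := by
  classical
  have hLM : stp K a ≤ M24 := inf_le_left.trans hK
  have hO8 : O.card = 8 := hO.2
  have hA' := block_of_base K htr hA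
  have p5 : Fact (Nat.Prime 5) := ⟨by norm_num⟩
  obtain ⟨f, hfL, hf5, hf1, hflt, hfmod⟩ := prime_elt (stp K a) hLM 5 h5 (by norm_num)
  have hf4 : (Finset.univ.filter (fun x => f x = x)).card = 4 := by omega
  have hfO := hinv f hfL
  have h3O := fix_ge 5 hf5 O (mem_of_smul_eq hfO)
  rw [hO8] at h3O
  have hex : ∃ y, f y = y ∧ y ∉ O := by
    by_contra hcon
    have hsub : Finset.univ.filter (fun x => f x = x) ⊆ O.filter (fun x => f x = x) := by
      intro x hx
      rw [Finset.mem_filter] at hx ⊢
      refine ⟨?_, hx.2⟩
      by_contra hxO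
      exact hcon ⟨x, hx.2, hxO⟩
    have h1 := Finset.card_le_card hsub
    have h2 := card_modEq_fixed f 5 hf5 O (mem_of_smul_eq hfO)
    rw [hO8] at h2
    unfold Nat.ModEq at h2
    have h3 := fix_sub (f := f) O
    omega
  obtain ⟨y, hfy, hyO⟩ := hex
  obtain ⟨h, hh, hha⟩ := htr a y
  have hfO1 : f • (h • O) = h • O :=
    conj_smul (hinv _ (conj_mem_stp hh hfL.1 (by rw [hha]; exact hfy)))
  have h3O1 := fix_ge 5 hf5 (h • O) (mem_of_smul_eq hfO1)
  rw [Finset.card_smul_finset, hO8] at h3O1
  have hdisj : Disjoint O (h • O) := by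
    rw [Finset.disjoint_left]
    intro p hpO hp
    obtain ⟨q, hq, rfl⟩ := Finset.mem_smul_finset.1 hp
    have h3 := hA' h hh q hq hpO
    have : h a ∈ O := (mem_of_smul_eq h3 a).2 haO
    rw [hha] at this
    exact hyO this
  have := fix_two (f := f) hdisj
  omega

/-- The block property of an invariant octad, by counting. -/
theorem oct_block_cnt (K : Subgroup (Equiv.Perm GolayPt)) {a : GolayPt} {O : Finset GolayPt}
    (hO8 : O.card = 8) (haO : a ∈ O) (hca : Nat.card ↥(stp K a) = 13440)
    (hinv : ∀ k ∈ stp K a, k • O = O)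
    (h7 : ∀ b ∈ O, b ≠ a → (orb (stp K a) b).card = 7)
    (h16 : ∀ y, y ∉ O → (orb (stp K a) y).card = 16) :
    ∀ k ∈ K, k a ∈ O → k • O = O := by
  classical
  intro k hk hka
  by_cases hkaa : k a = a
  · exact hinv k ⟨hk, hkaa⟩
  by_contra hne
  obtain ⟨y, hyk, hyO⟩ : ∃ y, y ∈ k • O ∧ y ∉ O := by
    by_contra hcon
    apply hne
    apply Finset.eq_of_subset_of_card_le
    · intro y hy
      by_contra hyO
      exact hcon ⟨y, hy, hyO⟩
    · rw [Finset.card_smul_finset]
  have hLb : Nat.card ↥(stp (stp K a) (k a)) = 1920 := by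
    have := card_orb' (stp K a) (k a)
    rw [hca, h7 _ hka hkaa] at this
    omega
  have hLy : Nat.card ↥(stp (stp K a) y) = 840 := by
    have := card_orb' (stp K a) y
    rw [hca, h16 y hyO] at this
    omega
  have hstab : ∀ g ∈ stp (stp K a) (k a), g • (k • O) = k • O := by
    intro g hg
    exact conj_smul (hinv _ (conj_mem_stp hk hg.1.1 hg.2))
  have hkak : k a ∈ k • O := Finset.smul_mem_smul_finset haO
  have hj : (orb (stp (stp K a) (k a)) y).card ≤ 7 := by
    have hsub : orb (stp (stp K a) (k a)) y ⊆ (k • O).erase (k a) := by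
      intro v hv
      obtain ⟨g, hg, rfl⟩ := mem_orb.1 hv
      rw [Finset.mem_erase]
      refine ⟨?_, (mem_of_smul_eq (hstab g hg) y).2 hyk⟩
      intro e
      have hy : y = k a := g.injective (e.trans hg.2.symm)
      apply hyO
      rw [hy]
      exact hka
    have := Finset.card_le_card hsub
    rw [Finset.card_erase_of_mem hkak, Finset.card_smul_finset, hO8] at this
    exact this
  have hco1 := card_orb' (stp (stp K a) (k a)) y
  have hco2 := card_orb' (stp (stp K a) y) (k a)
  have hcomm : stp (stp (stp K a) y) (k a) = stp (stp (stp K a) (k a)) y :=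
    inf_right_comm _ _ _
  rw [hcomm, hLy] at hco2
  rw [hLb] at hco1
  have hd1 : Nat.card ↥(stp (stp (stp K a) (k a)) y) ∣ 1920 := Dvd.intro_left _ hco1.symm
  have hd2 : Nat.card ↥(stp (stp (stp K a) (k a)) y) ∣ 840 := Dvd.intro_left _ hco2.symm
  have hd3 : Nat.card ↥(stp (stp (stp K a) (k a)) y) ∣ 120 := by
    have hg : Nat.gcd 1920 840 = 120 := by norm_num
    rw [← hg]
    exact Nat.dvd_gcd hd1 hd2
  have hle := Nat.le_of_dvd (by norm_num) hd3
  have := Nat.mul_le_mul hj hle
  rw [← hco1] at this
  omega

/-- No transitive subgroup has point stabilisers of order 13440. -/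
theorem no_trans759 (K : Subgroup (Equiv.Perm GolayPt)) (hK : K ≤ M24)
    (htr : ∀ v w : GolayPt, ∃ k ∈ K, k v = w) {a : GolayPt}
    (hca : Nat.card ↥(stp K a) = 13440) : False := by
  classical
  have hLM : stp K a ≤ M24 := inf_le_left.trans hK
  have hLa : ∀ k ∈ stp K a, k a = a := fun k hk => hk.2
  have p7 : Fact (Nat.Prime 7) := ⟨by norm_num⟩
  have p5 : Fact (Nat.Prime 5) := ⟨by norm_num⟩
  have h5L : 5 ∣ Nat.card ↥(stp K a) := by
    rw [hca]
    norm_num
  obtain ⟨t, htL, ht7, ht1, htlt, htmod⟩ :=
    prime_elt (stp K a) hLM 7 (by rw [hca]; norm_num) (by norm_num)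
  have ht3 : (Finset.univ.filter (fun x => t x = x)).card = 3 := by omega
  obtain ⟨f, hfL, hf5, hf1, hflt, hfmod⟩ := prime_elt (stp K a) hLM 5 h5L (by norm_num)
  have hf4 : (Finset.univ.filter (fun x => f x = x)).card = 4 := by omega
  have hta : t a = a := htL.2
  have haF : a ∈ Finset.univ.filter (fun x => t x = x) :=
    Finset.mem_filter.2 ⟨Finset.mem_univ _, hta⟩
  have he2 : ((Finset.univ.filter (fun x => t x = x)).erase a).card = 2 := by
    rw [Finset.card_erase_of_mem haF, ht3]
  obtain ⟨u, v, huv, hE⟩ := Finset.card_eq_two.1 he2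
  have hum : u ∈ (Finset.univ.filter (fun x => t x = x)).erase a := by
    rw [hE]
    simp
  have hvm : v ∈ (Finset.univ.filter (fun x => t x = x)).erase a := by
    rw [hE]
    simp
  rw [Finset.mem_erase, Finset.mem_filter] at hum hvm
  obtain ⟨hua, -, htu⟩ := hum
  obtain ⟨hva, -, htv⟩ := hvm
  have htF : ∀ x, t x = x → x = a ∨ x = u ∨ x = v := by
    intro x hx
    by_cases hxa : x = a
    · exact Or.inl hxa
    · right
      have : x ∈ (Finset.univ.filter (fun x => t x = x)).erase a :=
        Finset.mem_erase.2 ⟨hxa, Finset.mem_filter.2 ⟨Finset.mem_univ _, hx⟩⟩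
      rw [hE, Finset.mem_insert, Finset.mem_singleton] at this
      exact this
  have hnotin : ∀ w, w ≠ a → a ∉ orb (stp K a) w := by
    intro w hw h
    obtain ⟨k, hk, e⟩ := mem_orb.1 h
    exact hw (k.injective (e.trans hk.2.symm))
  have hle23 : ∀ w, w ≠ a → (orb (stp K a) w).card ≤ 23 := by
    intro w hw
    have hsub : orb (stp K a) w ⊆ Finset.univ.erase a := by
      intro x hx
      rw [Finset.mem_erase]
      exact ⟨fun e => hnotin w hw (e ▸ hx), Finset.mem_univ _⟩
    have := Finset.card_le_card hsub
    rw [Finset.card_erase_of_mem (Finset.mem_univ _), Finset.card_univ, card_pts] at this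
    exact this
  have hcoU := card_orb' (stp K a) u
  rw [hca] at hcoU
  have hUinv : ∀ k ∈ stp K a, ∀ x, k x ∈ orb (stp K a) u ↔ x ∈ orb (stp K a) u :=
    fun k hk x => orb_inv hk x
  by_cases hv : v ∈ orb (stp K a) u
  · have hmod : (orb (stp K a) u).card % 7 = 2 := by
      have h := card_modEq_fixed t 7 ht7 (orb (stp K a) u) (hUinv t htL)
      have hf : (orb (stp K a) u).filter (fun x => t x = x) = {u, v} := by
        ext x
        simp only [Finset.mem_filter, Finset.mem_insert, Finset.mem_singleton]
        constructor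
        · rintro ⟨hx, htx⟩
          rcases htF x htx with h | h
          · exact absurd (h ▸ hx) (hnotin u hua)
          · exact h
        · rintro (rfl | rfl)
          · exact ⟨self_mem_orb _ _, htu⟩
          · exact ⟨hv, htv⟩
      rw [hf, Finset.card_pair huv] at h
      unfold Nat.ModEq at h
      omega
    have hsz : (orb (stp K a) u).card = 2 ∨ (orb (stp K a) u).card = 16 := by
      have h23 := hle23 u hua
      obtain ⟨m, hm⟩ : ∃ m, m = (orb (stp K a) u).card := ⟨_, rfl⟩
      rw [← hm] at hcoU hmod h23 ⊢
      have h4 : m = 2 ∨ m = 9 ∨ m = 16 ∨ m = 23 := by omega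
      rcases h4 with h | h | h | h
      · exact Or.inl h
      · rw [h] at hcoU
        omega
      · exact Or.inr h
      · rw [h] at hcoU
        omega
    rcases hsz with h2 | h16
    · have horb : orb (stp K a) u = {u, v} := by
        symm
        apply Finset.eq_of_subset_of_card_le
        · intro x hx
          rw [Finset.mem_insert, Finset.mem_singleton] at hx
          rcases hx with rfl | rfl
          · exact self_mem_orb _ _
          · exact hv
        · rw [h2, Finset.card_pair huv]
      apply no_duad K hK htr 13440 hca (by norm_num) (by norm_num) huv hua hva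
      intro k hk
      apply smul_eq_of_iff
      intro w
      rw [← horb]
      exact orb_inv hk w
    · obtain ⟨Q, hQ⟩ : ∃ Q : Finset GolayPt, Q = Finset.univ \ orb (stp K a) u := ⟨_, rfl⟩
      have hQ8 : Q.card = 8 := by
        rw [hQ, Finset.card_sdiff_of_subset (Finset.subset_univ _), Finset.card_univ, card_pts,
          h16]
      have hQmem : ∀ x, x ∈ Q ↔ x ∉ orb (stp K a) u := by
        intro x
        rw [hQ, Finset.mem_sdiff]
        simp
      have hQinv : ∀ k ∈ stp K a, ∀ x, k x ∈ Q ↔ x ∈ Q := by
        intro k hk x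
        rw [hQmem, hQmem, hUinv k hk x]
      obtain ⟨O, hO, hLO, hcase⟩ := inv8_oct (stp K a) hLM h5L Q hQ8 hQinv
      have hOQ : O = Q := by
        rcases hcase with h | ⟨-, o, hoQ, hofix⟩
        · exact h
        · exfalso
          rw [hQmem, not_not] at hoQ
          have h1 := orb_single hofix
          rw [orb_eq hoQ, h16] at h1
          omega
      have haO : a ∈ O := by
        rw [hOQ, hQmem]
        exact hnotin u hua
      have h7 : ∀ b ∈ O, b ≠ a → (orb (stp K a) b).card = 7 := by
        intro b hb hba
        rw [hOQ] at hb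
        have hsub : orb (stp K a) b ⊆ Q.erase a := by
          intro x hx
          obtain ⟨k, hk, rfl⟩ := mem_orb.1 hx
          rw [Finset.mem_erase]
          refine ⟨fun e => hba (k.injective (e.trans hk.2.symm)), (hQinv k hk b).2 hb⟩
        have hle := Finset.card_le_card hsub
        rw [Finset.card_erase_of_mem (by rw [← hOQ]; exact haO), hQ8] at hle
        have hm0 := orb_mod0' htL 7 ht7 (p := b) (fun x hx htx => by
          have hxQ : x ∈ Q := (Finset.mem_erase.1 (hsub hx)).2
          rw [hQmem] at hxQ
          rcases htF x htx with h | h | h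
          · exact hnotin b hba (h ▸ hx)
          · exact hxQ (h ▸ self_mem_orb _ _)
          · exact hxQ (h ▸ hv))
        have hpos := orb_pos (stp K a) b
        omega
      have h16' : ∀ y, y ∉ O → (orb (stp K a) y).card = 16 := by
        intro y hy
        rw [hOQ, hQmem, not_not] at hy
        rw [orb_eq hy, h16]
      exact oct_block_end K hK htr hO haO h5L hLO
        (oct_block_cnt K hO.2 haO hca hLO h7 h16')
  · have hmod : (orb (stp K a) u).card % 7 = 1 := by
      have h := orb_mod1' htL 7 ht7 htu (fun x hx htx => by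
        rcases htF x htx with h | h | h
        · exact absurd (h ▸ hx) (hnotin u hua)
        · exact h
        · exact absurd (h ▸ hx) hv)
      omega
    have hsz : (orb (stp K a) u).card = 1 ∨ (orb (stp K a) u).card = 8 ∨
        (orb (stp K a) u).card = 15 := by
      have h23 := hle23 u hua
      obtain ⟨m, hm⟩ : ∃ m, m = (orb (stp K a) u).card := ⟨_, rfl⟩
      rw [← hm] at hcoU hmod h23 ⊢
      have h4 : m = 1 ∨ m = 8 ∨ m = 15 ∨ m = 22 := by omega
      rcases h4 with h | h | h | h
      · exact Or.inl h
      · exact Or.inr (Or.inl h)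
      · exact Or.inr (Or.inr h)
      · rw [h] at hcoU
        omega
    rcases hsz with h1 | h8 | h15
    · have hLu : ∀ k ∈ stp K a, k u = u := fix_of_orb_one h1
      have hevenV := even_of_two_fix (stp K a) hLM hua.symm hca hLa hLu hva huv.symm
      have huV : u ∉ orb (stp K a) v := by
        intro h
        obtain ⟨k, hk, e⟩ := mem_orb.1 h
        exact huv (k.injective ((hLu k hk).trans e.symm))
      have hmodV : (orb (stp K a) v).card % 7 = 1 := by
        have h := orb_mod1' htL 7 ht7 htv (fun x hx htx => by
          rcases htF x htx with h | h | h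
          · exact absurd (h ▸ hx) (hnotin v hva)
          · exact absurd (h ▸ hx) huV
          · exact h)
        omega
      have hcoV := card_orb' (stp K a) v
      rw [hca] at hcoV
      have hV8 : (orb (stp K a) v).card = 8 := by
        have h23 := hle23 v hva
        obtain ⟨m, hm⟩ : ∃ m, m = (orb (stp K a) v).card := ⟨_, rfl⟩
        rw [← hm] at hcoV hmodV h23 hevenV ⊢
        obtain ⟨j, hj⟩ := hevenV
        have h4 : m = 8 ∨ m = 22 := by omega
        rcases h4 with h | h
        · exact h
        · rw [h] at hcoV
          omega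
      have h3 := fix_ge 5 hf5 (orb (stp K a) v) (fun x => orb_inv hfL x)
      rw [hV8] at h3
      have hdisj : Disjoint (orb (stp K a) v) ({a, u} : Finset GolayPt) := by
        rw [Finset.disjoint_left]
        intro x hx hx'
        rw [Finset.mem_insert, Finset.mem_singleton] at hx'
        rcases hx' with h | h
        · exact hnotin v hva (h ▸ hx)
        · exact huV (h ▸ hx)
      have h2 : (({a, u} : Finset GolayPt).filter (fun x => f x = x)).card = 2 := by
        have e : ({a, u} : Finset GolayPt).filter (fun x => f x = x) = {a, u} := by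
          apply Finset.filter_true_of_mem
          intro x hx
          rw [Finset.mem_insert, Finset.mem_singleton] at hx
          rcases hx with rfl | rfl
          · exact hfL.2
          · exact hLu f hfL
        rw [e, Finset.card_pair hua.symm]
      have := fix_two (f := f) hdisj
      omega
    · obtain ⟨O, hO, hLO, hcase⟩ := inv8_oct (stp K a) hLM h5L (orb (stp K a) u) h8 hUinv
      have hOU : O = orb (stp K a) u := by
        rcases hcase with h | ⟨⟨s, hsU, hsfix⟩, -⟩
        · exact h
        · exfalso
          have h1 := orb_single hsfix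
          rw [orb_eq hsU, h8] at h1
          omega
      have haO : a ∉ O := by
        rw [hOU]
        exact hnotin u hua
      have := oct_out_dvd (stp K a) hLM hO haO hLa hLO
      rw [hca] at this
      norm_num at this
    · obtain ⟨W, hW⟩ : ∃ W : Finset GolayPt,
          W = Finset.univ \ insert a (orb (stp K a) u) := ⟨_, rfl⟩
      have hWmem : ∀ x, x ∈ W ↔ x ≠ a ∧ x ∉ orb (stp K a) u := by
        intro x
        rw [hW, Finset.mem_sdiff, Finset.mem_insert, not_or]
        simp
      have hW8 : W.card = 8 := by
        rw [hW, Finset.card_sdiff_of_subset (Finset.subset_univ _), Finset.card_univ, card_pts,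
          Finset.card_insert_of_notMem (hnotin u hua), h15]
      have hWinv : ∀ k ∈ stp K a, ∀ x, k x ∈ W ↔ x ∈ W := by
        intro k hk x
        rw [hWmem, hWmem, hUinv k hk x, Ne, fix_iff hk.2 x]
      obtain ⟨O, hO, hLO, hcase⟩ := inv8_oct (stp K a) hLM h5L W hW8 hWinv
      rcases hcase with h | ⟨⟨s, hsW, hsfix⟩, -⟩
      · have haO : a ∉ O := by
          rw [h, hWmem]
          exact fun h' => h'.1 rfl
        have := oct_out_dvd (stp K a) hLM hO haO hLa hLO
        rw [hca] at this
        norm_num at this
      · rw [hWmem] at hsW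
        have hus : u ≠ s := fun e => hsW.2 (e ▸ self_mem_orb _ _)
        have := even_of_two_fix (stp K a) hLM (Ne.symm hsW.1) hca hLa hsfix hua hus
        rw [h15] at this
        omega

/-- Subgroups of order 322560 stabilise an octad. -/
theorem idx759 (K : Subgroup (Equiv.Perm GolayPt)) (hK : K ≤ M24) (hc : Nat.card K = 322560) :
    ∃ O ∈ octads, ∀ k ∈ K, k • O = O := by
  classical
  have h8 : ∀ v, 8 ∣ (orb K v).card := fun v =>
    orb_dvd_of_card K hK v 322560 8 40320 hc (by norm_num) (by norm_num) (by norm_num)
  by_cases hex : ∃ v, (orb K v).card = 8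
  · obtain ⟨v, hv⟩ := hex
    obtain ⟨O, hO, hKO, -⟩ := inv8_oct K hK (by rw [hc]; norm_num) (orb K v) hv
      (fun k hk x => orb_inv hk x)
    exact ⟨O, hO, hKO⟩
  · exfalso
    have h16 : ∀ v, 16 ≤ (orb K v).card := by
      intro v
      obtain ⟨j, hj⟩ := h8 v
      have := orb_pos K v
      have : (orb K v).card ≠ 8 := fun h => hex ⟨v, h⟩
      omega
    have h24 : ∀ v, (orb K v).card = 24 := by
      intro v
      by_contra hne
      have hv16 : (orb K v).card = 16 := by
        obtain ⟨j, hj⟩ := h8 v
        have := orb_le24 K v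
        have := h16 v
        omega
      obtain ⟨w, hw⟩ := ex_notMem (orb K v) (by omega)
      have hd : Disjoint (orb K v) (orb K w) := by
        rw [Finset.disjoint_left]
        intro x hx hx'
        have e1 := orb_eq hx
        have e2 := orb_eq hx'
        apply hw
        rw [← e1, e2]
        exact self_mem_orb K w
      have h1 := Finset.card_union_of_disjoint hd
      have h2 := Finset.card_le_univ (orb K v ∪ orb K w)
      rw [card_pts] at h2
      have := h16 w
      omega
    have htr := trans_of_card K h24
    have hca : Nat.card ↥(stp K (none : GolayPt)) = 13440 := by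
      have := card_orb' K (none : GolayPt)
      rw [hc, h24] at this
      omega
    exact no_trans759 K hK htr hca

end AutA
end Cfsg.Agent.Lib.Helper4
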