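import Cfsg.Agent.Lib.Helper4.AuA
import Cfsg.Agent.Lib.Helper4.Sx1
import Cfsg.Agent.S1550

set_option autoImplicit false

namespace Cfsg.Agent.Lib.Helper4
namespace AutA

open Pointwise Golay

/-- A transitive subgroup with point stabilisers of order 5760 has no stabiliser fixing two
points. -/
theorem sx_no_fix2 (K : Subgroup (Equiv.Perm GolayPt)) (hK : K ≤ M24)
    (htr : ∀ v w : GolayPt, ∃ k ∈ K, k v = w) {a b : GolayPt} (hab : a ≠ b)
    (hca : Nat.card ↥(stp K a) = 5760) (hfix : ∀ k ∈ stp K a, k b = b) : False := by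
  classical
  have hLM : stp K a ≤ M24 := inf_le_left.trans hK
  have hno3 : ∀ c, c ≠ a → c ≠ b → ¬ ∀ k ∈ stp K a, k c = c := by
    intro c hca' hcb hfc
    have h := card_dvd_20160 (stp K a) hLM (insert c {a, b}) (by
      rw [Finset.card_insert_of_notMem, Finset.card_pair hab]
      simp only [Finset.mem_insert, Finset.mem_singleton, not_or]
      exact ⟨hca', hcb⟩) (by
      intro k hk u hu
      simp only [Finset.mem_insert, Finset.mem_singleton] at hu
      rcases hu with rfl | rfl | rfl
      · exact hfc k hk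
      · exact hk.2
      · exact hfix k hk)
    rw [hca] at h
    norm_num at h
  obtain ⟨S, hS⟩ : ∃ S : Finset GolayPt, S = (Finset.univ.erase a).erase b := ⟨_, rfl⟩
  have hSmem : ∀ x, x ∈ S ↔ x ≠ b ∧ x ≠ a := by
    intro x
    rw [hS, Finset.mem_erase, Finset.mem_erase]
    simp
  have hSc : S.card = 22 := by
    rw [hS, Finset.card_erase_of_mem (Finset.mem_erase.2 ⟨hab.symm, Finset.mem_univ _⟩),
      Finset.card_erase_of_mem (Finset.mem_univ _), Finset.card_univ, card_pts]
  have h6 : ∀ c ∈ S, 6 ∣ (orb (stp K a) c).card := by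
    intro c hc
    rw [hSmem] at hc
    have h960 := two_fix K hK htr hab hfix hno3 hc.2 hc.1
    have hco := card_orb' (stp K a) c
    rw [hca] at hco
    obtain ⟨q, hq⟩ := h960
    refine ⟨q, ?_⟩
    apply Nat.eq_of_mul_eq_mul_right (Nat.card_pos (α := ↥(stp (stp K a) c)))
    calc (orb (stp K a) c).card * Nat.card ↥(stp (stp K a) c) = 5760 := hco.symm
      _ = 6 * 960 := by norm_num
      _ = 6 * q * Nat.card ↥(stp (stp K a) c) := by rw [hq, mul_assoc, mul_comm q]
  have h := orb_sum_dvd (stp K a) 6 22 S hSc (by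
    intro k hk x
    simp only [hSmem, ne_eq, fix_iff hk.2 x, fix_iff (hfix k hk) x]) h6
  rw [hSc] at h
  omega

/-- The point stabiliser has no orbit of length five. -/
theorem sx_no5 (K : Subgroup (Equiv.Perm GolayPt)) (hK : K ≤ M24) {a b : GolayPt}
    (hca : Nat.card ↥(stp K a) = 5760) (hba : b ≠ a)
    (h5 : (orb (stp K a) b).card = 5) : False := by
  classical
  have hLM : stp K a ≤ M24 := inf_le_left.trans hK
  have haB : a ∉ orb (stp K a) b := by
    intro h
    obtain ⟨k, hk, e⟩ := mem_orb.1 h
    exact hba (k.injective (e.trans hk.2.symm))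
  have hinv : ∀ k ∈ stp K a, k • orb (stp K a) b = orb (stp K a) b :=
    fun k hk => smul_eq_of_iff (fun w => orb_inv hk w)
  have hm : ∀ K' : Subgroup (Equiv.Perm GolayPt), K' ≤ stp K a →
      (∀ k ∈ K', ∀ u ∈ orb (stp K a) b, k u = u) → Nat.card K' ≤ 24 := by
    intro K' hK' hfix
    have h48 := card_dvd_48 K' (hK'.trans hLM) (orb (stp K a) b) h5 hfix
    by_contra hgt
    have h48' : Nat.card K' = 48 := by
      obtain ⟨n, hn⟩ : ∃ n, n = Nat.card K' := ⟨_, rfl⟩
      rw [← hn] at h48 hgt ⊢
      have hn48 : n ≤ 48 := Nat.le_of_dvd (by norm_num) h48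
      have hlo : 25 ≤ n := by omega
      interval_cases n <;> omega
    have p2 : Fact (Nat.Prime 2) := ⟨Nat.prime_two⟩
    have p3 : Fact (Nat.Prime 3) := ⟨Nat.prime_three⟩
    obtain ⟨t, htK, ht2, ht1⟩ := cauchy_elt K' 2 (by rw [h48']; norm_num)
    obtain ⟨σ, hσK, hσ3, hσ1⟩ := cauchy_elt K' 3 (by rw [h48']; norm_num)
    have ht2' : t * t = 1 := by
      rw [← pow_two]
      exact ht2
    obtain ⟨A4, hA4, hA4c⟩ :=
      Finset.exists_subset_card_eq (show 4 ≤ (orb (stp K a) b).card by omega)
    have hoct := inv_fix_octad (hLM (hK' htK)) ht2' ht1 A4 hA4c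
      (fun u hu => hfix t htK u (hA4 hu))
    have h1 := three_fix_oct (hLM (hK' hσK)) hσ3 hoct (insert a (orb (stp K a) b)) (by
      intro u hu
      rw [Finset.mem_filter]
      refine ⟨Finset.mem_univ _, ?_⟩
      rcases Finset.mem_insert.1 hu with rfl | hu
      · exact (hK' htK).2
      · exact hfix t htK u hu) (by rw [Finset.card_insert_of_notMem haB]; omega) (by
      intro u hu
      rcases Finset.mem_insert.1 hu with rfl | hu
      · exact (hK' hσK).2
      · exact hfix σ hσK u hu)
    exact hσ1 h1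
  have h := chainG (stp K a) (orb (stp K a) b) hinv 24 hm 5 (stp K a) le_rfl ∅
    (Finset.empty_subset _) (by rw [Finset.card_empty, h5]) (by
      intro k hk u hu
      exact absurd hu (Finset.notMem_empty u))
  rw [hca] at h
  norm_num [Nat.factorial] at h

/-- The point stabiliser has no orbit of length fifteen. -/
theorem sx_no15 (K : Subgroup (Equiv.Perm GolayPt)) (hK : K ≤ M24)
    (htr : ∀ v w : GolayPt, ∃ k ∈ K, k v = w) {a b : GolayPt}
    (hca : Nat.card ↥(stp K a) = 5760) (hba : b ≠ a)
    (h15 : (orb (stp K a) b).card = 15) : False := by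
  classical
  have hLM : stp K a ≤ M24 := inf_le_left.trans hK
  have hLa : ∀ k ∈ stp K a, k a = a := fun k hk => hk.2
  have haB : a ∉ orb (stp K a) b := by
    intro h
    obtain ⟨k, hk, e⟩ := mem_orb.1 h
    exact hba (k.injective (e.trans hk.2.symm))
  obtain ⟨W, hW⟩ : ∃ W : Finset GolayPt,
      W = Finset.univ \ insert a (orb (stp K a) b) := ⟨_, rfl⟩
  have hWmem : ∀ x, x ∈ W ↔ x ≠ a ∧ x ∉ orb (stp K a) b := by
    intro x
    rw [hW, Finset.mem_sdiff, Finset.mem_insert, not_or]
    simp
  have hW8 : W.card = 8 := by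
    rw [hW, Finset.card_sdiff_of_subset (Finset.subset_univ _), Finset.card_univ, card_pts,
      Finset.card_insert_of_notMem haB, h15]
  have hWinv : ∀ k ∈ stp K a, ∀ x, k x ∈ W ↔ x ∈ W := by
    intro k hk x
    rw [hWmem, hWmem, orb_inv hk x, Ne, fix_iff hk.2 x]
  obtain ⟨O, hO, hLO, hcase⟩ := inv8_oct (stp K a) hLM (by rw [hca]; norm_num) W hW8 hWinv
  rcases hcase with h | ⟨⟨s, hsW, hsfix⟩, -⟩
  · have haO : a ∉ O := by
      rw [h, hWmem]
      exact fun h' => h'.1 rfl
    have := oct_out_dvd (stp K a) hLM hO haO hLa hLO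
    rw [hca] at this
    norm_num at this
  · rw [hWmem] at hsW
    exact sx_no_fix2 K hK htr (Ne.symm hsW.1) hca hsfix

/-- An orbit of length three of the point stabiliser gives an invariant sextet. -/
theorem sx_three (K : Subgroup (Equiv.Perm GolayPt)) (hK : K ≤ M24)
    (htr : ∀ v w : GolayPt, ∃ k ∈ K, k v = w) {a b : GolayPt}
    (hca : Nat.card ↥(stp K a) = 5760) (hba : b ≠ a)
    (h3 : (orb (stp K a) b).card = 3) : ∃ S ∈ sextets, ∀ k ∈ K, k • S = S := by
  classical
  have hLM : stp K a ≤ M24 := inf_le_left.trans hK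
  have hnotin : a ∉ orb (stp K a) b := by
    intro h
    obtain ⟨k, hk, e⟩ := mem_orb.1 h
    exact hba (k.injective (e.trans hk.2.symm))
  obtain ⟨x, y, z, hxy, hxz, hyz, hB⟩ := Finset.card_eq_three.1 h3
  have hxB : x ∈ orb (stp K a) b := by
    rw [hB]
    simp
  have hyB : y ∈ orb (stp K a) b := by
    rw [hB]
    simp
  have hzB : z ∈ orb (stp K a) b := by
    rw [hB]
    simp
  have hBx : orb (stp K a) x = orb (stp K a) b := orb_eq hxB
  obtain ⟨T, hT⟩ : ∃ T : Finset GolayPt, T = insert a (orb (stp K a) b) := ⟨_, rfl⟩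
  have hTc : T.card = 4 := by
    rw [hT, Finset.card_insert_of_notMem hnotin, h3]
  have hTmem : ∀ w, w ∈ T ↔ w = a ∨ w = x ∨ w = y ∨ w = z := by
    intro w
    rw [hT, hB]
    simp
  have haT : a ∈ T := by
    rw [hTmem]
    exact Or.inl rfl
  have hLT : ∀ k ∈ stp K a, k • T = T := by
    intro k hk
    apply smul_eq_of_iff
    intro w
    rw [hT, Finset.mem_insert, Finset.mem_insert, fix_iff hk.2 w, orb_inv hk w]
  have p5 : Fact (Nat.Prime 5) := ⟨by norm_num⟩
  obtain ⟨f, hfL, hf5, hf1, hflt, hfmod⟩ :=
    prime_elt (stp K a) hLM 5 (by rw [hca]; norm_num) (by norm_num)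
  have hf4 : (Finset.univ.filter (fun x => f x = x)).card = 4 := by omega
  have h5T : ∀ φ ∈ stp K a, φ ^ 5 = 1 → ∀ w ∈ T, φ w = w := by
    intro φ hφ hφ5
    exact fix_all_of_small 5 hφ5 T (mem_of_smul_eq (hLT φ hφ)) (by rw [hTc]; norm_num)
  have hfT := h5T f hfL hf5
  have hFix : ∀ w, f w = w → w ∈ T := fixset0 hfT (by rw [hf4, hTc])
  have hA : ∀ k ∈ K, k a ∈ T → k • T = T := by
    intro k hk hka
    have hφL := conj_mem_stp hk hfL.1 (hfT _ hka)
    have hφT := h5T _ hφL (conj_pow5 5 hf5)
    apply smul_eq_of_maps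
    intro w hw
    exact hFix _ (conj_apply (hφT w hw))
  have hA' := block_of_base K htr hA
  have hLx : Nat.card ↥(stp (stp K a) x) = 1920 := by
    have := card_orb' (stp K a) x
    rw [hca, hBx, h3] at this
    omega
  have hNy : 960 ≤ Nat.card ↥(stp (stp (stp K a) x) y) := by
    have hco := card_orb' (stp (stp K a) x) y
    have horb : (orb (stp (stp K a) x) y).card ≤ 2 := by
      have hsub : orb (stp (stp K a) x) y ⊆ {y, z} := by
        intro v hv
        obtain ⟨k, hk, rfl⟩ := mem_orb.1 hv
        have h1 : k y ∈ orb (stp K a) b := (orb_inv hk.1 y).2 hyB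
        rw [hB] at h1
        simp only [Finset.mem_insert, Finset.mem_singleton] at h1 ⊢
        rcases h1 with h1 | h1 | h1
        · exact absurd (k.injective (h1.trans hk.2.symm)) hxy.symm
        · exact Or.inl h1
        · exact Or.inr h1
      exact (Finset.card_le_card hsub).trans Finset.card_le_two
    have := Nat.mul_le_mul horb (le_refl (Nat.card ↥(stp (stp (stp K a) x) y)))
    rw [← hco, hLx] at this
    omega
  have hNfix : ∀ g ∈ stp (stp (stp K a) x) y, ∀ w ∈ T, g w = w := by
    intro g hg w hw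
    rw [hTmem] at hw
    rcases hw with rfl | rfl | rfl | rfl
    · exact hg.1.1.2
    · exact hg.1.2
    · exact hg.2
    · have h1 : g w ∈ orb (stp K a) b := (orb_inv hg.1.1 w).2 hzB
      rw [hB] at h1
      simp only [Finset.mem_insert, Finset.mem_singleton] at h1
      rcases h1 with h1 | h1 | h1
      · exact absurd (g.injective (h1.trans hg.1.2.symm)) hxz.symm
      · exact absurd (g.injective (h1.trans hg.2.symm)) hyz.symm
      · exact h1
  obtain ⟨R, hR⟩ : ∃ R : Subgroup (Equiv.Perm GolayPt),
      R = stp (stp (stp (stp M24 a) x) y) z := ⟨_, rfl⟩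
  have hRM : R ≤ M24 := by
    rw [hR]
    exact ((inf_le_left.trans inf_le_left).trans inf_le_left).trans inf_le_left
  have hRfix : ∀ g ∈ R, ∀ w ∈ T, g w = w := by
    intro g hg w hw
    rw [hR] at hg
    rw [hTmem] at hw
    rcases hw with rfl | rfl | rfl | rfl
    · exact hg.1.1.1.2
    · exact hg.1.1.2
    · exact hg.1.2
    · exact hg.2
  have hRc : Nat.card R ∣ 960 := card_dvd_960 R hRM T hTc hRfix
  have hNR : stp (stp (stp K a) x) y ≤ R := by
    intro g hg
    rw [hR]
    have hfx := hNfix g hg
    exact ⟨⟨⟨⟨hK hg.1.1.1, hg.1.1.2⟩, hg.1.2⟩, hg.2⟩,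
      hfx z (by rw [hTmem]; exact Or.inr (Or.inr (Or.inr rfl)))⟩
  have hReq : stp (stp (stp K a) x) y = R :=
    Subgroup.eq_of_le_of_card_ge hNR ((Nat.le_of_dvd (by norm_num) hRc).trans hNy)
  have hRK : R ≤ K := by
    rw [← hReq]
    exact (inf_le_left.trans inf_le_left).trans inf_le_left
  have hR960 : Nat.card R = 960 :=
    le_antisymm (Nat.le_of_dvd (by norm_num) hRc) (by rw [← hReq]; exact hNy)
  have hTsx := Cfsg.Agent.S1550.sx_spec T hTc
  have hmem : ∀ k ∈ K, k • T ∈ Cfsg.Agent.S1550.sx T := by
    intro k hk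
    by_cases hkT : k • T = T
    · rw [hkT]
      exact hTsx.2.1
    · have hx' : k a ∉ T := fun h => hkT (hA k hk h)
      have hdisj : ∀ p ∈ T, k p ∉ T := fun p hp h => hkT (hA' k hk p hp h)
      have h5c : (insert (k a) T).card = 5 := by
        rw [Finset.card_insert_of_notMem hx', hTc]
      obtain ⟨O, hO, hTO⟩ := oct_through (insert (k a) T) h5c
      have hTO' : T ⊆ O := (Finset.subset_insert _ _).trans hTO
      have hkaO : k a ∈ O := hTO (Finset.mem_insert_self _ _)
      have hsub : k • T ⊆ O := by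
        intro w hw
        by_contra hwO
        have hRx : 48 ≤ Nat.card ↥(stp R (k a)) := by
          have hco := card_orb' R (k a)
          have horb : (orb R (k a)).card ≤ 20 := by
            have hsub' : orb R (k a) ⊆ Finset.univ \ T := by
              intro v hv
              obtain ⟨g, hg, rfl⟩ := mem_orb.1 hv
              rw [Finset.mem_sdiff]
              refine ⟨Finset.mem_univ _, fun h => ?_⟩
              have h1 := hRfix g hg _ h
              have e := g.injective h1
              rw [e] at h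
              exact hx' h
            have := Finset.card_le_card hsub'
            rw [Finset.card_sdiff_of_subset (Finset.subset_univ _), Finset.card_univ, card_pts,
              hTc] at this
            exact this
          have := Nat.mul_le_mul horb (le_refl (Nat.card ↥(stp R (k a))))
          rw [← hco, hR960] at this
          omega
        have hRxT : ∀ g ∈ stp R (k a), g • (k • T) = k • T := fun g hg =>
          conj_smul (hLT _ (conj_mem_stp hk (hRK hg.1) hg.2))
        have hwka : w ≠ k a := by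
          intro e
          rw [e] at hwO
          exact hwO hkaO
        have hkaT : k a ∈ k • T := Finset.smul_mem_smul_finset haT
        have horb2 : (orb (stp R (k a)) w).card ≤ 3 := by
          have hsub' : orb (stp R (k a)) w ⊆ (k • T).erase (k a) := by
            intro v hv
            obtain ⟨g, hg, rfl⟩ := mem_orb.1 hv
            rw [Finset.mem_erase]
            exact ⟨fun e => hwka (g.injective (e.trans hg.2.symm)),
              (mem_of_smul_eq (hRxT g hg) w).2 hw⟩
          have := Finset.card_le_card hsub'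
          rw [Finset.card_erase_of_mem hkaT, Finset.card_smul_finset, hTc] at this
          exact this
        have hco2 := card_orb' (stp R (k a)) w
        have h16 : 16 ≤ Nat.card ↥(stp (stp R (k a)) w) := by
          have := Nat.mul_le_mul horb2 (le_refl (Nat.card ↥(stp (stp R (k a)) w)))
          rw [← hco2] at this
          omega
        have h48 : Nat.card ↥(stp (stp R (k a)) w) ∣ 48 := by
          apply card_dvd_48 _ ((inf_le_left.trans inf_le_left).trans hRM) (insert (k a) T) h5c
          intro g hg u hu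
          rcases Finset.mem_insert.1 hu with rfl | hu
          · exact hg.1.2
          · exact hRfix g hg.1.1 u hu
        have h2 : 2 ∣ Nat.card ↥(stp (stp R (k a)) w) := by
          obtain ⟨n, hn⟩ : ∃ n, n = Nat.card ↥(stp (stp R (k a)) w) := ⟨_, rfl⟩
          rw [← hn] at h16 h48 ⊢
          have hn48 : n ≤ 48 := Nat.le_of_dvd (by norm_num) h48
          interval_cases n <;> omega
        have p2 : Fact (Nat.Prime 2) := ⟨Nat.prime_two⟩
        obtain ⟨t, htK, ht2, ht1⟩ := cauchy_elt _ 2 h2
        have ht2' : t * t = 1 := by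
          rw [← pow_two]
          exact ht2
        have htM : t ∈ M24 := hRM htK.1.1
        have hoct := inv_fix_octad htM ht2' ht1 T hTc (fun u hu => hRfix t htK.1.1 u hu)
        have h5' : 5 ≤ ((Finset.univ.filter (fun p => t p = p)) ∩ O).card := by
          calc 5 = (insert (k a) T).card := h5c.symm
            _ ≤ _ := Finset.card_le_card (fun u hu => Finset.mem_inter.2
              ⟨Finset.mem_filter.2 ⟨Finset.mem_univ _, by
                rcases Finset.mem_insert.1 hu with rfl | hu
                · exact htK.1.2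
                · exact hRfix t htK.1.1 u hu⟩, hTO hu⟩)
        have e := oct_eq hoct hO h5'
        apply hwO
        rw [← e]
        exact Finset.mem_filter.2 ⟨Finset.mem_univ _, htK.2⟩
      have heq : k • T = O \ T := by
        apply Finset.eq_of_subset_of_card_le
        · intro w hw
          rw [Finset.mem_sdiff]
          refine ⟨hsub hw, ?_⟩
          obtain ⟨p, hp, rfl⟩ := Finset.mem_smul_finset.1 hw
          exact hdisj p hp
        · rw [Finset.card_sdiff_of_subset hTO', hO.2, hTc, Finset.card_smul_finset, hTc]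
      rw [heq]
      unfold Cfsg.Agent.S1550.sx
      apply Finset.mem_insert_of_mem
      rw [Finset.mem_image]
      exact ⟨O, Finset.mem_filter.2 ⟨Steiner.mem_blocks.2 hO, hTO'⟩, rfl⟩
  refine ⟨Cfsg.Agent.S1550.sx T, hTsx.1, ?_⟩
  intro k hk
  have h1 : k • Cfsg.Agent.S1550.sx T ∈ sextets := Sx.smul_sextet (hK hk) hTsx.1
  have h2 : k • T ∈ k • Cfsg.Agent.S1550.sx T := Finset.smul_mem_smul_finset hTsx.2.1
  have hkTc : (k • T).card = 4 := by
    rw [Finset.card_smul_finset, hTc]
  have hkTsx := Cfsg.Agent.S1550.sx_spec (k • T) hkTc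
  have e1 := hkTsx.2.2 _ h1 h2
  have e2 := hkTsx.2.2 _ hTsx.1 (hmem k hk)
  rw [e1, ← e2]

/-- Subgroups of order 138240 stabilise a sextet. -/
theorem idx1771 (K : Subgroup (Equiv.Perm GolayPt)) (hK : K ≤ M24) (hc : Nat.card K = 138240) :
    ∃ S ∈ sextets, ∀ k ∈ K, k • S = S := by
  classical
  have horb : ∀ v, (orb K v).card = 24 := by
    intro v
    obtain ⟨q, hq⟩ := orb_dvd_of_card K hK v 138240 24 5760 hc (by norm_num) (by norm_num)
      (by norm_num)
    have h2 := orb_le24 K v
    have h3 := orb_pos K v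
    omega
  have htr := trans_of_card K horb
  obtain ⟨a, -⟩ : ∃ a : GolayPt, a = none := ⟨_, rfl⟩
  have hca : Nat.card ↥(stp K a) = 5760 := by
    have := card_orb' K a
    rw [hc, horb] at this
    omega
  have hLM : stp K a ≤ M24 := inf_le_left.trans hK
  obtain ⟨b, hba, hodd⟩ : ∃ b, b ≠ a ∧ ¬ 2 ∣ (orb (stp K a) b).card := by
    by_contra hcon
    have h := orb_sum_dvd (stp K a) 2 23 (Finset.univ.erase a) (by
      rw [Finset.card_erase_of_mem (Finset.mem_univ _), Finset.card_univ, card_pts]) (by
      intro k hk x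
      simp only [Finset.mem_erase, Finset.mem_univ, and_true, ne_eq, fix_iff hk.2 x]) (by
      intro v hv
      by_contra h2
      exact hcon ⟨v, (Finset.mem_erase.1 hv).1, h2⟩)
    rw [Finset.card_erase_of_mem (Finset.mem_univ _), Finset.card_univ, card_pts] at h
    omega
  have hnotin : a ∉ orb (stp K a) b := by
    intro h
    obtain ⟨k, hk, e⟩ := mem_orb.1 h
    exact hba (k.injective (e.trans hk.2.symm))
  have hle23 : (orb (stp K a) b).card ≤ 23 := by
    have hsub : orb (stp K a) b ⊆ Finset.univ.erase a := by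
      intro x hx
      rw [Finset.mem_erase]
      exact ⟨fun e => hnotin (e ▸ hx), Finset.mem_univ _⟩
    have := Finset.card_le_card hsub
    rw [Finset.card_erase_of_mem (Finset.mem_univ _), Finset.card_univ, card_pts] at this
    exact this
  have hco := card_orb' (stp K a) b
  rw [hca] at hco
  have p5 : Fact (Nat.Prime 5) := ⟨by norm_num⟩
  obtain ⟨f, hfL, hf5, hf1, hflt, hfmod⟩ :=
    prime_elt (stp K a) hLM 5 (by rw [hca]; norm_num) (by norm_num)
  have hf4 : (Finset.univ.filter (fun x => f x = x)).card = 4 := by omega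
  have hfB : ((orb (stp K a) b).filter (fun x => f x = x)).card ≤ 3 := by
    have hsub : (orb (stp K a) b).filter (fun x => f x = x) ⊆
        (Finset.univ.filter (fun x => f x = x)).erase a := by
      intro x hx
      rw [Finset.mem_filter] at hx
      rw [Finset.mem_erase, Finset.mem_filter]
      exact ⟨fun h => hnotin (h ▸ hx.1), Finset.mem_univ _, hx.2⟩
    have := Finset.card_le_card hsub
    have haF : a ∈ Finset.univ.filter (fun x => f x = x) :=
      Finset.mem_filter.2 ⟨Finset.mem_univ _, hfL.2⟩
    rw [Finset.card_erase_of_mem haF, hf4] at this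
    exact this
  have hmB := card_modEq_fixed f 5 hf5 (orb (stp K a) b) (fun x => orb_inv hfL x)
  unfold Nat.ModEq at hmB
  have hpos := orb_pos (stp K a) b
  have hsz : (orb (stp K a) b).card = 1 ∨ (orb (stp K a) b).card = 3 ∨
      (orb (stp K a) b).card = 5 ∨ (orb (stp K a) b).card = 15 := by
    obtain ⟨m, hm⟩ : ∃ m, m = (orb (stp K a) b).card := ⟨_, rfl⟩
    rw [← hm] at hco hodd hle23 hmB hpos ⊢
    interval_cases m <;> omega
  rcases hsz with h1 | h3 | h5 | h15
  · exact (sx_no_fix2 K hK htr hba.symm hca (fix_of_orb_one h1)).elim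
  · exact sx_three K hK htr hca hba h3
  · exact (sx_no5 K hK hca hba h5).elim
  · exact (sx_no15 K hK htr hca hba h15).elim

end AutA
end Cfsg.Agent.Lib.Helper4
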