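import Cfsg.Agent.Lib.Helper4.AuB

set_option autoImplicit false

namespace Cfsg.Agent.Lib.Helper4
namespace AutA

open Pointwise Golay

/-- The stabiliser of an octad has order at most 322560. -/
theorem oct_stab_le (J : Subgroup (Equiv.Perm GolayPt)) (hJ : J ≤ M24) {O : Finset GolayPt}
    (hO : O ∈ octads) (hinv : ∀ k ∈ J, k • O = O) : Nat.card J ≤ 322560 := by
  have hO8 : O.card = 8 := hO.2
  obtain ⟨x, hx⟩ : O.Nonempty := Finset.card_pos.1 (by rw [hO8]; norm_num)
  have hco := card_orb' J x
  have horb : (orb J x).card ≤ 8 := by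
    have hsub : orb J x ⊆ O := orb_sub hinv hx
    exact (Finset.card_le_card hsub).trans hO8.le
  have hst : Nat.card ↥(stp J x) ≤ 40320 :=
    oct_in_bound _ (inf_le_left.trans hJ) hO hx (fun k hk => hk.2) (fun k hk => hinv k hk.1)
  rw [hco]
  calc (orb J x).card * Nat.card ↥(stp J x) ≤ 8 * 40320 := Nat.mul_le_mul horb hst
    _ = 322560 := by norm_num

/-- The stabiliser of a pair of points has order at most 887040. -/
theorem duad_stab_le (J : Subgroup (Equiv.Perm GolayPt)) (hJ : J ≤ M24) {p q : GolayPt}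
    (hpq : p ≠ q) (hinv : ∀ k ∈ J, k • ({p, q} : Finset GolayPt) = {p, q}) :
    Nat.card J ≤ 887040 := by
  have hco := card_orb' J p
  have horb : (orb J p).card ≤ 2 := by
    have hsub : orb J p ⊆ {p, q} := orb_sub hinv (by simp)
    exact (Finset.card_le_card hsub).trans (by rw [Finset.card_pair hpq])
  have hst : Nat.card ↥(stp J p) ≤ 443520 := by
    rw [← card_stab2 p q hpq]
    apply Nat.le_of_dvd Nat.card_pos
    apply Subgroup.card_dvd_of_le
    intro k hk
    refine ⟨⟨hJ hk.1, hk.2⟩, ?_⟩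
    have h1 : k q ∈ ({p, q} : Finset GolayPt) := (mem_of_smul_eq (hinv k hk.1) q).2 (by simp)
    rw [Finset.mem_insert, Finset.mem_singleton] at h1
    rcases h1 with h1 | h1
    · exact absurd (k.injective (h1.trans hk.2.symm)) hpq.symm
    · exact h1
  rw [hco]
  calc (orb J p).card * Nat.card ↥(stp J p) ≤ 2 * 443520 := Nat.mul_le_mul horb hst
    _ = 887040 := by norm_num

end AutA
end Cfsg.Agent.Lib.Helper4
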