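import Cfsg.Agent.Lib.Helper4.AutS
import Cfsg.Agent.Lib.Helper4.Steiner

set_option autoImplicit false

namespace Cfsg.Agent.Lib.Helper4
namespace AutA

open Pointwise Golay

/-- Two octads meet in 0, 2, 4 or 8 points. -/
theorem oct_inter {o1 o2 : Finset GolayPt} (h1 : o1 ∈ octads) (h2 : o2 ∈ octads) :
    (o1 ∩ o2).card = 0 ∨ (o1 ∩ o2).card = 2 ∨ (o1 ∩ o2).card = 4 ∨ (o1 ∩ o2).card = 8 := by
  classical
  obtain ⟨⟨v, hv, rfl⟩, ho8⟩ := h1
  obtain ⟨⟨w, hw, rfl⟩, hd8⟩ := h2
  have h := inter_card v w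
  rw [card_support] at ho8 hd8
  rcases weights (v + w) (Submodule.add_mem _ hv hw) with h0 | h0 | h0 | h0 | h0 <;> omega

theorem oct_through (T : Finset GolayPt) (hT : T.card = 5) : ∃ O ∈ octads, T ⊆ O := by
  obtain ⟨b, ⟨hb, hTb⟩, -⟩ := Cfsg.Agent.S0363.result.2 T hT
  exact ⟨b, hb, hTb⟩

theorem oct_eq {O1 O2 : Finset GolayPt} (h1 : O1 ∈ octads) (h2 : O2 ∈ octads)
    (h : 5 ≤ (O1 ∩ O2).card) : O1 = O2 :=
  Steiner.eq_of_le_inter Cfsg.Agent.S0363.result h1 h2 h

theorem smul_oct_eq {σ : Equiv.Perm GolayPt} (hσ : σ ∈ M24) {O : Finset GolayPt}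
    (hO : O ∈ octads) (T : Finset GolayPt) (hTO : T ⊆ O) (hT : 5 ≤ T.card)
    (hfix : ∀ a ∈ T, σ a = a) : σ • O = O := by
  apply oct_eq (smul_mem_weight hσ hO) hO
  refine hT.trans (Finset.card_le_card ?_)
  intro a ha
  rw [Finset.mem_inter]
  refine ⟨?_, hTO ha⟩
  have := Finset.smul_mem_smul_finset (a := σ) (hTO ha)
  rw [Equiv.Perm.smul_def, hfix a ha] at this
  exact this

theorem smul_eq_of_iff {k : Equiv.Perm GolayPt} {S : Finset GolayPt}
    (h : ∀ w, k w ∈ S ↔ w ∈ S) : k • S = S := by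
  ext w
  rw [← Finset.inv_smul_mem_iff, ← h (k⁻¹ • w)]
  simp

/-- An element of order three fixing six points of an octad is trivial. -/
theorem three_fix_oct {σ : Equiv.Perm GolayPt} (hσ : σ ∈ M24) (h3 : σ ^ 3 = 1)
    {O : Finset GolayPt} (hO : O ∈ octads) (A : Finset GolayPt) (hAO : A ⊆ O) (hA : 6 ≤ A.card)
    (hfix : ∀ a ∈ A, σ a = a) : σ = 1 := by
  have p3 : Fact (Nat.Prime 3) := ⟨by norm_num⟩
  have hinv : σ • O = O := smul_oct_eq hσ hO A hAO (by omega) hfix
  have hm := card_modEq_fixed σ 3 h3 O (mem_of_smul_eq hinv)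
  have hO8 : O.card = 8 := hO.2
  have hle : (O.filter (fun x => σ x = x)).card ≤ 8 := by
    rw [← hO8]; exact Finset.card_le_card (Finset.filter_subset _ _)
  have hge : 6 ≤ (O.filter (fun x => σ x = x)).card := by
    refine hA.trans (Finset.card_le_card ?_)
    intro a ha
    exact Finset.mem_filter.2 ⟨hAO ha, hfix a ha⟩
  have h8 : (O.filter (fun x => σ x = x)).card = 8 := by
    rw [hO8] at hm
    unfold Nat.ModEq at hm
    omega
  have hall : O.filter (fun x => σ x = x) = O :=
    Finset.eq_of_subset_of_card_le (Finset.filter_subset _ _) (by rw [h8, hO8])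
  have hmem : σ ∈ M24 ⊓ fixingSubgroup (Equiv.Perm GolayPt) (O : Set GolayPt) := by
    rw [Subgroup.mem_inf, mem_fixingSubgroup_iff]
    refine ⟨hσ, ?_⟩
    intro y hy
    have : y ∈ O.filter (fun x => σ x = x) := by rw [hall]; exact Finset.mem_coe.1 hy
    exact (Finset.mem_filter.1 this).2
  have hsq := (fix_octad hO).2 σ hmem
  have e : σ ^ 3 = σ * σ * σ := by rw [pow_succ, pow_two]
  rw [e, hsq, one_mul] at h3
  exact h3

/-- An element of order three fixes at most six points. -/
theorem three_fix_le {σ : Equiv.Perm GolayPt} (hσ : σ ∈ M24) (h3 : σ ^ 3 = 1) (h1 : σ ≠ 1) :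
    (Finset.univ.filter (fun x => σ x = x)).card ≤ 6 := by
  classical
  by_contra hcon
  have h7 : 7 ≤ (Finset.univ.filter (fun x => σ x = x)).card := by omega
  have p3 : Fact (Nat.Prime 3) := ⟨by norm_num⟩
  obtain ⟨F, hF, hFc⟩ := Finset.exists_subset_card_eq h7
  have hFfix : ∀ a ∈ F, σ a = a := fun a ha => (Finset.mem_filter.1 (hF ha)).2
  obtain ⟨T, hT, hTc⟩ := Finset.exists_subset_card_eq (show 5 ≤ F.card by omega)
  obtain ⟨O1, hO1, hTO1⟩ := oct_through T hTc
  have hFO : (F ∩ O1).card ≤ 5 := by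
    by_contra h
    exact h1 (three_fix_oct hσ h3 hO1 (F ∩ O1) Finset.inter_subset_right (by omega)
      (fun a ha => hFfix a (Finset.mem_inter.1 ha).1))
  have hout : 2 ≤ (F \ O1).card := by
    have := Finset.card_sdiff_add_card_inter F O1
    omega
  obtain ⟨U, hU, hUc⟩ := Finset.exists_subset_card_eq hout
  obtain ⟨T3, hT3, hT3c⟩ := Finset.exists_subset_card_eq (show 3 ≤ T.card by omega)
  have hdisj : Disjoint T3 U := by
    rw [Finset.disjoint_left]
    intro a ha hau
    exact (Finset.mem_sdiff.1 (hU hau)).2 (hTO1 (hT3 ha))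
  have hT5 : (T3 ∪ U).card = 5 := by rw [Finset.card_union_of_disjoint hdisj, hT3c, hUc]
  obtain ⟨O2, hO2, hTO2⟩ := oct_through (T3 ∪ U) hT5
  have hfixT5 : ∀ a ∈ T3 ∪ U, σ a = a := by
    intro a ha
    rcases Finset.mem_union.1 ha with h | h
    · exact hFfix a (hT (hT3 h))
    · exact hFfix a (Finset.mem_sdiff.1 (hU h)).1
  have hinv1 : σ • O1 = O1 :=
    smul_oct_eq hσ hO1 T hTO1 (by omega) (fun a ha => hFfix a (hT ha))
  have hinv2 : σ • O2 = O2 := smul_oct_eq hσ hO2 (T3 ∪ U) hTO2 (by omega) hfixT5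
  have hsub3 : T3 ⊆ O1 ∩ O2 := fun a ha =>
    Finset.mem_inter.2 ⟨hTO1 (hT3 ha), hTO2 (Finset.mem_union_left _ ha)⟩
  have h3le : 3 ≤ (O1 ∩ O2).card := by rw [← hT3c]; exact Finset.card_le_card hsub3
  have hne : O1 ≠ O2 := by
    intro e
    obtain ⟨u, hu⟩ : U.Nonempty := by rw [← Finset.card_pos]; omega
    have : u ∈ O1 := by rw [e]; exact hTO2 (Finset.mem_union_right _ hu)
    exact (Finset.mem_sdiff.1 (hU hu)).2 this
  have h4 : (O1 ∩ O2).card = 4 := by
    rcases oct_inter hO1 hO2 with h | h | h | h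
    · omega
    · omega
    · exact h
    · exact absurd (oct_eq hO1 hO2 (by omega)) hne
  have hm := card_modEq_fixed σ 3 h3 (O1 ∩ O2) (fun x => by
    rw [Finset.mem_inter, Finset.mem_inter, mem_of_smul_eq hinv1, mem_of_smul_eq hinv2])
  have hge3 : 3 ≤ ((O1 ∩ O2).filter (fun x => σ x = x)).card := by
    rw [← hT3c]
    refine Finset.card_le_card ?_
    intro a ha
    exact Finset.mem_filter.2 ⟨hsub3 ha, hFfix a (hT (hT3 ha))⟩
  have hle4 : ((O1 ∩ O2).filter (fun x => σ x = x)).card ≤ 4 := by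
    rw [← h4]; exact Finset.card_le_card (Finset.filter_subset _ _)
  have hall4 : ((O1 ∩ O2).filter (fun x => σ x = x)).card = 4 := by
    rw [h4] at hm; unfold Nat.ModEq at hm; omega
  have hall : (O1 ∩ O2).filter (fun x => σ x = x) = O1 ∩ O2 :=
    Finset.eq_of_subset_of_card_le (Finset.filter_subset _ _) (by rw [hall4, h4])
  have hdisj2 : Disjoint (O1 ∩ O2) U := by
    rw [Finset.disjoint_left]
    intro a ha hau
    exact (Finset.mem_sdiff.1 (hU hau)).2 (Finset.mem_inter.1 ha).1
  apply h1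
  refine three_fix_oct hσ h3 hO2 ((O1 ∩ O2) ∪ U) ?_ ?_ ?_
  · intro a ha
    rcases Finset.mem_union.1 ha with h | h
    · exact (Finset.mem_inter.1 h).2
    · exact hTO2 (Finset.mem_union_right _ h)
  · rw [Finset.card_union_of_disjoint hdisj2, h4, hUc]
  · intro a ha
    rcases Finset.mem_union.1 ha with h | h
    · have : a ∈ (O1 ∩ O2).filter (fun x => σ x = x) := by rw [hall]; exact h
      exact (Finset.mem_filter.1 this).2
    · exact hFfix a (Finset.mem_sdiff.1 (hU h)).1

/-- An involution fixes an even number of points of every octad. -/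
theorem inv_even_oct {t : Equiv.Perm GolayPt} (ht : t ∈ M24) (h2 : t * t = 1)
    {O : Finset GolayPt} (hO : O ∈ octads) : (O.filter (fun x => t x = x)).card % 2 = 0 := by
  classical
  have p2 : Fact (Nat.Prime 2) := ⟨Nat.prime_two⟩
  have ht2 : t ^ 2 = 1 := by rw [pow_two]; exact h2
  have hinv : t⁻¹ = t := inv_eq_of_mul_eq_one_left h2
  have hX : ∀ x, t x ∈ O ∩ t • O ↔ x ∈ O ∩ t • O := by
    intro x
    rw [Finset.mem_inter, Finset.mem_inter]
    constructor
    · rintro ⟨ha, hb⟩
      refine ⟨(Finset.smul_mem_smul_finset_iff t).1 hb, ?_⟩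
      rw [← Finset.inv_smul_mem_iff, hinv]
      exact ha
    · rintro ⟨ha, hb⟩
      refine ⟨?_, Finset.smul_mem_smul_finset ha⟩
      rw [← Finset.inv_smul_mem_iff, hinv] at hb
      exact hb
  have hm := card_modEq_fixed t 2 ht2 (O ∩ t • O) hX
  have hfe : (O ∩ t • O).filter (fun x => t x = x) = O.filter (fun x => t x = x) := by
    ext x
    simp only [Finset.mem_filter, Finset.mem_inter]
    constructor
    · rintro ⟨⟨ha, -⟩, hx⟩
      exact ⟨ha, hx⟩
    · rintro ⟨ha, hx⟩
      refine ⟨⟨ha, ?_⟩, hx⟩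
      have := Finset.smul_mem_smul_finset (a := t) ha
      rw [Equiv.Perm.smul_def, hx] at this
      exact this
  rw [hfe] at hm
  unfold Nat.ModEq at hm
  rcases oct_inter hO (smul_mem_weight ht hO) with h | h | h | h <;> omega

/-- An involution fixing two points fixes exactly eight. -/
theorem inv_two_fix {t : Equiv.Perm GolayPt} (ht : t ∈ M24) (h2 : t * t = 1) (h1 : t ≠ 1)
    {p q : GolayPt} (hpq : p ≠ q) (hp : t p = p) (hq : t q = q) :
    (Finset.univ.filter (fun x => t x = x)).card = 8 := by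
  classical
  have p2 : Fact (Nat.Prime 2) := ⟨Nat.prime_two⟩
  have ht2 : t ^ 2 = 1 := by rw [pow_two]; exact h2
  have hm := card_modEq_fixed t 2 ht2 Finset.univ (fun x => by simp)
  rw [Finset.card_univ, card_pts] at hm
  have hsub : ({p, q} : Finset GolayPt) ⊆ Finset.univ.filter (fun x => t x = x) := by
    intro a ha
    rw [Finset.mem_insert, Finset.mem_singleton] at ha
    rcases ha with rfl | rfl
    · exact Finset.mem_filter.2 ⟨Finset.mem_univ _, hp⟩
    · exact Finset.mem_filter.2 ⟨Finset.mem_univ _, hq⟩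
  have hc2 : ({p, q} : Finset GolayPt).card = 2 := Finset.card_pair hpq
  have hge2 := Finset.card_le_card hsub
  rw [hc2] at hge2
  by_cases h4 : 4 ≤ (Finset.univ.filter (fun x => t x = x)).card
  · obtain ⟨A, hA, hAc⟩ := Finset.exists_subset_card_eq h4
    exact inv_fix8 ht h2 h1 A hAc (fun a ha => (Finset.mem_filter.1 (hA ha)).2)
  · exfalso
    have hc : (Finset.univ.filter (fun x => t x = x)).card = 2 := by
      unfold Nat.ModEq at hm; omega
    have hFeq : Finset.univ.filter (fun x => t x = x) = {p, q} :=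
      (Finset.eq_of_subset_of_card_le hsub (by rw [hc, hc2])).symm
    have key : ∀ O ∈ octads, p ∈ O → q ∈ O := by
      intro O hO hpO
      by_contra hqO
      have he : O.filter (fun x => t x = x) = {p} := by
        ext x
        rw [Finset.mem_filter, Finset.mem_singleton]
        constructor
        · rintro ⟨hx, hfx⟩
          have hxm : x ∈ Finset.univ.filter (fun x => t x = x) :=
            Finset.mem_filter.2 ⟨Finset.mem_univ _, hfx⟩
          rw [hFeq, Finset.mem_insert, Finset.mem_singleton] at hxm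
          rcases hxm with rfl | rfl
          · rfl
          · exact absurd hx hqO
        · rintro rfl
          exact ⟨hpO, hp⟩
      have := inv_even_oct ht h2 hO
      rw [he, Finset.card_singleton] at this
      omega
    have hcard : ((Finset.univ : Finset GolayPt) \ {p, q}).card = 22 := by
      rw [Finset.card_sdiff_of_subset (Finset.subset_univ _), Finset.card_univ, card_pts, hc2]
    obtain ⟨T4, hT4, hT4c⟩ := Finset.exists_subset_card_eq
      (show 4 ≤ ((Finset.univ : Finset GolayPt) \ {p, q}).card by omega)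
    have hpT : p ∉ T4 := fun h =>
      (Finset.mem_sdiff.1 (hT4 h)).2 (Finset.mem_insert_self _ _)
    have hqT : q ∉ T4 := fun h =>
      (Finset.mem_sdiff.1 (hT4 h)).2 (Finset.mem_insert_of_mem (Finset.mem_singleton_self _))
    have hT5 : (insert p T4).card = 5 := by rw [Finset.card_insert_of_notMem hpT, hT4c]
    obtain ⟨O, hO, hTO⟩ := oct_through _ hT5
    have hpO : p ∈ O := hTO (Finset.mem_insert_self _ _)
    have hqO := key O hO hpO
    obtain ⟨e, he⟩ : ∃ e, e ∉ O := by
      by_contra hall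
      have hOu : O = Finset.univ := by
        ext x
        simp only [Finset.mem_univ, iff_true]
        by_contra hx
        exact hall ⟨x, hx⟩
      have h8 : O.card = 8 := hO.2
      rw [hOu, Finset.card_univ, card_pts] at h8
      omega
    obtain ⟨T3, hT3, hT3c⟩ := Finset.exists_subset_card_eq (show 3 ≤ T4.card by omega)
    have hpT3 : p ∉ T3 := fun h => hpT (hT3 h)
    have heT3 : e ∉ insert p T3 := by
      intro h
      rcases Finset.mem_insert.1 h with rfl | h
      · exact he hpO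
      · exact he (hTO (Finset.mem_insert_of_mem (hT3 h)))
    have hT5' : (insert e (insert p T3)).card = 5 := by
      rw [Finset.card_insert_of_notMem heT3, Finset.card_insert_of_notMem hpT3, hT3c]
    obtain ⟨O', hO', hTO'⟩ := oct_through _ hT5'
    have hpO' : p ∈ O' := hTO' (Finset.mem_insert_of_mem (Finset.mem_insert_self _ _))
    have hqO' := key O' hO' hpO'
    have heO' : e ∈ O' := hTO' (Finset.mem_insert_self _ _)
    have hqT3 : q ∉ insert p T3 := by
      intro h
      rcases Finset.mem_insert.1 h with h | h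
      · exact hpq h.symm
      · exact hqT (hT3 h)
    have h5 : 5 ≤ (O ∩ O').card := by
      have hs : insert q (insert p T3) ⊆ O ∩ O' := by
        intro a ha
        rw [Finset.mem_inter]
        rcases Finset.mem_insert.1 ha with rfl | ha
        · exact ⟨hqO, hqO'⟩
        · refine ⟨?_, hTO' (Finset.mem_insert_of_mem ha)⟩
          rcases Finset.mem_insert.1 ha with rfl | ha
          · exact hpO
          · exact hTO (Finset.mem_insert_of_mem (hT3 ha))
      have := Finset.card_le_card hs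
      rw [Finset.card_insert_of_notMem hqT3, Finset.card_insert_of_notMem hpT3, hT3c] at this
      exact this
    have hOO := oct_eq hO hO' h5
    exact he (hOO ▸ heO')

/-- A subgroup fixing four points has order dividing 960. -/
theorem card_dvd_960 (K : Subgroup (Equiv.Perm GolayPt)) (hK : K ≤ M24) (A : Finset GolayPt)
    (hA : A.card = 4) (hfix : ∀ k ∈ K, ∀ a ∈ A, k a = a) : Nat.card K ∣ 960 := by
  let e := (A.equivFinOfCardEq hA).symm
  let x : Fin 4 ↪ GolayPt := e.toEmbedding.trans (Function.Embedding.subtype _)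
  obtain ⟨h, hh, hmap⟩ := exists_mapN (by norm_num : 4 ≤ 5) x ⟨fun i : Fin 4 => pt i.val, pt4_inj⟩
  have hle : K.map (MulAut.conj h).toMonoidHom ≤ KK [3, 2, 1, 0] := by
    rintro _ ⟨k, hk, rfl⟩
    rw [mem_KK]
    refine ⟨?_, ?_⟩
    · show h * k * h⁻¹ ∈ M24
      exact Subgroup.mul_mem _ (Subgroup.mul_mem _ hh (hK hk)) (Subgroup.inv_mem _ hh)
    · intro f hf
      have hf4 : f < 4 := by
        simp only [List.mem_cons, List.not_mem_nil, or_false] at hf
        omega
      have h1 : h (x ⟨f, hf4⟩) = pt f := hmap ⟨f, hf4⟩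
      show (h * k * h⁻¹) (pt f) = pt f
      rw [Equiv.Perm.mul_apply, Equiv.Perm.mul_apply, ← h1]
      have h2 : k (x ⟨f, hf4⟩) = x ⟨f, hf4⟩ := hfix k hk _ (e ⟨f, hf4⟩).2
      simp [h2]
  have hc : Nat.card (K.map (MulAut.conj h).toMonoidHom) = Nat.card K :=
    Subgroup.card_map_of_injective (MulAut.conj h).injective
  rw [← hc, ← card_KK4]
  exact Subgroup.card_dvd_of_le hle

/-- Two invariant five-sets without fixed points of an element of order five, sharing a point,
coincide. -/
theorem five_set_eq {f : Equiv.Perm GolayPt} (hf5 : f ^ 5 = 1) {S S' : Finset GolayPt}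
    (hS : ∀ x, f x ∈ S ↔ x ∈ S) (hS' : ∀ x, f x ∈ S' ↔ x ∈ S') (hc : S.card = 5)
    (hc' : S'.card = 5) (hnf : ∀ x ∈ S, f x ≠ x) {w : GolayPt} (hw : w ∈ S) (hw' : w ∈ S') :
    S = S' := by
  classical
  have p5 : Fact (Nat.Prime 5) := ⟨by norm_num⟩
  have hm := card_modEq_fixed f 5 hf5 (S ∩ S') (fun x => by
    rw [Finset.mem_inter, Finset.mem_inter, hS, hS'])
  have he : (S ∩ S').filter (fun x => f x = x) = ∅ := by
    rw [Finset.filter_eq_empty_iff]
    intro x hx
    exact hnf x (Finset.mem_inter.1 hx).1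
  rw [he, Finset.card_empty] at hm
  have hpos : 0 < (S ∩ S').card := Finset.card_pos.2 ⟨w, Finset.mem_inter.2 ⟨hw, hw'⟩⟩
  have hle : (S ∩ S').card ≤ 5 := by rw [← hc]; exact Finset.card_le_card Finset.inter_subset_left
  have h5 : (S ∩ S').card = 5 := by
    unfold Nat.ModEq at hm
    omega
  have e1 : S ∩ S' = S := Finset.eq_of_subset_of_card_le Finset.inter_subset_left (by rw [h5, hc])
  have e2 : S ∩ S' = S' :=
    Finset.eq_of_subset_of_card_le Finset.inter_subset_right (by rw [h5, hc'])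
  rw [← e1, e2]

end AutA
end Cfsg.Agent.Lib.Helper4
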