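import Cfsg.Agent.Lib.Helper4.AutT

set_option autoImplicit false

namespace Cfsg.Agent.Lib.Helper4
namespace AutA

open Pointwise Golay

/-- A nontrivial power of an element of order eleven fixing two points fixes nothing else. -/
theorem zpow_facts {g : Equiv.Perm GolayPt} (hg : g ∈ M24) (h11 : g ^ 11 = 1)
    {p q : GolayPt} (hpq : p ≠ q) (hgp : g p = p) (hgq : g q = q)
    {c : Equiv.Perm GolayPt} (hc : c ∈ Subgroup.zpowers g) (hc1 : c ≠ 1) :
    ∀ x, c x = x → x = p ∨ x = q := by
  have p11 : Fact (Nat.Prime 11) := ⟨by norm_num⟩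
  have hS : Subgroup.zpowers g ≤ (M24 ⊓ MulAction.stabilizer (Equiv.Perm GolayPt) p) ⊓
      MulAction.stabilizer (Equiv.Perm GolayPt) q := by
    rw [Subgroup.zpowers_le]
    exact ⟨⟨hg, hgp⟩, hgq⟩
  have hcS := hS hc
  have hcM : c ∈ M24 := hcS.1.1
  have hcp : c p = p := hcS.1.2
  have hcq : c q = q := hcS.2
  have hc11 : c ^ 11 = 1 := by
    obtain ⟨k, rfl⟩ := Subgroup.mem_zpowers_iff.1 hc
    rw [← zpow_natCast, ← zpow_mul, mul_comm, zpow_mul, zpow_natCast, h11, one_zpow]
  obtain ⟨hlt, hmod⟩ := fixed_card hcM 11 hc11 hc1 (by norm_num)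
  have hcard : (Finset.univ.filter (fun x => c x = x)).card = ({p, q} : Finset GolayPt).card := by
    rw [Finset.card_pair hpq]
    unfold Nat.ModEq at hmod
    omega
  intro x hx
  have := fixset0 (A := {p, q}) (by
    intro a ha
    rw [Finset.mem_insert, Finset.mem_singleton] at ha
    rcases ha with rfl | rfl
    · exact hcp
    · exact hcq) hcard x hx
  rwa [Finset.mem_insert, Finset.mem_singleton] at this

/-- No involution fixing the two fixed points of an element of order eleven normalises it. -/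
theorem no_inv_norm {g t : Equiv.Perm GolayPt} (hg : g ∈ M24) (ht : t ∈ M24)
    (h11 : g ^ 11 = 1) (hg1 : g ≠ 1) (h2 : t * t = 1) (ht1 : t ≠ 1)
    (hn : t * g * t⁻¹ ∈ Subgroup.zpowers g) {p q : GolayPt} (hpq : p ≠ q)
    (hgp : g p = p) (hgq : g q = q) (htp : t p = p) (htq : t q = q) : False := by
  classical
  have p11 : Fact (Nat.Prime 11) := ⟨by norm_num⟩
  have hF8 := inv_two_fix ht h2 ht1 hpq htp htq
  have hfixc := fun c hc hc1 => zpow_facts hg h11 hpq hgp hgq (c := c) hc hc1
  obtain ⟨F, hFdef⟩ : ∃ F, F = Finset.univ.filter (fun x => t x = x) := ⟨_, rfl⟩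
  rw [← hFdef] at hF8
  have hmemF : ∀ x, x ∈ F ↔ t x = x := fun x => by rw [hFdef, Finset.mem_filter]; simp
  have hpF : p ∈ F := (hmemF p).2 htp
  have hqF : q ∈ F := (hmemF q).2 htq
  by_cases hs : t * g * t⁻¹ = g
  · have htg : t * g = g * t := by
      calc t * g = t * g * t⁻¹ * t := by group
        _ = g * t := by rw [hs]
    have hinvF : ∀ x, g x ∈ F ↔ x ∈ F := by
      intro x
      rw [hmemF, hmemF]
      have e : t (g x) = g (t x) := by
        rw [← Equiv.Perm.mul_apply, htg, Equiv.Perm.mul_apply]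
      rw [e]
      exact g.injective.eq_iff
    have hm := card_modEq_fixed g 11 h11 F hinvF
    have he : F.filter (fun x => g x = x) = {p, q} := by
      ext x
      rw [Finset.mem_filter, Finset.mem_insert, Finset.mem_singleton]
      constructor
      · rintro ⟨-, hx⟩
        exact hfixc g (Subgroup.mem_zpowers g) hg1 x hx
      · rintro (rfl | rfl)
        · exact ⟨hpF, hgp⟩
        · exact ⟨hqF, hgq⟩
    rw [he, Finset.card_pair hpq, hF8] at hm
    unfold Nat.ModEq at hm
    omega
  · obtain ⟨s, hsdef⟩ : ∃ s, s = t * g * t⁻¹ := ⟨_, rfl⟩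
    rw [← hsdef] at hn hs
    have hcs : Commute g s := by
      obtain ⟨k, hk⟩ := Subgroup.mem_zpowers_iff.1 hn
      rw [← hk]
      exact (Commute.refl g).zpow_right k
    obtain ⟨c, hcdef⟩ : ∃ c, c = g⁻¹ * s := ⟨_, rfl⟩
    have hcz : c ∈ Subgroup.zpowers g := by
      rw [hcdef]
      exact Subgroup.mul_mem _ (Subgroup.inv_mem _ (Subgroup.mem_zpowers g)) hn
    have hc1 : c ≠ 1 := by
      intro h
      apply hs
      have e : s = g * c := by rw [hcdef]; group
      rw [e, h, mul_one]
    have hc11 : c ^ 11 = 1 := by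
      obtain ⟨k, hk⟩ := Subgroup.mem_zpowers_iff.1 hcz
      rw [← hk, ← zpow_natCast, ← zpow_mul, mul_comm, zpow_mul, zpow_natCast, h11, one_zpow]
    have key : ∀ m : ℕ, 0 < m → m < 11 → ∀ x ∈ F, x ≠ p → x ≠ q → (g ^ m) x ∉ F := by
      intro m hm0 hm11 x hx hxp hxq hcon
      rw [hmemF] at hx hcon
      have h1 : t * g ^ m = s ^ m * t := by
        rw [hsdef, conj_pow]; group
      have h2' : t ((g ^ m) x) = (s ^ m) x := by
        rw [← Equiv.Perm.mul_apply, h1, Equiv.Perm.mul_apply, hx]
      rw [h2'] at hcon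
      have h3 : (c ^ m) x = x := by
        have e : c ^ m = (g ^ m)⁻¹ * s ^ m := by
          rw [hcdef, (hcs.inv_left).mul_pow, inv_pow]
        rw [e, Equiv.Perm.mul_apply, hcon]
        simp
      have hcm1 : c ^ m ≠ 1 := by
        intro h
        have h5 := pow_gcd_eq_one.2 ⟨h, hc11⟩
        have hgcd : Nat.gcd m 11 = 1 := by
          have h6 : Nat.Coprime 11 m :=
            (Nat.Prime.coprime_iff_not_dvd (by norm_num)).2 (by omega)
          exact h6.symm
        rw [hgcd, pow_one] at h5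
        exact hc1 h5
      rcases hfixc (c ^ m) (Subgroup.pow_mem _ hcz m) hcm1 x h3 with h | h
      · exact hxp h
      · exact hxq h
    obtain ⟨F', hF'def⟩ : ∃ F', F' = F \ {p, q} := ⟨_, rfl⟩
    have hpqF : ({p, q} : Finset GolayPt) ⊆ F := by
      intro a ha
      rw [Finset.mem_insert, Finset.mem_singleton] at ha
      rcases ha with rfl | rfl
      · exact hpF
      · exact hqF
    have hF'c : F'.card = 6 := by
      rw [hF'def, Finset.card_sdiff_of_subset hpqF, hF8, Finset.card_pair hpq]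
    have hF'mem : ∀ x ∈ F', x ∈ F ∧ x ≠ p ∧ x ≠ q := by
      intro x hx
      rw [hF'def, Finset.mem_sdiff, Finset.mem_insert, Finset.mem_singleton] at hx
      exact ⟨hx.1, fun h => hx.2 (Or.inl h), fun h => hx.2 (Or.inr h)⟩
    have aux : ∀ i j : ℕ, i < j → j < 4 →
        Disjoint (F'.image (fun x => (g ^ i) x)) (F'.image (fun x => (g ^ j) x)) := by
      intro i j hij hj
      rw [Finset.disjoint_left]
      intro y hy1 hy2
      obtain ⟨x, hx, rfl⟩ := Finset.mem_image.1 hy1
      obtain ⟨x', hx', hxx⟩ := Finset.mem_image.1 hy2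
      have hji : g ^ j = g ^ i * g ^ (j - i) := by
        rw [← pow_add]
        congr 1
        omega
      rw [hji, Equiv.Perm.mul_apply] at hxx
      have hxx' := (g ^ i).injective hxx
      obtain ⟨hx'F, hx'p, hx'q⟩ := hF'mem x' hx'
      exact key (j - i) (by omega) (by omega) x' hx'F hx'p hx'q (hxx' ▸ (hF'mem x hx).1)
    have hdis : ∀ i ∈ Finset.range 4, ∀ j ∈ Finset.range 4, i ≠ j →
        Disjoint (F'.image (fun x => (g ^ i) x)) (F'.image (fun x => (g ^ j) x)) := by
      intro i hi j hj hij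
      rw [Finset.mem_range] at hi hj
      rcases Nat.lt_or_gt_of_ne hij with h | h
      · exact aux i j h hj
      · exact (aux j i h hi).symm
    have hcardU : ((Finset.range 4).biUnion
        (fun i => F'.image (fun x => (g ^ i) x))).card = 24 := by
      rw [Finset.card_biUnion hdis]
      have h6 : ∀ i ∈ Finset.range 4, (F'.image (fun x => (g ^ i) x)).card = 6 := by
        intro i _
        rw [Finset.card_image_of_injective _ (g ^ i).injective, hF'c]
      rw [Finset.sum_congr rfl h6]
      simp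
    have hsubU : (Finset.range 4).biUnion (fun i => F'.image (fun x => (g ^ i) x))
        ⊆ Finset.univ \ {p, q} := by
      intro y hy
      obtain ⟨i, -, hy⟩ := Finset.mem_biUnion.1 hy
      obtain ⟨x, hx, rfl⟩ := Finset.mem_image.1 hy
      obtain ⟨-, hxp, hxq⟩ := hF'mem x hx
      rw [Finset.mem_sdiff]
      refine ⟨Finset.mem_univ _, ?_⟩
      intro h
      rw [Finset.mem_insert, Finset.mem_singleton] at h
      have hgip : (g ^ i) p = p :=
        Subgroup.pow_mem (MulAction.stabilizer (Equiv.Perm GolayPt) p) hgp i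
      have hgiq : (g ^ i) q = q :=
        Subgroup.pow_mem (MulAction.stabilizer (Equiv.Perm GolayPt) q) hgq i
      rcases h with h | h
      · exact hxp ((g ^ i).injective (h.trans hgip.symm))
      · exact hxq ((g ^ i).injective (h.trans hgiq.symm))
    have hle := Finset.card_le_card hsubU
    rw [hcardU, Finset.card_sdiff_of_subset (Finset.subset_univ _), Finset.card_univ, card_pts,
      Finset.card_pair hpq] at hle
    omega

theorem n11_val (n : ℕ) (hd : n ∣ 192) (hmod : n % 11 = 1) : n = 1 ∨ n = 12 := by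
  have hmem : n ∈ Nat.divisors 192 := Nat.mem_divisors.mpr ⟨hd, by norm_num⟩
  simp only [Nat.divisors_ofNat, Finset.mem_insert, Finset.mem_singleton] at hmem
  omega

/-- No subgroup of order 2112 fixes two points. -/
theorem no2112 (K : Subgroup (Equiv.Perm GolayPt)) (hK : K ≤ M24) {p q : GolayPt} (hpq : p ≠ q)
    (hp : ∀ k ∈ K, k p = p) (hq : ∀ k ∈ K, k q = q) (hc : Nat.card K = 2112) : False := by
  classical
  have p11 : Fact (Nat.Prime 11) := ⟨by norm_num⟩
  have p2 : Fact (Nat.Prime 2) := ⟨Nat.prime_two⟩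
  obtain ⟨P⟩ : Nonempty (Sylow 11 K) := inferInstance
  have hP : Nat.card (P : Subgroup K) = 11 := by
    rw [Sylow.card_eq_multiplicity, hc]
    have e : (2112 : ℕ) = 11 ^ 1 * 192 := by norm_num
    rw [e, Nat.factorization_mul (by norm_num) (by norm_num),
      Nat.Prime.factorization_pow (by norm_num : Nat.Prime 11)]
    simp [Nat.factorization_eq_zero_of_not_dvd (show ¬ 11 ∣ 192 by norm_num)]
  have hidx : (P : Subgroup K).index = 192 := by
    have h1 := Subgroup.index_mul_card (P : Subgroup K)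
    rw [hP, hc] at h1
    omega
  have hn1 : Nat.card (Sylow 11 K) ∣ 192 := by
    rw [← hidx]
    exact Sylow.card_dvd_index P
  have hn2 : Nat.card (Sylow 11 K) % 11 = 1 := by
    have h := card_sylow_modEq_one 11 K
    unfold Nat.ModEq at h
    rw [h]
  have hn3 : Nat.card (Sylow 11 K) *
      Nat.card (Subgroup.normalizer ((P : Subgroup K) : Set K)) = Nat.card K := by
    rw [Sylow.card_eq_index_normalizer P]
    exact Subgroup.index_mul_card _
  have hN2 : 2 ∣ Nat.card ↥(Subgroup.normalizer ((P : Subgroup K) : Set K)) := by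
    rw [hc] at hn3
    rcases n11_val _ hn1 hn2 with h | h <;> rw [h] at hn3 <;> omega
  obtain ⟨t, ht⟩ := exists_prime_orderOf_dvd_card'
    (G := ↥(Subgroup.normalizer ((P : Subgroup K) : Set K))) 2 hN2
  obtain ⟨g, hg⟩ := exists_prime_orderOf_dvd_card' (G := ↥(P : Subgroup K)) 11 (by rw [hP])
  have hg11 : ((g : K) : Equiv.Perm GolayPt) ^ 11 = 1 := by
    have h := pow_orderOf_eq_one g
    rw [hg] at h
    have h2 := congrArg (fun z : ↥(P : Subgroup K) => ((z : K) : Equiv.Perm GolayPt)) h
    simpa using h2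
  have hg1 : ((g : K) : Equiv.Perm GolayPt) ≠ 1 := by
    intro h
    have e : g = 1 := Subtype.ext (Subtype.ext h)
    rw [e, orderOf_one] at hg
    omega
  have ht2 : ((t : K) : Equiv.Perm GolayPt) * ((t : K) : Equiv.Perm GolayPt) = 1 := by
    have h := pow_orderOf_eq_one t
    rw [ht, pow_two] at h
    have h2 := congrArg (fun z : ↥(Subgroup.normalizer ((P : Subgroup K) : Set K)) =>
      ((z : K) : Equiv.Perm GolayPt)) h
    simpa using h2
  have ht1 : ((t : K) : Equiv.Perm GolayPt) ≠ 1 := by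
    intro h
    have e : t = 1 := Subtype.ext (Subtype.ext h)
    rw [e, orderOf_one] at ht
    omega
  have hnorm : (t : K) * (g : K) * (t : K)⁻¹ ∈ (P : Subgroup K) := (t.2 (g : K)).mp g.2
  have hg1' : g ≠ 1 := by
    intro h
    rw [h, orderOf_one] at hg
    omega
  have hz : (⟨(t : K) * (g : K) * (t : K)⁻¹, hnorm⟩ : ↥(P : Subgroup K)) ∈ Subgroup.zpowers g :=
    mem_zpowers_of_prime_card hP hg1'
  obtain ⟨k, hk⟩ := Subgroup.mem_zpowers_iff.1 hz
  have hk' : ((g : K) : Equiv.Perm GolayPt) ^ k = ((t : K) : Equiv.Perm GolayPt) *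
      ((g : K) : Equiv.Perm GolayPt) * ((t : K) : Equiv.Perm GolayPt)⁻¹ := by
    have h2 := congrArg (fun z : ↥(P : Subgroup K) => ((z : K) : Equiv.Perm GolayPt)) hk
    simpa using h2
  exact no_inv_norm (hK (g : K).2) (hK (t : K).2) hg11 hg1 ht2 ht1
    (Subgroup.mem_zpowers_iff.2 ⟨k, hk'⟩) hpq (hp _ (g : K).2) (hq _ (g : K).2)
    (hp _ (t : K).2) (hq _ (t : K).2)

end AutA
end Cfsg.Agent.Lib.Helper4
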