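import Cfsg.Agent.Lib.Helper4.AutU

set_option autoImplicit false
set_option maxHeartbeats 1000000

namespace Cfsg.Agent.Lib.Helper4
namespace AutA

open Pointwise Golay

theorem fix_iff {k : Equiv.Perm GolayPt} {a : GolayPt} (h : k a = a) (v : GolayPt) :
    k v = a ↔ v = a := by
  constructor
  · intro e
    exact k.injective (e.trans h.symm)
  · intro e
    rw [e, h]

/-- No subgroup of order 7920 fixes two points. -/
theorem no7920 (K : Subgroup (Equiv.Perm GolayPt)) (hK : K ≤ M24) {p q : GolayPt} (hpq : p ≠ q)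
    (hp : ∀ k ∈ K, k p = p) (hq : ∀ k ∈ K, k q = q) (hc : Nat.card K = 7920) : False := by
  classical
  have p11 : Fact (Nat.Prime 11) := ⟨by norm_num⟩
  have p5 : Fact (Nat.Prime 5) := ⟨by norm_num⟩
  have p3 : Fact (Nat.Prime 3) := ⟨by norm_num⟩
  obtain ⟨g, hgK, hg11, hg1, hglt, hgmod⟩ :=
    prime_elt K hK 11 (by rw [hc]; norm_num) (by norm_num)
  have hA2c : ({p, q} : Finset GolayPt).card = 2 := Finset.card_pair hpq
  have hfix2 : ∀ k ∈ K, ∀ a ∈ ({p, q} : Finset GolayPt), k a = a := by
    intro k hk a ha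
    rw [Finset.mem_insert, Finset.mem_singleton] at ha
    rcases ha with rfl | rfl
    · exact hp k hk
    · exact hq k hk
  have hgF : ∀ x, g x = x → x ∈ ({p, q} : Finset GolayPt) :=
    fixset0 (hfix2 g hgK) (by rw [hA2c]; omega)
  obtain ⟨f, hfK, hf5, hf1, hflt, hfmod⟩ :=
    prime_elt K hK 5 (by rw [hc]; norm_num) (by norm_num)
  have hfc : (Finset.univ.filter (fun x => f x = x)).card = 4 := by omega
  have hsubf : ({p, q} : Finset GolayPt) ⊆ Finset.univ.filter (fun x => f x = x) := fun a ha =>
    Finset.mem_filter.2 ⟨Finset.mem_univ _, hfix2 f hfK a ha⟩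
  have hrest : ((Finset.univ.filter (fun x => f x = x)) \ {p, q}).card = 2 := by
    rw [Finset.card_sdiff_of_subset hsubf, hfc, hA2c]
  obtain ⟨x, y, hxy, hxyeq⟩ := Finset.card_eq_two.1 hrest
  have hxm : x ∈ (Finset.univ.filter (fun x => f x = x)) \ {p, q} := by rw [hxyeq]; simp
  have hym : y ∈ (Finset.univ.filter (fun x => f x = x)) \ {p, q} := by rw [hxyeq]; simp
  have hfx : f x = x := (Finset.mem_filter.1 (Finset.mem_sdiff.1 hxm).1).2
  have hfy : f y = y := (Finset.mem_filter.1 (Finset.mem_sdiff.1 hym).1).2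
  have hx2 : x ∉ ({p, q} : Finset GolayPt) := (Finset.mem_sdiff.1 hxm).2
  have hy2 : y ∉ ({p, q} : Finset GolayPt) := (Finset.mem_sdiff.1 hym).2
  have hfF : ∀ w, f w = w → w ∈ ({p, q} : Finset GolayPt) ∨ w = x ∨ w = y := by
    intro w hw
    by_cases hw2 : w ∈ ({p, q} : Finset GolayPt)
    · exact Or.inl hw2
    · right
      have hwm : w ∈ (Finset.univ.filter (fun x => f x = x)) \ {p, q} :=
        Finset.mem_sdiff.2 ⟨Finset.mem_filter.2 ⟨Finset.mem_univ _, hw⟩, hw2⟩
      rw [hxyeq, Finset.mem_insert, Finset.mem_singleton] at hwm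
      exact hwm
  -- the orbit of x
  have hXmod : (orb K x).card % 11 = 0 := orb_mod0 hfix2 hx2 hgK 11 hg11 hgF
  have hXle : (orb K x).card + ({p, q} : Finset GolayPt).card ≤ 24 := orb_card_le hfix2 hx2
  have hXpos : 0 < (orb K x).card := Finset.card_pos.2 ⟨x, self_mem_orb K x⟩
  have hcx := card_orb K x
  rw [hc] at hcx
  obtain ⟨Kx, hKxdef⟩ : ∃ Kx, Kx = K ⊓ MulAction.stabilizer (Equiv.Perm GolayPt) x := ⟨_, rfl⟩
  rw [← hKxdef] at hcx
  have hKxK : Kx ≤ K := by rw [hKxdef]; exact inf_le_left
  have hKxx : ∀ k ∈ Kx, k x = x := by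
    intro k hk
    rw [hKxdef] at hk
    exact hk.2
  have hfKx : f ∈ Kx := by rw [hKxdef]; exact ⟨hfK, hfx⟩
  have hKxc : ((orb K x).card = 11 ∧ Nat.card Kx = 720) ∨
      ((orb K x).card = 22 ∧ Nat.card Kx = 360) := by
    have h1 : (orb K x).card = 11 ∨ (orb K x).card = 22 := by rw [hA2c] at hXle; omega
    rcases h1 with h | h
    · left
      refine ⟨h, ?_⟩
      rw [h] at hcx
      omega
    · right
      refine ⟨h, ?_⟩
      rw [h] at hcx
      omega
  have hA3c : (insert x ({p, q} : Finset GolayPt)).card = 3 := by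
    rw [Finset.card_insert_of_notMem hx2, hA2c]
  have hfix3 : ∀ k ∈ Kx, ∀ a ∈ insert x ({p, q} : Finset GolayPt), k a = a := by
    intro k hk a ha
    rcases Finset.mem_insert.1 ha with rfl | ha
    · exact hKxx k hk
    · exact hfix2 k (hKxK hk) a ha
  have hy3 : y ∉ insert x ({p, q} : Finset GolayPt) := by
    intro h
    rcases Finset.mem_insert.1 h with h | h
    · exact hxy h.symm
    · exact hy2 h
  have hΔmod : (orb Kx y).card % 5 = 1 % 5 := orb_mod1 hfix3 hy3 hfKx 5 hf5 hfy (by
    intro w hw
    rcases hfF w hw with h | h | h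
    · exact Or.inl (Finset.mem_insert_of_mem h)
    · exact Or.inl (h ▸ Finset.mem_insert_self _ _)
    · exact Or.inr h)
  have hΔle : (orb Kx y).card + (insert x ({p, q} : Finset GolayPt)).card ≤ 24 :=
    orb_card_le hfix3 hy3
  rw [hA3c] at hΔle
  have hcy := card_orb Kx y
  obtain ⟨Kxy, hKxydef⟩ : ∃ Kxy, Kxy = Kx ⊓ MulAction.stabilizer (Equiv.Perm GolayPt) y :=
    ⟨_, rfl⟩
  rw [← hKxydef] at hcy
  have hxΔ : x ∉ orb Kx y := orb_disj hfix3 hy3 x (Finset.mem_insert_self _ _)
  have hΔ1 : (orb Kx y).card ≠ 1 := by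
    intro h1
    obtain ⟨a, ha⟩ := Finset.card_eq_one.1 h1
    have hya : y = a := by
      have hmem := self_mem_orb Kx y
      rw [ha, Finset.mem_singleton] at hmem
      exact hmem
    have hfixy : ∀ k ∈ Kx, k y = y := by
      intro k hk
      have hmem : k y ∈ orb Kx y := mem_orb.2 ⟨k, hk, rfl⟩
      rw [ha, Finset.mem_singleton] at hmem
      rw [hmem, hya]
    have hd := card_dvd_960 Kx (hKxK.trans hK) (insert y (insert x ({p, q} : Finset GolayPt)))
      (by rw [Finset.card_insert_of_notMem hy3, hA3c]) (by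
        intro k hk a ha
        rcases Finset.mem_insert.1 ha with rfl | ha
        · exact hfixy k hk
        · exact hfix3 k hk a ha)
    rcases hKxc with ⟨-, h⟩ | ⟨-, h⟩
    · rw [h] at hd
      exact absurd hd (by norm_num)
    · rw [h] at hd
      exact absurd hd (by norm_num)
  have hzfacts : ∀ z : ↥Kxy, orderOf z = 3 →
      z.1 ^ 3 = 1 ∧ z.1 ≠ 1 ∧ z.1 ∈ Kx ∧ z.1 y = y ∧ z.1 ∈ K ∧
        (Finset.univ.filter (fun w => z.1 w = w)).card ≤ 6 := by
    intro z hz
    have hz3 : z.1 ^ 3 = 1 := by
      have h := pow_orderOf_eq_one z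
      rw [hz] at h
      exact congrArg Subtype.val h
    have hz1 : z.1 ≠ 1 := by
      intro h
      have e : z = 1 := Subtype.ext h
      rw [e, orderOf_one] at hz
      omega
    have hsubz : Kxy ≤ Kx ⊓ MulAction.stabilizer (Equiv.Perm GolayPt) y := hKxydef.le
    have hzm := hsubz z.2
    exact ⟨hz3, hz1, hzm.1, hzm.2, hKxK hzm.1, three_fix_le (hK (hKxK hzm.1)) hz3 hz1⟩
  rcases hKxc with ⟨hX, hKx⟩ | ⟨hX, hKx⟩
  · -- two orbits of length eleven
    have hyX : y ∉ orb K x := by
      intro hyX
      have hm := card_modEq_fixed f 5 hf5 (orb K x) (orb_inv hfK)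
      have he : (orb K x).filter (fun w => f w = w) = {x, y} := by
        ext w
        rw [Finset.mem_filter, Finset.mem_insert, Finset.mem_singleton]
        constructor
        · rintro ⟨hw, hfw⟩
          rcases hfF w hfw with h | h | h
          · exact absurd hw (orb_disj hfix2 hx2 w h)
          · exact Or.inl h
          · exact Or.inr h
        · rintro (h | h)
          · rw [h]
            exact ⟨self_mem_orb K _, hfx⟩
          · rw [h]
            exact ⟨hyX, hfy⟩
      rw [he, Finset.card_pair hxy, hX] at hm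
      unfold Nat.ModEq at hm
      omega
    have hYmod : (orb K y).card % 11 = 0 := orb_mod0 hfix2 hy2 hgK 11 hg11 hgF
    have hYpos : 0 < (orb K y).card := Finset.card_pos.2 ⟨y, self_mem_orb K y⟩
    have hXY : Disjoint (orb K x) (orb K y) := by
      rw [Finset.disjoint_left]
      intro w hwx hwy
      have e1 := orb_eq hwx
      have e2 := orb_eq hwy
      exact hyX (by rw [← e1, e2]; exact self_mem_orb K y)
    have hY : (orb K y).card = 11 := by
      have hd2 : Disjoint (orb K x ∪ orb K y) ({p, q} : Finset GolayPt) := by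
        rw [Finset.disjoint_left]
        intro w hw hw2
        rcases Finset.mem_union.1 hw with h | h
        · exact orb_disj hfix2 hx2 w hw2 h
        · exact orb_disj hfix2 hy2 w hw2 h
      have hle : ((orb K x ∪ orb K y) ∪ ({p, q} : Finset GolayPt)).card ≤ 24 := by
        rw [← card_pts, ← Finset.card_univ]
        exact Finset.card_le_card (Finset.subset_univ _)
      rw [Finset.card_union_of_disjoint hd2, Finset.card_union_of_disjoint hXY, hX, hA2c] at hle
      omega
    have hΔY : orb Kx y ⊆ orb K y := by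
      intro w hw
      obtain ⟨k, hk, rfl⟩ := mem_orb.1 hw
      exact mem_orb.2 ⟨k, hKxK hk, rfl⟩
    have hΔ6 : (orb Kx y).card = 6 := by
      have hle := Finset.card_le_card hΔY
      rw [hY] at hle
      rw [hKx] at hcy
      have h16 : (orb Kx y).card = 1 ∨ (orb Kx y).card = 6 ∨ (orb Kx y).card = 11 := by omega
      rcases h16 with h | h | h
      · exact absurd h hΔ1
      · exact h
      · rw [h] at hcy
        omega
    have hKxy : Nat.card Kxy = 120 := by
      rw [hKx, hΔ6] at hcy
      omega
    obtain ⟨z, hz⟩ := exists_prime_orderOf_dvd_card' (G := ↥Kxy) 3 (by rw [hKxy]; norm_num)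
    obtain ⟨hz3, hz1, hzKx, hzy, hzK, hz6⟩ := hzfacts z hz
    have hm1 := card_modEq_fixed z.1 3 hz3 (orb Kx y) (orb_inv hzKx)
    have hB1 : 3 ≤ ((orb Kx y).filter (fun w => z.1 w = w)).card := by
      have hpos : 0 < ((orb Kx y).filter (fun w => z.1 w = w)).card :=
        Finset.card_pos.2 ⟨y, Finset.mem_filter.2 ⟨self_mem_orb Kx y, hzy⟩⟩
      rw [hΔ6] at hm1
      unfold Nat.ModEq at hm1
      omega
    have hm2 := card_modEq_fixed z.1 3 hz3 (orb K y \ orb Kx y) (fun w => by
      rw [Finset.mem_sdiff, Finset.mem_sdiff, orb_inv hzK, orb_inv hzKx])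
    have hB2 : 2 ≤ ((orb K y \ orb Kx y).filter (fun w => z.1 w = w)).card := by
      rw [Finset.card_sdiff_of_subset hΔY, hY, hΔ6] at hm2
      unfold Nat.ModEq at hm2
      omega
    have hd1 : Disjoint ((orb Kx y).filter (fun w => z.1 w = w))
        ((orb K y \ orb Kx y).filter (fun w => z.1 w = w)) := by
      rw [Finset.disjoint_left]
      intro w h1 h2
      exact (Finset.mem_sdiff.1 (Finset.mem_filter.1 h2).1).2 (Finset.mem_filter.1 h1).1
    have hd0 : Disjoint (insert x ({p, q} : Finset GolayPt))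
        (((orb Kx y).filter (fun w => z.1 w = w)) ∪
          ((orb K y \ orb Kx y).filter (fun w => z.1 w = w))) := by
      rw [Finset.disjoint_left]
      intro w h0 h12
      have hwY : w ∈ orb K y := by
        rcases Finset.mem_union.1 h12 with h | h
        · exact hΔY (Finset.mem_filter.1 h).1
        · exact (Finset.mem_sdiff.1 (Finset.mem_filter.1 h).1).1
      rcases Finset.mem_insert.1 h0 with h0 | h0
      · rw [h0] at hwY
        exact Finset.disjoint_left.1 hXY (self_mem_orb K _) hwY
      · exact orb_disj hfix2 hy2 w h0 hwY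
    have hsub : insert x ({p, q} : Finset GolayPt) ∪
        (((orb Kx y).filter (fun w => z.1 w = w)) ∪
          ((orb K y \ orb Kx y).filter (fun w => z.1 w = w)))
        ⊆ Finset.univ.filter (fun w => z.1 w = w) := by
      intro w hw
      rcases Finset.mem_union.1 hw with h | h
      · exact Finset.mem_filter.2 ⟨Finset.mem_univ _, hfix3 z.1 hzKx w h⟩
      · rcases Finset.mem_union.1 h with h | h
        · exact Finset.mem_filter.2 ⟨Finset.mem_univ _, (Finset.mem_filter.1 h).2⟩
        · exact Finset.mem_filter.2 ⟨Finset.mem_univ _, (Finset.mem_filter.1 h).2⟩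
    have hle := Finset.card_le_card hsub
    rw [Finset.card_union_of_disjoint hd0, Finset.card_union_of_disjoint hd1, hA3c] at hle
    omega
  · -- one orbit of length twenty-two
    have hΔ6 : (orb Kx y).card = 6 := by
      rw [hKx] at hcy
      have h16 : (orb Kx y).card = 1 ∨ (orb Kx y).card = 6 ∨ (orb Kx y).card = 11 ∨
          (orb Kx y).card = 16 ∨ (orb Kx y).card = 21 := by omega
      rcases h16 with h | h | h | h | h
      · exact absurd h hΔ1
      · exact h
      · rw [h] at hcy
        omega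
      · rw [h] at hcy
        omega
      · rw [h] at hcy
        omega
    have hKxy : Nat.card Kxy = 60 := by
      rw [hKx, hΔ6] at hcy
      omega
    have hXall : orb K x = Finset.univ \ {p, q} := by
      apply Finset.eq_of_subset_of_card_le
      · intro w hw
        rw [Finset.mem_sdiff]
        exact ⟨Finset.mem_univ _, fun h => orb_disj hfix2 hx2 w h hw⟩
      · rw [Finset.card_sdiff_of_subset (Finset.subset_univ _), Finset.card_univ, card_pts,
          hA2c, hX]
    have hyX : y ∈ orb K x := by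
      rw [hXall, Finset.mem_sdiff]
      exact ⟨Finset.mem_univ _, hy2⟩
    obtain ⟨Ky, hKydef⟩ : ∃ Ky, Ky = K ⊓ MulAction.stabilizer (Equiv.Perm GolayPt) y := ⟨_, rfl⟩
    have hcKy := card_orb K y
    rw [orb_eq hyX, hX, hc, ← hKydef] at hcKy
    have hKy : Nat.card Ky = 360 := by omega
    have hKyK : Ky ≤ K := by rw [hKydef]; exact inf_le_left
    have hKyy : ∀ k ∈ Ky, k y = y := by
      intro k hk
      rw [hKydef] at hk
      exact hk.2
    have hfKy : f ∈ Ky := by rw [hKydef]; exact ⟨hfK, hfy⟩
    have hA3c' : (insert y ({p, q} : Finset GolayPt)).card = 3 := by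
      rw [Finset.card_insert_of_notMem hy2, hA2c]
    have hfix3' : ∀ k ∈ Ky, ∀ a ∈ insert y ({p, q} : Finset GolayPt), k a = a := by
      intro k hk a ha
      rcases Finset.mem_insert.1 ha with rfl | ha
      · exact hKyy k hk
      · exact hfix2 k (hKyK hk) a ha
    have hx3 : x ∉ insert y ({p, q} : Finset GolayPt) := by
      intro h
      rcases Finset.mem_insert.1 h with h | h
      · exact hxy h
      · exact hx2 h
    have hΔ'mod : (orb Ky x).card % 5 = 1 % 5 := orb_mod1 hfix3' hx3 hfKy 5 hf5 hfx (by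
      intro w hw
      rcases hfF w hw with h | h | h
      · exact Or.inl (Finset.mem_insert_of_mem h)
      · exact Or.inr h
      · exact Or.inl (h ▸ Finset.mem_insert_self _ _))
    have hΔ'le : (orb Ky x).card + (insert y ({p, q} : Finset GolayPt)).card ≤ 24 :=
      orb_card_le hfix3' hx3
    rw [hA3c'] at hΔ'le
    have hcx' := card_orb Ky x
    rw [hKy] at hcx'
    have hΔ'6 : (orb Ky x).card = 6 := by
      have h16 : (orb Ky x).card = 1 ∨ (orb Ky x).card = 6 ∨ (orb Ky x).card = 11 ∨
          (orb Ky x).card = 16 ∨ (orb Ky x).card = 21 := by omega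
      rcases h16 with h | h | h | h | h
      · exfalso
        obtain ⟨a, ha⟩ := Finset.card_eq_one.1 h
        have hxa : x = a := by
          have hmem := self_mem_orb Ky x
          rw [ha, Finset.mem_singleton] at hmem
          exact hmem
        have hfixx : ∀ k ∈ Ky, k x = x := by
          intro k hk
          have hmem : k x ∈ orb Ky x := mem_orb.2 ⟨k, hk, rfl⟩
          rw [ha, Finset.mem_singleton] at hmem
          rw [hmem, hxa]
        have hd := card_dvd_960 Ky (hKyK.trans hK)
          (insert x (insert y ({p, q} : Finset GolayPt)))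
          (by rw [Finset.card_insert_of_notMem hx3, hA3c']) (by
            intro k hk a ha
            rcases Finset.mem_insert.1 ha with rfl | ha
            · exact hfixx k hk
            · exact hfix3' k hk a ha)
        rw [hKy] at hd
        exact absurd hd (by norm_num)
      · exact h
      · rw [h] at hcx'
        omega
      · rw [h] at hcx'
        omega
      · rw [h] at hcx'
        omega
    obtain ⟨z, hz⟩ := exists_prime_orderOf_dvd_card' (G := ↥Kxy) 3 (by rw [hKxy]; norm_num)
    obtain ⟨hz3, hz1, hzKx, hzy, hzK, hz6⟩ := hzfacts z hz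
    have hzKy : z.1 ∈ Ky := by rw [hKydef]; exact ⟨hzK, hzy⟩
    have hzx : z.1 x = x := hKxx _ hzKx
    have hm1 := card_modEq_fixed z.1 3 hz3 (orb Kx y) (orb_inv hzKx)
    have hB1 : 3 ≤ ((orb Kx y).filter (fun w => z.1 w = w)).card := by
      have hpos : 0 < ((orb Kx y).filter (fun w => z.1 w = w)).card :=
        Finset.card_pos.2 ⟨y, Finset.mem_filter.2 ⟨self_mem_orb Kx y, hzy⟩⟩
      rw [hΔ6] at hm1
      unfold Nat.ModEq at hm1
      omega
    have hm2 := card_modEq_fixed z.1 3 hz3 (orb Ky x) (orb_inv hzKy)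
    have hB2 : 3 ≤ ((orb Ky x).filter (fun w => z.1 w = w)).card := by
      have hpos : 0 < ((orb Ky x).filter (fun w => z.1 w = w)).card :=
        Finset.card_pos.2 ⟨x, Finset.mem_filter.2 ⟨self_mem_orb Ky x, hzx⟩⟩
      rw [hΔ'6] at hm2
      unfold Nat.ModEq at hm2
      omega
    have hyΔ' : y ∉ orb Ky x := orb_disj hfix3' hx3 y (Finset.mem_insert_self _ _)
    by_cases hdd : Disjoint (orb Kx y) (orb Ky x)
    · have hd1 : Disjoint ((orb Kx y).filter (fun w => z.1 w = w))
          ((orb Ky x).filter (fun w => z.1 w = w)) :=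
        Finset.disjoint_of_subset_left (Finset.filter_subset _ _)
          (Finset.disjoint_of_subset_right (Finset.filter_subset _ _) hdd)
      have hd0 : Disjoint ({p, q} : Finset GolayPt)
          (((orb Kx y).filter (fun w => z.1 w = w)) ∪
            ((orb Ky x).filter (fun w => z.1 w = w))) := by
        rw [Finset.disjoint_left]
        intro w h0 h12
        rcases Finset.mem_union.1 h12 with h | h
        · exact orb_disj hfix3 hy3 w (Finset.mem_insert_of_mem h0) (Finset.mem_filter.1 h).1
        · exact orb_disj hfix3' hx3 w (Finset.mem_insert_of_mem h0) (Finset.mem_filter.1 h).1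
      have hsub : ({p, q} : Finset GolayPt) ∪
          (((orb Kx y).filter (fun w => z.1 w = w)) ∪
            ((orb Ky x).filter (fun w => z.1 w = w)))
          ⊆ Finset.univ.filter (fun w => z.1 w = w) := by
        intro w hw
        rcases Finset.mem_union.1 hw with h | h
        · exact Finset.mem_filter.2 ⟨Finset.mem_univ _, hfix2 z.1 hzK w h⟩
        · rcases Finset.mem_union.1 h with h | h
          · exact Finset.mem_filter.2 ⟨Finset.mem_univ _, (Finset.mem_filter.1 h).2⟩
          · exact Finset.mem_filter.2 ⟨Finset.mem_univ _, (Finset.mem_filter.1 h).2⟩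
      have hle := Finset.card_le_card hsub
      rw [Finset.card_union_of_disjoint hd0, Finset.card_union_of_disjoint hd1, hA2c] at hle
      omega
    · rw [Finset.not_disjoint_iff] at hdd
      obtain ⟨w, hwΔ, hwΔ'⟩ := hdd
      have hwy : w ≠ y := fun h => hyΔ' (h ▸ hwΔ')
      have hwx : w ≠ x := fun h => hxΔ (h ▸ hwΔ)
      have hA1 : ∀ v, f v ∈ (orb Kx y).erase y ↔ v ∈ (orb Kx y).erase y := by
        intro v
        rw [Finset.mem_erase, Finset.mem_erase, orb_inv hfKx, Ne, Ne, fix_iff hfy v]
      have hA2 : ∀ v, f v ∈ (orb Ky x).erase x ↔ v ∈ (orb Ky x).erase x := by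
        intro v
        rw [Finset.mem_erase, Finset.mem_erase, orb_inv hfKy, Ne, Ne, fix_iff hfx v]
      have hnf : ∀ v ∈ (orb Kx y).erase y, f v ≠ v := by
        intro v hv hfv
        obtain ⟨hvy, hvΔ⟩ := Finset.mem_erase.1 hv
        rcases hfF v hfv with h | h | h
        · exact orb_disj hfix3 hy3 v (Finset.mem_insert_of_mem h) hvΔ
        · exact hxΔ (h ▸ hvΔ)
        · exact hvy h
      have hAeq : (orb Kx y).erase y = (orb Ky x).erase x :=
        five_set_eq hf5 hA1 hA2 (by rw [Finset.card_erase_of_mem (self_mem_orb Kx y), hΔ6])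
          (by rw [Finset.card_erase_of_mem (self_mem_orb Ky x), hΔ'6]) hnf
          (Finset.mem_erase.2 ⟨hwy, hwΔ⟩) (Finset.mem_erase.2 ⟨hwx, hwΔ'⟩)
      obtain ⟨B, hBdef⟩ : ∃ B, B = insert x (orb Kx y) := ⟨_, rfl⟩
      have hB' : B = insert y (orb Ky x) := by
        rw [hBdef]
        calc insert x (orb Kx y) = insert x (insert y ((orb Kx y).erase y)) := by
              rw [Finset.insert_erase (self_mem_orb Kx y)]
          _ = insert y (insert x ((orb Ky x).erase x)) := by rw [hAeq, Finset.insert_comm]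
          _ = insert y (orb Ky x) := by rw [Finset.insert_erase (self_mem_orb Ky x)]
      have hBc : B.card = 7 := by rw [hBdef, Finset.card_insert_of_notMem hxΔ, hΔ6]
      have hBx : ∀ k ∈ Kx, ∀ v, k v ∈ B ↔ v ∈ B := by
        intro k hk v
        rw [hBdef, Finset.mem_insert, Finset.mem_insert, orb_inv hk, fix_iff (hKxx k hk) v]
      have hBy : ∀ k ∈ Ky, ∀ v, k v ∈ B ↔ v ∈ B := by
        intro k hk v
        rw [hB', Finset.mem_insert, Finset.mem_insert, orb_inv hk, fix_iff (hKyy k hk) v]
      obtain ⟨L, hLdef⟩ : ∃ L, L = K ⊓ MulAction.stabilizer (Equiv.Perm GolayPt) B := ⟨_, rfl⟩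
      have hKxL : Kx ≤ L := by
        intro k hk
        rw [hLdef]
        exact ⟨hKxK hk, smul_eq_of_iff (hBx k hk)⟩
      have hKyL : Ky ≤ L := by
        intro k hk
        rw [hLdef]
        exact ⟨hKyK hk, smul_eq_of_iff (hBy k hk)⟩
      have hLB : ∀ k ∈ L, ∀ v, k v ∈ B ↔ v ∈ B := by
        intro k hk v
        rw [hLdef] at hk
        exact mem_of_smul_eq hk.2 v
      have hΔ'L : ∀ u ∈ orb Ky x, u ∈ orb L x := by
        intro u hu
        obtain ⟨k, hk, rfl⟩ := mem_orb.1 hu
        exact mem_orb.2 ⟨k, hKyL hk, rfl⟩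
      have horbL : orb L x = B := by
        apply Finset.Subset.antisymm
        · intro v hv
          obtain ⟨k, hk, rfl⟩ := mem_orb.1 hv
          exact (hLB k hk x).2 (by rw [hBdef]; exact Finset.mem_insert_self _ _)
        · intro v hv
          rw [hB', Finset.mem_insert] at hv
          rcases hv with hvy | hv
          · obtain ⟨a, ha, haw⟩ := mem_orb.1 hwΔ
            have hwL : w ∈ orb L x := hΔ'L w hwΔ'
            rw [← haw] at hwL
            rw [hvy]
            exact (orb_inv (hKxL ha) y).1 hwL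
          · exact hΔ'L v hv
      have hcL := card_orb L x
      rw [horbL, hBc] at hcL
      have hLK : Nat.card L ∣ Nat.card K :=
        Subgroup.card_dvd_of_le (by rw [hLdef]; exact inf_le_left)
      rw [hc, hcL] at hLK
      have h7 : 7 ∣ 7920 := Dvd.dvd.trans (Dvd.intro _ rfl) hLK
      exact absurd h7 (by norm_num)

end AutA
end Cfsg.Agent.Lib.Helper4
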