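import Cfsg.Agent.Lib.Helper4.AutV

set_option autoImplicit false

namespace Cfsg.Agent.Lib.Helper4
namespace AutA

open Pointwise Golay

theorem pt3_inj : Function.Injective (fun i : Fin 3 => pt i.val) := by
  intro i j h
  exact Fin.ext (pt_inj (by omega) (by omega) h)

/-- A subgroup fixing three points has order dividing 20160. -/
theorem card_dvd_20160 (K : Subgroup (Equiv.Perm GolayPt)) (hK : K ≤ M24) (A : Finset GolayPt)
    (hA : A.card = 3) (hfix : ∀ k ∈ K, ∀ a ∈ A, k a = a) : Nat.card K ∣ 20160 := by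
  let e := (A.equivFinOfCardEq hA).symm
  let x : Fin 3 ↪ GolayPt := e.toEmbedding.trans (Function.Embedding.subtype _)
  obtain ⟨h, hh, hmap⟩ := exists_mapN (by norm_num : 3 ≤ 5) x ⟨fun i : Fin 3 => pt i.val, pt3_inj⟩
  have hle : K.map (MulAut.conj h).toMonoidHom ≤ KK [2, 1, 0] := by
    rintro _ ⟨k, hk, rfl⟩
    rw [mem_KK]
    refine ⟨?_, ?_⟩
    · show h * k * h⁻¹ ∈ M24
      exact Subgroup.mul_mem _ (Subgroup.mul_mem _ hh (hK hk)) (Subgroup.inv_mem _ hh)
    · intro f hf
      have hf4 : f < 3 := by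
        simp only [List.mem_cons, List.not_mem_nil, or_false] at hf
        omega
      have h1 : h (x ⟨f, hf4⟩) = pt f := hmap ⟨f, hf4⟩
      show (h * k * h⁻¹) (pt f) = pt f
      rw [Equiv.Perm.mul_apply, Equiv.Perm.mul_apply, ← h1]
      have h2 : k (x ⟨f, hf4⟩) = x ⟨f, hf4⟩ := hfix k hk _ (e ⟨f, hf4⟩).2
      simp [h2]
  have hc : Nat.card (K.map (MulAut.conj h).toMonoidHom) = Nat.card K :=
    Subgroup.card_map_of_injective (MulAut.conj h).injective
  rw [← hc, ← card_KK3]
  exact Subgroup.card_dvd_of_le hle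

/-- A subgroup fixing five points has order dividing 48. -/
theorem card_dvd_48 (K : Subgroup (Equiv.Perm GolayPt)) (hK : K ≤ M24) (A : Finset GolayPt)
    (hA : A.card = 5) (hfix : ∀ k ∈ K, ∀ a ∈ A, k a = a) : Nat.card K ∣ 48 := by
  let e := (A.equivFinOfCardEq hA).symm
  let x : Fin 5 ↪ GolayPt := e.toEmbedding.trans (Function.Embedding.subtype _)
  obtain ⟨h, hh, hmap⟩ := exists_mapN (le_refl 5) x ⟨fun i : Fin 5 => pt i.val, pt5_inj⟩
  have hle : K.map (MulAut.conj h).toMonoidHom ≤ KK [4, 3, 2, 1, 0] := by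
    rintro _ ⟨k, hk, rfl⟩
    rw [mem_KK]
    refine ⟨?_, ?_⟩
    · show h * k * h⁻¹ ∈ M24
      exact Subgroup.mul_mem _ (Subgroup.mul_mem _ hh (hK hk)) (Subgroup.inv_mem _ hh)
    · intro f hf
      have hf4 : f < 5 := by
        simp only [List.mem_cons, List.not_mem_nil, or_false] at hf
        omega
      have h1 : h (x ⟨f, hf4⟩) = pt f := hmap ⟨f, hf4⟩
      show (h * k * h⁻¹) (pt f) = pt f
      rw [Equiv.Perm.mul_apply, Equiv.Perm.mul_apply, ← h1]
      have h2 : k (x ⟨f, hf4⟩) = x ⟨f, hf4⟩ := hfix k hk _ (e ⟨f, hf4⟩).2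
      simp [h2]
  have hc : Nat.card (K.map (MulAut.conj h).toMonoidHom) = Nat.card K :=
    Subgroup.card_map_of_injective (MulAut.conj h).injective
  rw [← hc, ← card_KK5]
  exact Subgroup.card_dvd_of_le hle

/-- One step of the stabiliser chain inside an invariant eight-set. -/
theorem chain1 (R : Subgroup (Equiv.Perm GolayPt)) (O : Finset GolayPt) (hO8 : O.card = 8)
    (hR : ∀ k ∈ R, k • O = O) (c m : ℕ) (hc : c < 8)
    (ih : ∀ K' : Subgroup (Equiv.Perm GolayPt), K' ≤ R → ∀ F' : Finset GolayPt, F' ⊆ O →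
      F'.card = c + 1 → (∀ k ∈ K', ∀ u ∈ F', k u = u) → Nat.card K' ≤ m) :
    ∀ K : Subgroup (Equiv.Perm GolayPt), K ≤ R → ∀ F : Finset GolayPt, F ⊆ O →
      F.card = c → (∀ k ∈ K, ∀ u ∈ F, k u = u) → Nat.card K ≤ (8 - c) * m := by
  intro K hKR F hFO hFc hfix
  have hpos : 0 < (O \ F).card := by
    rw [Finset.card_sdiff_of_subset hFO, hO8, hFc]
    omega
  obtain ⟨y, hy⟩ := Finset.card_pos.1 hpos
  obtain ⟨hyO, hyF⟩ := Finset.mem_sdiff.1 hy
  have hco := card_orb K y
  have hsub : orb K y ⊆ O \ F := by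
    intro v hv
    obtain ⟨k, hk, rfl⟩ := mem_orb.1 hv
    rw [Finset.mem_sdiff]
    refine ⟨(mem_of_smul_eq (hR k (hKR hk)) y).2 hyO, ?_⟩
    intro hkF
    have h1 := hfix k hk (k y) hkF
    exact hyF (k.injective h1 ▸ hkF)
  have hle : (orb K y).card ≤ 8 - c := by
    have := Finset.card_le_card hsub
    rw [Finset.card_sdiff_of_subset hFO, hO8, hFc] at this
    exact this
  have hst := ih (K ⊓ MulAction.stabilizer (Equiv.Perm GolayPt) y) (inf_le_left.trans hKR)
    (insert y F) (Finset.insert_subset hyO hFO) (by rw [Finset.card_insert_of_notMem hyF, hFc])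
    (by
      intro k hk u hu
      rcases Finset.mem_insert.1 hu with rfl | hu
      · exact hk.2
      · exact hfix k hk.1 u hu)
  rw [hco]
  exact Nat.mul_le_mul hle hst

/-- The stabiliser of an octad and one of its points has order at most 40320. -/
theorem oct_in_bound (K : Subgroup (Equiv.Perm GolayPt)) (hK : K ≤ M24) {O : Finset GolayPt}
    (hO : O ∈ octads) {x : GolayPt} (hx : x ∈ O) (hfx : ∀ k ∈ K, k x = x)
    (hinv : ∀ k ∈ K, k • O = O) : Nat.card K ≤ 40320 := by
  have hO8 : O.card = 8 := hO.2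
  have base : ∀ K' : Subgroup (Equiv.Perm GolayPt), K' ≤ K → ∀ F' : Finset GolayPt, F' ⊆ O →
      F'.card = 4 + 1 → (∀ k ∈ K', ∀ u ∈ F', k u = u) → Nat.card K' ≤ 48 := by
    intro K' hK' F' _ hF' hfix
    exact Nat.le_of_dvd (by norm_num) (card_dvd_48 K' (hK'.trans hK) F' hF' hfix)
  have s4 := chain1 K O hO8 hinv 4 48 (by norm_num) base
  have s3 := chain1 K O hO8 hinv 3 _ (by norm_num) s4
  have s2 := chain1 K O hO8 hinv 2 _ (by norm_num) s3
  have s1 := chain1 K O hO8 hinv 1 _ (by norm_num) s2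
  have h := s1 K le_rfl {x} (Finset.singleton_subset_iff.2 hx) (Finset.card_singleton x) (by
    intro k hk u hu
    rw [Finset.mem_singleton] at hu
    rw [hu]
    exact hfx k hk)
  norm_num at h
  exact h

/-- The stabiliser of an octad and a point outside it has order at most 20160. -/
theorem oct_out_bound (K : Subgroup (Equiv.Perm GolayPt)) (hK : K ≤ M24) {A : Finset GolayPt}
    (hA : A ∈ octads) {x : GolayPt} (hx : x ∉ A) (hfx : ∀ k ∈ K, k x = x)
    (hinv : ∀ k ∈ K, k • A = A) : Nat.card K ≤ 20160 := by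
  have hA8 : A.card = 8 := hA.2
  have base : ∀ K' : Subgroup (Equiv.Perm GolayPt), K' ≤ K → ∀ F' : Finset GolayPt, F' ⊆ A →
      F'.card = 4 + 1 → (∀ k ∈ K', ∀ u ∈ F', k u = u) → Nat.card K' ≤ 3 := by
    intro K' hK' F' hF'A hF' hfix
    have h48 := card_dvd_48 K' (hK'.trans hK) F' hF' hfix
    have hodd : ¬ 2 ∣ Nat.card K' := by
      intro h2
      have p2 : Fact (Nat.Prime 2) := ⟨Nat.prime_two⟩
      obtain ⟨t, ht⟩ := exists_prime_orderOf_dvd_card' (G := ↥K') 2 h2
      have ht2 : t.1 * t.1 = 1 := by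
        have h := pow_orderOf_eq_one t
        rw [ht, pow_two] at h
        exact congrArg Subtype.val h
      have ht1 : t.1 ≠ 1 := by
        intro h
        have e : t = 1 := Subtype.ext h
        rw [e, orderOf_one] at ht
        omega
      have htM : t.1 ∈ M24 := hK (hK' t.2)
      obtain ⟨A4, hA4, hA4c⟩ := Finset.exists_subset_card_eq (show 4 ≤ F'.card by omega)
      have hoct := inv_fix_octad htM ht2 ht1 A4 hA4c (fun a ha => hfix t.1 t.2 a (hA4 ha))
      have h5 : 5 ≤ ((Finset.univ.filter (fun p => t.1 p = p)) ∩ A).card := by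
        calc 5 = F'.card := by rw [hF']
          _ ≤ _ := Finset.card_le_card (fun u hu => Finset.mem_inter.2
            ⟨Finset.mem_filter.2 ⟨Finset.mem_univ _, hfix t.1 t.2 u hu⟩, hF'A hu⟩)
      have e := oct_eq hoct hA h5
      apply hx
      rw [← e]
      exact Finset.mem_filter.2 ⟨Finset.mem_univ _, hfx t.1 (hK' t.2)⟩
    obtain ⟨n, hn⟩ : ∃ n, n = Nat.card K' := ⟨_, rfl⟩
    rw [← hn] at h48 hodd ⊢
    have hn48 : n ≤ 48 := Nat.le_of_dvd (by norm_num) h48
    interval_cases n <;> omega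
  have s4 := chain1 K A hA8 hinv 4 3 (by norm_num) base
  have s3 := chain1 K A hA8 hinv 3 _ (by norm_num) s4
  have s2 := chain1 K A hA8 hinv 2 _ (by norm_num) s3
  have s1 := chain1 K A hA8 hinv 1 _ (by norm_num) s2
  have s0 := chain1 K A hA8 hinv 0 _ (by norm_num) s1
  have h := s0 K le_rfl ∅ (Finset.empty_subset _) Finset.card_empty (by
    intro k hk u hu
    exact absurd hu (Finset.notMem_empty u))
  norm_num at h
  exact h

/-- The stabiliser of a point and a pair of other points has order at most 40320. -/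
theorem duad_bound (K : Subgroup (Equiv.Perm GolayPt)) (hK : K ≤ M24) {x a b : GolayPt}
    (hab : a ≠ b) (hax : a ≠ x) (hbx : b ≠ x) (hfx : ∀ k ∈ K, k x = x)
    (hinv : ∀ k ∈ K, k • ({a, b} : Finset GolayPt) = {a, b}) : Nat.card K ≤ 40320 := by
  have hco := card_orb K a
  have horb : (orb K a).card ≤ 2 := by
    have hsub : orb K a ⊆ {a, b} := by
      intro v hv
      obtain ⟨k, hk, rfl⟩ := mem_orb.1 hv
      exact (mem_of_smul_eq (hinv k hk) a).2 (Finset.mem_insert_self _ _)
    exact (Finset.card_le_card hsub).trans (by rw [Finset.card_pair hab])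
  have hx2 : x ∉ ({a, b} : Finset GolayPt) := by
    rw [Finset.mem_insert, Finset.mem_singleton]
    rintro (h | h)
    · exact hax h.symm
    · exact hbx h.symm
  have hst : Nat.card ↥(K ⊓ MulAction.stabilizer (Equiv.Perm GolayPt) a) ∣ 20160 := by
    apply card_dvd_20160 _ (inf_le_left.trans hK) (insert x {a, b})
    · rw [Finset.card_insert_of_notMem hx2, Finset.card_pair hab]
    · intro k hk u hu
      have hka : k a = a := hk.2
      rcases Finset.mem_insert.1 hu with rfl | hu
      · exact hfx k hk.1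
      · rw [Finset.mem_insert, Finset.mem_singleton] at hu
        rcases hu with rfl | rfl
        · exact hka
        · have hkb : k u ∈ ({a, u} : Finset GolayPt) :=
            (mem_of_smul_eq (hinv k hk.1) u).2 (by simp)
          rw [Finset.mem_insert, Finset.mem_singleton] at hkb
          rcases hkb with h | h
          · exact absurd (k.injective (h.trans hka.symm)) (Ne.symm hab)
          · exact h
  have hst' := Nat.le_of_dvd (by norm_num) hst
  rw [hco]
  calc (orb K a).card * Nat.card ↥(K ⊓ MulAction.stabilizer (Equiv.Perm GolayPt) a)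
      ≤ 2 * 20160 := Nat.mul_le_mul horb hst'
    _ = 40320 := by norm_num

end AutA
end Cfsg.Agent.Lib.Helper4
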