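import Cfsg.Agent.Lib.Helper4.AutW

set_option autoImplicit false
set_option maxHeartbeats 1000000

namespace Cfsg.Agent.Lib.Helper4
namespace AutA

open Pointwise Golay

theorem smul_oct_of_inv {f : Equiv.Perm GolayPt} (hf : f ∈ M24) {O : Finset GolayPt}
    (hO : O ∈ octads) {T : Finset GolayPt} (hTO : T ⊆ O) (hT : 5 ≤ T.card)
    (hinv : ∀ v, f v ∈ T ↔ v ∈ T) : f • O = O := by
  apply oct_eq (smul_mem_weight hf hO) hO
  refine hT.trans (Finset.card_le_card ?_)
  intro v hv
  rw [Finset.mem_inter]
  refine ⟨?_, hTO hv⟩
  rw [← Finset.inv_smul_mem_iff]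
  apply hTO
  have h1 := (hinv (f⁻¹ v)).1 (by simpa using hv)
  exact h1

/-- The octad through the five-cycle of an element of order five inside an invariant set. -/
theorem five_oct {f : Equiv.Perm GolayPt} (hf : f ∈ M24) (hf5 : f ^ 5 = 1) {Z : Finset GolayPt}
    (hZ : ∀ v, f v ∈ Z ↔ v ∈ Z) (hc : (Z.filter (fun v => f v ≠ v)).card = 5) :
    ∃ O ∈ octads, Z.filter (fun v => f v ≠ v) ⊆ O ∧ f • O = O ∧
      ∀ v ∈ O, v ∉ Z.filter (fun v => f v ≠ v) → f v = v := by
  classical
  have p5 : Fact (Nat.Prime 5) := ⟨by norm_num⟩
  obtain ⟨O, hO, hTO⟩ := oct_through _ hc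
  have hTinv : ∀ v, f v ∈ Z.filter (fun v => f v ≠ v) ↔ v ∈ Z.filter (fun v => f v ≠ v) := by
    intro v
    rw [Finset.mem_filter, Finset.mem_filter, hZ, Ne, Ne, f.injective.eq_iff]
  have hfO := smul_oct_of_inv hf hO hTO (by omega) hTinv
  refine ⟨O, hO, hTO, hfO, ?_⟩
  have hm := card_modEq_fixed f 5 hf5 O (mem_of_smul_eq hfO)
  have hsub : O.filter (fun v => f v = v) ⊆ O \ Z.filter (fun v => f v ≠ v) := by
    intro v hv
    obtain ⟨hvO, hfv⟩ := Finset.mem_filter.1 hv
    rw [Finset.mem_sdiff]
    exact ⟨hvO, fun h => (Finset.mem_filter.1 h).2 hfv⟩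
  have hc3 : (O \ Z.filter (fun v => f v ≠ v)).card = 3 := by
    rw [Finset.card_sdiff_of_subset hTO, hO.2, hc]
  have hle := Finset.card_le_card hsub
  have h3 : (O.filter (fun v => f v = v)).card = 3 := by
    rw [hO.2] at hm
    unfold Nat.ModEq at hm
    omega
  have heq := Finset.eq_of_subset_of_card_le hsub (by rw [hc3, h3])
  intro v hvO hvT
  have hv : v ∈ O.filter (fun v => f v = v) := by
    rw [heq, Finset.mem_sdiff]
    exact ⟨hvO, hvT⟩
  exact (Finset.mem_filter.1 hv).2

/-- An octad meeting an invariant set in most of its points is invariant. -/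
theorem oct_inv_of_big {K : Subgroup (Equiv.Perm GolayPt)} (hK : K ≤ M24) {O : Finset GolayPt}
    (hO : O ∈ octads) {S : Finset GolayPt} (hS : ∀ k ∈ K, ∀ v, k v ∈ S ↔ v ∈ S)
    (hbig : S.card + 5 ≤ 2 * (O ∩ S).card) : ∀ k ∈ K, k • O = O := by
  intro k hk
  apply oct_eq (smul_mem_weight (hK hk) hO) hO
  have hkS : k • S = S := smul_eq_of_iff (hS k hk)
  have e1 : k • (O ∩ S) = k • O ∩ S := by rw [Finset.smul_finset_inter, hkS]
  have hc1 : (k • O ∩ S).card = (O ∩ S).card := by rw [← e1, Finset.card_smul_finset]
  have hu : ((k • O ∩ S) ∪ (O ∩ S)).card ≤ S.card :=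
    Finset.card_le_card (Finset.union_subset Finset.inter_subset_right Finset.inter_subset_right)
  have hui := Finset.card_union_add_card_inter (k • O ∩ S) (O ∩ S)
  have hsub : (k • O ∩ S) ∩ (O ∩ S) ⊆ k • O ∩ O := by
    intro v hv
    rw [Finset.mem_inter] at hv ⊢
    exact ⟨(Finset.mem_inter.1 hv.1).1, (Finset.mem_inter.1 hv.2).1⟩
  have hle := Finset.card_le_card hsub
  omega

theorem orb_single {K : Subgroup (Equiv.Perm GolayPt)} {m : GolayPt} (h : ∀ k ∈ K, k m = m) :
    (orb K m).card = 1 := by
  have : orb K m = {m} := by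
    ext v
    rw [mem_orb, Finset.mem_singleton]
    constructor
    · rintro ⟨k, hk, rfl⟩
      exact h k hk
    · rintro rfl
      exact ⟨1, K.one_mem, rfl⟩
  rw [this, Finset.card_singleton]

theorem fix_of_orb_one {K : Subgroup (Equiv.Perm GolayPt)} {a : GolayPt}
    (h : (orb K a).card = 1) : ∀ k ∈ K, k a = a := by
  obtain ⟨c, hc⟩ := Finset.card_eq_one.1 h
  have hac : a = c := by
    have hmem := self_mem_orb K a
    rw [hc, Finset.mem_singleton] at hmem
    exact hmem
  intro k hk
  have hmem : k a ∈ orb K a := mem_orb.2 ⟨k, hk, rfl⟩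
  rw [hc, Finset.mem_singleton] at hmem
  rw [hmem, hac]

/-- First case: the two fixed points of the element of order seven lie in one orbit. -/
theorem idx253_I (K : Subgroup (Equiv.Perm GolayPt)) (hK : K ≤ M24) {x : GolayPt}
    (hfx : ∀ k ∈ K, k x = x) (hc : Nat.card K = 40320) {g f : Equiv.Perm GolayPt}
    (hgK : g ∈ K) (hg7 : g ^ 7 = 1) (hfK : f ∈ K) (hf5 : f ^ 5 = 1)
    (hfc : (Finset.univ.filter (fun v => f v = v)).card = 4) {a b : GolayPt} (hab : a ≠ b)
    (hax : a ≠ x) (hbx : b ≠ x) (hga : g a = a) (hgb : g b = b)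
    (hgF : ∀ v, g v = v → v = x ∨ v = a ∨ v = b) (hb : b ∈ orb K a) :
    (∀ k ∈ K, k • ({a, b} : Finset GolayPt) = {a, b}) ∨
      (∃ O ∈ octads, x ∈ O ∧ ∀ k ∈ K, k • O = O) := by
  classical
  have p7 : Fact (Nat.Prime 7) := ⟨by norm_num⟩
  have p5 : Fact (Nat.Prime 5) := ⟨by norm_num⟩
  have hfix1 : ∀ k ∈ K, ∀ u ∈ ({x} : Finset GolayPt), k u = u := by
    intro k hk u hu
    rw [Finset.mem_singleton] at hu
    rw [hu]
    exact hfx k hk
  have ha1 : a ∉ ({x} : Finset GolayPt) := by rw [Finset.mem_singleton]; exact hax
  have hxA : x ∉ orb K a := orb_disj hfix1 ha1 x (Finset.mem_singleton_self x)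
  have hmg := card_modEq_fixed g 7 hg7 (orb K a) (orb_inv hgK)
  have heg : (orb K a).filter (fun v => g v = v) = {a, b} := by
    ext v
    rw [Finset.mem_filter, Finset.mem_insert, Finset.mem_singleton]
    constructor
    · rintro ⟨hv, hgv⟩
      rcases hgF v hgv with h | h | h
      · exact absurd (h ▸ hv) hxA
      · exact Or.inl h
      · exact Or.inr h
    · rintro (h | h)
      · rw [h]
        exact ⟨self_mem_orb K a, hga⟩
      · rw [h]
        exact ⟨hb, hgb⟩
  rw [heg, Finset.card_pair hab] at hmg
  have hAle : (orb K a).card + ({x} : Finset GolayPt).card ≤ 24 := orb_card_le hfix1 ha1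
  rw [Finset.card_singleton] at hAle
  have hco := card_orb K a
  rw [hc] at hco
  have hmf := card_modEq_fixed f 5 hf5 (orb K a) (orb_inv hfK)
  have hfsub : (orb K a).filter (fun v => f v = v) ⊆
      (Finset.univ.filter (fun v => f v = v)).erase x := by
    intro v hv
    obtain ⟨hvA, hfv⟩ := Finset.mem_filter.1 hv
    rw [Finset.mem_erase]
    exact ⟨fun h => hxA (h ▸ hvA), Finset.mem_filter.2 ⟨Finset.mem_univ _, hfv⟩⟩
  have hxf : x ∈ Finset.univ.filter (fun v => f v = v) :=
    Finset.mem_filter.2 ⟨Finset.mem_univ _, hfx f hfK⟩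
  have hnA : ((orb K a).filter (fun v => f v = v)).card ≤ 3 := by
    have := Finset.card_le_card hfsub
    rw [Finset.card_erase_of_mem hxf, hfc] at this
    exact this
  have hcases : (orb K a).card = 2 ∨ (orb K a).card = 16 := by
    unfold Nat.ModEq at hmg hmf
    have h4 : (orb K a).card = 2 ∨ (orb K a).card = 9 ∨ (orb K a).card = 16 ∨
        (orb K a).card = 23 := by omega
    rcases h4 with h | h | h | h
    · exact Or.inl h
    · rw [h] at hmf
      omega
    · exact Or.inr h
    · rw [h] at hco
      omega
  rcases hcases with h2 | h16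
  · left
    have hAeq : ({a, b} : Finset GolayPt) = orb K a := by
      apply Finset.eq_of_subset_of_card_le
      · intro v hv
        rw [Finset.mem_insert, Finset.mem_singleton] at hv
        rcases hv with h | h
        · rw [h]
          exact self_mem_orb K a
        · rw [h]
          exact hb
      · rw [h2, Finset.card_pair hab]
    intro k hk
    rw [hAeq]
    exact smul_eq_of_iff (orb_inv hk)
  · right
    obtain ⟨S, hSdef⟩ : ∃ S, S = (orb K a)ᶜ := ⟨_, rfl⟩
    have hSmem : ∀ v, v ∈ S ↔ v ∉ orb K a := fun v => by rw [hSdef, Finset.mem_compl]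
    have hSc : S.card = 8 := by rw [hSdef, Finset.card_compl, card_pts, h16]
    have hSinv : ∀ k ∈ K, ∀ v, k v ∈ S ↔ v ∈ S := by
      intro k hk v
      rw [hSmem, hSmem, orb_inv hk]
    have hxS : x ∈ S := (hSmem x).2 hxA
    have hmS := card_modEq_fixed f 5 hf5 S (hSinv f hfK)
    have hSf3 : (S.filter (fun v => f v = v)).card = 3 := by
      have hle : (S.filter (fun v => f v = v)).card ≤ 4 := by
        rw [← hfc]
        exact Finset.card_le_card (Finset.filter_subset_filter _ (Finset.subset_univ _))
      rw [hSc] at hmS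
      unfold Nat.ModEq at hmS
      omega
    have hT5 : (S.filter (fun v => f v ≠ v)).card = 5 := by
      have := Finset.card_filter_add_card_filter_not (s := S) (fun v => f v = v)
      have e : (S.filter (fun v => ¬ f v = v)) = S.filter (fun v => f v ≠ v) :=
        Finset.filter_congr (fun v _ => Iff.rfl)
      rw [e, hSf3, hSc] at this
      omega
    obtain ⟨O, hO, hTO, hfO, hOfix⟩ := five_oct (hK hfK) hf5 (hSinv f hfK) hT5
    -- points of O outside S are fixed points of f outside S: at most one
    have hOS : (O \ S).card ≤ 1 := by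
      have hsub : O \ S ⊆ (Finset.univ.filter (fun v => f v = v)) \
          (S.filter (fun v => f v = v)) := by
        intro v hv
        obtain ⟨hvO, hvS⟩ := Finset.mem_sdiff.1 hv
        have hfv : f v = v := hOfix v hvO (fun h => hvS (Finset.mem_filter.1 h).1)
        rw [Finset.mem_sdiff]
        exact ⟨Finset.mem_filter.2 ⟨Finset.mem_univ _, hfv⟩,
          fun h => hvS (Finset.mem_filter.1 h).1⟩
      have := Finset.card_le_card hsub
      rw [Finset.card_sdiff_of_subset (Finset.filter_subset_filter _ (Finset.subset_univ _)),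
        hfc, hSf3] at this
      exact this
    have hOinter : 7 ≤ (O ∩ S).card := by
      have := Finset.card_sdiff_add_card_inter O S
      rw [hO.2] at this
      omega
    have hOinv := oct_inv_of_big hK hO hSinv (by rw [hSc]; omega)
    by_cases hsub : O ⊆ S
    · have hOS' : O = S := Finset.eq_of_subset_of_card_le hsub (by rw [hSc, hO.2])
      exact ⟨O, hO, hOS' ▸ hxS, hOinv⟩
    · exfalso
      rw [Finset.not_subset] at hsub
      obtain ⟨m, hmO, hmS⟩ := hsub
      have hmA : m ∈ orb K a := by
        by_contra h
        exact hmS ((hSmem m).2 h)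
      have hKm : ∀ k ∈ K, k m = m := by
        intro k hk
        have h1 : k m ∈ O \ S := by
          rw [Finset.mem_sdiff]
          exact ⟨(mem_of_smul_eq (hOinv k hk) m).2 hmO, fun h => hmS ((hSinv k hk m).1 h)⟩
        have h2 : m ∈ O \ S := Finset.mem_sdiff.2 ⟨hmO, hmS⟩
        exact Finset.card_le_one.1 hOS _ h1 _ h2
      have h1 := orb_single hKm
      rw [orb_eq hmA, h16] at h1
      omega

/-- Second case: the two fixed points of the element of order seven lie in different orbits. -/
theorem idx253_II (K : Subgroup (Equiv.Perm GolayPt)) (hK : K ≤ M24) {x : GolayPt}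
    (hfx : ∀ k ∈ K, k x = x) (hc : Nat.card K = 40320) {g f : Equiv.Perm GolayPt}
    (hgK : g ∈ K) (hg7 : g ^ 7 = 1) (hfK : f ∈ K) (hf5 : f ^ 5 = 1)
    (hfc : (Finset.univ.filter (fun v => f v = v)).card = 4) {a b : GolayPt} (hab : a ≠ b)
    (hax : a ≠ x) (hbx : b ≠ x) (hga : g a = a) (hgb : g b = b)
    (hgF : ∀ v, g v = v → v = x ∨ v = a ∨ v = b) (hnb : b ∉ orb K a)
    (hle : (orb K a).card ≤ (orb K b).card) : False := by
  classical
  have p7 : Fact (Nat.Prime 7) := ⟨by norm_num⟩
  have p5 : Fact (Nat.Prime 5) := ⟨by norm_num⟩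
  have hfix1 : ∀ k ∈ K, ∀ u ∈ ({x} : Finset GolayPt), k u = u := by
    intro k hk u hu
    rw [Finset.mem_singleton] at hu
    rw [hu]
    exact hfx k hk
  have ha1 : a ∉ ({x} : Finset GolayPt) := by rw [Finset.mem_singleton]; exact hax
  have hb1 : b ∉ ({x} : Finset GolayPt) := by rw [Finset.mem_singleton]; exact hbx
  have hxA : x ∉ orb K a := orb_disj hfix1 ha1 x (Finset.mem_singleton_self x)
  have hxB : x ∉ orb K b := orb_disj hfix1 hb1 x (Finset.mem_singleton_self x)
  have hna : a ∉ orb K b := fun h => hnb (by rw [orb_eq h]; exact self_mem_orb K b)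
  have hAB : Disjoint (orb K a) (orb K b) := by
    rw [Finset.disjoint_left]
    intro w hwa hwb
    have e1 := orb_eq hwa
    have e2 := orb_eq hwb
    exact hnb (by rw [← e1, e2]; exact self_mem_orb K b)
  have hAmod : (orb K a).card % 7 = 1 % 7 := orb_mod1' hgK 7 hg7 hga (by
    intro v hv hgv
    rcases hgF v hgv with h | h | h
    · exact absurd (h ▸ hv) hxA
    · exact h
    · exact absurd (h ▸ hv) hnb)
  have hBmod : (orb K b).card % 7 = 1 % 7 := orb_mod1' hgK 7 hg7 hgb (by
    intro v hv hgv
    rcases hgF v hgv with h | h | h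
    · exact absurd (h ▸ hv) hxB
    · exact absurd (h ▸ hv) hna
    · exact h)
  have hcoA := card_orb K a
  have hcoB := card_orb K b
  rw [hc] at hcoA hcoB
  -- the union of the two orbits and the fixed point
  have hABx : (orb K a).card + (orb K b).card + 1 ≤ 24 := by
    have hd : Disjoint (orb K a ∪ orb K b) ({x} : Finset GolayPt) := by
      rw [Finset.disjoint_left]
      intro w hw hwx
      rw [Finset.mem_singleton] at hwx
      rcases Finset.mem_union.1 hw with h | h
      · exact hxA (hwx ▸ h)
      · exact hxB (hwx ▸ h)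
    have hle' : ((orb K a ∪ orb K b) ∪ ({x} : Finset GolayPt)).card ≤ 24 := by
      rw [← card_pts, ← Finset.card_univ]
      exact Finset.card_le_card (Finset.subset_univ _)
    rw [Finset.card_union_of_disjoint hd, Finset.card_union_of_disjoint hAB,
      Finset.card_singleton] at hle'
    exact hle'
  have hApos : 0 < (orb K a).card := Finset.card_pos.2 ⟨a, self_mem_orb K a⟩
  have hA3 : (orb K a).card = 1 ∨ (orb K a).card = 8 ∨ (orb K a).card = 15 := by
    have h4 : (orb K a).card = 1 ∨ (orb K a).card = 8 ∨ (orb K a).card = 15 ∨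
        (orb K a).card = 22 := by omega
    rcases h4 with h | h | h | h
    · exact Or.inl h
    · exact Or.inr (Or.inl h)
    · exact Or.inr (Or.inr h)
    · rw [h] at hcoA
      omega
  have hB3 : (orb K b).card = 1 ∨ (orb K b).card = 8 ∨ (orb K b).card = 15 := by
    have h4 : (orb K b).card = 1 ∨ (orb K b).card = 8 ∨ (orb K b).card = 15 ∨
        (orb K b).card = 22 := by omega
    rcases h4 with h | h | h | h
    · exact Or.inl h
    · exact Or.inr (Or.inl h)
    · exact Or.inr (Or.inr h)
    · rw [h] at hcoB
      omega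
  -- fixed points of f
  have hmfA := card_modEq_fixed f 5 hf5 (orb K a) (orb_inv hfK)
  have hmfB := card_modEq_fixed f 5 hf5 (orb K b) (orb_inv hfK)
  have hxf : x ∈ Finset.univ.filter (fun v => f v = v) :=
    Finset.mem_filter.2 ⟨Finset.mem_univ _, hfx f hfK⟩
  have hfsum : ((orb K a).filter (fun v => f v = v)).card +
      ((orb K b).filter (fun v => f v = v)).card ≤ 3 := by
    have hd : Disjoint ((orb K a).filter (fun v => f v = v))
        ((orb K b).filter (fun v => f v = v)) :=
      Finset.disjoint_of_subset_left (Finset.filter_subset _ _)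
        (Finset.disjoint_of_subset_right (Finset.filter_subset _ _) hAB)
    have hsub : (orb K a).filter (fun v => f v = v) ∪ (orb K b).filter (fun v => f v = v) ⊆
        (Finset.univ.filter (fun v => f v = v)).erase x := by
      intro v hv
      rw [Finset.mem_erase]
      rcases Finset.mem_union.1 hv with h | h
      · obtain ⟨hvA, hfv⟩ := Finset.mem_filter.1 h
        exact ⟨fun e => hxA (e ▸ hvA), Finset.mem_filter.2 ⟨Finset.mem_univ _, hfv⟩⟩
      · obtain ⟨hvB, hfv⟩ := Finset.mem_filter.1 h
        exact ⟨fun e => hxB (e ▸ hvB), Finset.mem_filter.2 ⟨Finset.mem_univ _, hfv⟩⟩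
    have := Finset.card_le_card hsub
    rw [Finset.card_union_of_disjoint hd, Finset.card_erase_of_mem hxf, hfc] at this
    exact this
  unfold Nat.ModEq at hmfA hmfB
  rcases hA3 with hA | hA | hA
  · -- K fixes a
    have hKa := fix_of_orb_one hA
    rcases hB3 with hB | hB | hB
    · -- K fixes a and b
      have hKb := fix_of_orb_one hB
      have hd := card_dvd_20160 K hK (insert x {a, b}) (by
        rw [Finset.card_insert_of_notMem (by
          rw [Finset.mem_insert, Finset.mem_singleton]
          rintro (h | h)
          · exact hax h.symm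
          · exact hbx h.symm), Finset.card_pair hab]) (by
        intro k hk u hu
        rcases Finset.mem_insert.1 hu with h | hu
        · rw [h]
          exact hfx k hk
        · rw [Finset.mem_insert, Finset.mem_singleton] at hu
          rcases hu with h | h
          · rw [h]
            exact hKa k hk
          · rw [h]
            exact hKb k hk)
      rw [hc] at hd
      exact absurd hd (by norm_num)
    · rw [hA] at hmfA
      rw [hB] at hmfB
      omega
    · -- orbits 1, 15 and a further orbit of length 7
      obtain ⟨W, hWdef⟩ : ∃ W, W = insert x (insert a (orb K b)) := ⟨_, rfl⟩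
      have hWc : W.card = 17 := by
        rw [hWdef, Finset.card_insert_of_notMem (by
          rw [Finset.mem_insert]
          rintro (h | h)
          · exact hax h.symm
          · exact hxB h), Finset.card_insert_of_notMem hna, hB]
      obtain ⟨c, hcW⟩ : ∃ c, c ∉ W := by
        by_contra hall
        have hWu : W = Finset.univ := by
          ext v
          simp only [Finset.mem_univ, iff_true]
          by_contra hv
          exact hall ⟨v, hv⟩
        rw [hWu, Finset.card_univ, card_pts] at hWc
        omega
      have hcx : c ≠ x := fun h => hcW (by rw [hWdef, h]; exact Finset.mem_insert_self _ _)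
      have hca : c ≠ a := fun h => hcW (by
        rw [hWdef, h]
        exact Finset.mem_insert_of_mem (Finset.mem_insert_self _ _))
      have hcB : c ∉ orb K b := fun h => hcW (by
        rw [hWdef]
        exact Finset.mem_insert_of_mem (Finset.mem_insert_of_mem h))
      have hCW : Disjoint (orb K c) W := by
        rw [Finset.disjoint_left]
        intro v hv hvW
        obtain ⟨k, hk, rfl⟩ := mem_orb.1 hv
        rw [hWdef, Finset.mem_insert, Finset.mem_insert] at hvW
        rcases hvW with h | h | h
        · exact hcx (k.injective (h.trans (hfx k hk).symm))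
        · exact hca (k.injective (h.trans (hKa k hk).symm))
        · exact hcB ((orb_inv hk c).1 h)
      have hCmod : (orb K c).card % 7 = 0 := orb_mod0' hgK 7 hg7 (by
        intro v hv hgv
        have hvW : v ∈ W := by
          rw [hWdef, Finset.mem_insert, Finset.mem_insert]
          rcases hgF v hgv with h | h | h
          · exact Or.inl h
          · exact Or.inr (Or.inl h)
          · exact Or.inr (Or.inr (h ▸ self_mem_orb K b))
        exact Finset.disjoint_left.1 hCW hv hvW)
      have hCle : (orb K c).card + 17 ≤ 24 := by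
        rw [← hWc, ← Finset.card_union_of_disjoint hCW, ← card_pts, ← Finset.card_univ]
        exact Finset.card_le_card (Finset.subset_univ _)
      have hCpos : 0 < (orb K c).card := Finset.card_pos.2 ⟨c, self_mem_orb K c⟩
      have hC7 : (orb K c).card = 7 := by omega
      have hcoC := card_orb K c
      rw [hc, hC7] at hcoC
      have hd := card_dvd_20160 (K ⊓ MulAction.stabilizer (Equiv.Perm GolayPt) c)
        (inf_le_left.trans hK) (insert c {x, a}) (by
          rw [Finset.card_insert_of_notMem (by
            rw [Finset.mem_insert, Finset.mem_singleton]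
            rintro (h | h)
            · exact hcx h
            · exact hca h), Finset.card_pair (Ne.symm hax)]) (by
          intro k hk u hu
          rcases Finset.mem_insert.1 hu with h | hu
          · rw [h]
            exact hk.2
          · rw [Finset.mem_insert, Finset.mem_singleton] at hu
            rcases hu with h | h
            · rw [h]
              exact hfx k hk.1
            · rw [h]
              exact hKa k hk.1)
      have h5760 : Nat.card ↥(K ⊓ MulAction.stabilizer (Equiv.Perm GolayPt) c) = 5760 := by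
        omega
      rw [h5760] at hd
      exact absurd hd (by norm_num)
  · rcases hB3 with hB | hB | hB
    · omega
    · rw [hA] at hmfA
      rw [hB] at hmfB
      omega
    · -- orbits 8 and 15
      rw [hA] at hmfA
      have hnA3 : ((orb K a).filter (fun v => f v = v)).card = 3 := by omega
      have hT5 : ((orb K a).filter (fun v => f v ≠ v)).card = 5 := by
        have := Finset.card_filter_add_card_filter_not (s := orb K a) (fun v => f v = v)
        have e : ((orb K a).filter (fun v => ¬ f v = v)) = (orb K a).filter (fun v => f v ≠ v) :=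
          Finset.filter_congr (fun v _ => Iff.rfl)
        rw [e, hnA3, hA] at this
        omega
      obtain ⟨O, hO, hTO, hfO, hOfix⟩ := five_oct (hK hfK) hf5 (orb_inv hfK) hT5
      obtain ⟨S, hSdef⟩ : ∃ S, S = insert x (orb K a) := ⟨_, rfl⟩
      have hSc : S.card = 9 := by rw [hSdef, Finset.card_insert_of_notMem hxA, hA]
      have hSinv : ∀ k ∈ K, ∀ v, k v ∈ S ↔ v ∈ S := by
        intro k hk v
        rw [hSdef, Finset.mem_insert, Finset.mem_insert, orb_inv hk, fix_iff (hfx k hk) v]
      -- the fixed points of f are x and three points of the orbit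
      have hFix : Finset.univ.filter (fun v => f v = v) =
          insert x ((orb K a).filter (fun v => f v = v)) := by
        symm
        apply Finset.eq_of_subset_of_card_le
        · intro v hv
          rcases Finset.mem_insert.1 hv with h | h
          · rw [h]
            exact hxf
          · exact Finset.mem_filter.2 ⟨Finset.mem_univ _, (Finset.mem_filter.1 h).2⟩
        · rw [hfc, Finset.card_insert_of_notMem (fun h => hxA (Finset.mem_filter.1 h).1), hnA3]
      have hOS : O ⊆ S := by
        intro v hvO
        by_cases hvT : v ∈ (orb K a).filter (fun v => f v ≠ v)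
        · rw [hSdef]
          exact Finset.mem_insert_of_mem (Finset.mem_filter.1 hvT).1
        · have hfv := hOfix v hvO hvT
          have hvF : v ∈ Finset.univ.filter (fun v => f v = v) :=
            Finset.mem_filter.2 ⟨Finset.mem_univ _, hfv⟩
          rw [hFix] at hvF
          rw [hSdef]
          rcases Finset.mem_insert.1 hvF with h | h
          · rw [h]
            exact Finset.mem_insert_self _ _
          · exact Finset.mem_insert_of_mem (Finset.mem_filter.1 h).1
      have hOinv := oct_inv_of_big hK hO hSinv (by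
        rw [hSc, Finset.inter_eq_left.2 hOS, hO.2]
        norm_num)
      by_cases hxO : x ∈ O
      · -- the point of S outside O is a fixed point in the orbit
        have hpos : 0 < (S \ O).card := by
          rw [Finset.card_sdiff_of_subset hOS, hSc, hO.2]
          norm_num
        obtain ⟨m, hm⟩ := Finset.card_pos.1 hpos
        obtain ⟨hmS, hmO⟩ := Finset.mem_sdiff.1 hm
        have hmA : m ∈ orb K a := by
          rw [hSdef] at hmS
          rcases Finset.mem_insert.1 hmS with h | h
          · exact absurd (h ▸ hxO) hmO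
          · exact h
        have hc1 : (S \ O).card ≤ 1 := by
          rw [Finset.card_sdiff_of_subset hOS, hSc, hO.2]
        have hKm : ∀ k ∈ K, k m = m := by
          intro k hk
          have h1 : k m ∈ S \ O := by
            rw [Finset.mem_sdiff]
            exact ⟨(hSinv k hk m).2 hmS, fun h => hmO ((mem_of_smul_eq (hOinv k hk) m).1 h)⟩
          exact Finset.card_le_one.1 hc1 _ h1 _ hm
        have h1 := orb_single hKm
        rw [orb_eq hmA, hA] at h1
        omega
      · have := oct_out_bound K hK hO hxO hfx hOinv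
        omega
  · rcases hB3 with hB | hB | hB
    · omega
    · omega
    · omega

/-- A subgroup of order 40320 fixing a point preserves a pair of points or an octad through the
fixed point. -/
theorem idx253 (K : Subgroup (Equiv.Perm GolayPt)) (hK : K ≤ M24) {x : GolayPt}
    (hfx : ∀ k ∈ K, k x = x) (hc : Nat.card K = 40320) :
    (∃ a b, a ≠ b ∧ a ≠ x ∧ b ≠ x ∧ ∀ k ∈ K, k • ({a, b} : Finset GolayPt) = {a, b}) ∨
      (∃ O ∈ octads, x ∈ O ∧ ∀ k ∈ K, k • O = O) := by
  classical
  have p7 : Fact (Nat.Prime 7) := ⟨by norm_num⟩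
  have p5 : Fact (Nat.Prime 5) := ⟨by norm_num⟩
  obtain ⟨g, hgK, hg7, hg1, hglt, hgmod⟩ :=
    prime_elt K hK 7 (by rw [hc]; norm_num) (by norm_num)
  obtain ⟨f, hfK, hf5, hf1, hflt, hfmod⟩ :=
    prime_elt K hK 5 (by rw [hc]; norm_num) (by norm_num)
  have hfc : (Finset.univ.filter (fun v => f v = v)).card = 4 := by omega
  have hgc : (Finset.univ.filter (fun v => g v = v)).card = 3 := by omega
  have hxg : x ∈ Finset.univ.filter (fun v => g v = v) :=
    Finset.mem_filter.2 ⟨Finset.mem_univ _, hfx g hgK⟩
  have hrest : ((Finset.univ.filter (fun v => g v = v)).erase x).card = 2 := by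
    rw [Finset.card_erase_of_mem hxg, hgc]
  obtain ⟨a, b, hab, habeq⟩ := Finset.card_eq_two.1 hrest
  have ham : a ∈ (Finset.univ.filter (fun v => g v = v)).erase x := by rw [habeq]; simp
  have hbm : b ∈ (Finset.univ.filter (fun v => g v = v)).erase x := by rw [habeq]; simp
  have hax : a ≠ x := (Finset.mem_erase.1 ham).1
  have hbx : b ≠ x := (Finset.mem_erase.1 hbm).1
  have hga : g a = a := (Finset.mem_filter.1 (Finset.mem_erase.1 ham).2).2
  have hgb : g b = b := (Finset.mem_filter.1 (Finset.mem_erase.1 hbm).2).2
  have hgF : ∀ v, g v = v → v = x ∨ v = a ∨ v = b := by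
    intro v hv
    by_cases hvx : v = x
    · exact Or.inl hvx
    · right
      have hvm : v ∈ (Finset.univ.filter (fun v => g v = v)).erase x :=
        Finset.mem_erase.2 ⟨hvx, Finset.mem_filter.2 ⟨Finset.mem_univ _, hv⟩⟩
      rw [habeq, Finset.mem_insert, Finset.mem_singleton] at hvm
      exact hvm
  by_cases hb : b ∈ orb K a
  · rcases idx253_I K hK hfx hc hgK hg7 hfK hf5 hfc hab hax hbx hga hgb hgF hb with h | h
    · exact Or.inl ⟨a, b, hab, hax, hbx, h⟩
    · exact Or.inr h
  · exfalso
    rcases le_total (orb K a).card (orb K b).card with hle | hle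
    · exact idx253_II K hK hfx hc hgK hg7 hfK hf5 hfc hab hax hbx hga hgb hgF hb hle
    · have ha : a ∉ orb K b := fun h => hb (by rw [orb_eq h]; exact self_mem_orb K b)
      exact idx253_II K hK hfx hc hgK hg7 hfK hf5 hfc hab.symm hbx hax hgb hga (fun v hv => by
        rcases hgF v hv with h | h | h
        · exact Or.inl h
        · exact Or.inr (Or.inr h)
        · exact Or.inr (Or.inl h)) ha hle

end AutA
end Cfsg.Agent.Lib.Helper4
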