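import Cfsg.Agent.Lib.Helper4.AutX

set_option autoImplicit false

namespace Cfsg.Agent.Lib.Helper4
namespace AutA

open Pointwise Golay

/-- The stabiliser of a point inside a subgroup. -/
abbrev stp (K : Subgroup (Equiv.Perm GolayPt)) (a : GolayPt) : Subgroup (Equiv.Perm GolayPt) :=
  K ⊓ MulAction.stabilizer (Equiv.Perm GolayPt) a

theorem card_orb' (H : Subgroup (Equiv.Perm GolayPt)) (p : GolayPt) :
    Nat.card H = (orb H p).card * Nat.card ↥(stp H p) := card_orb H p

theorem orb_le24 (H : Subgroup (Equiv.Perm GolayPt)) (p : GolayPt) : (orb H p).card ≤ 24 := by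
  have := Finset.card_le_univ (orb H p)
  rw [card_pts] at this
  exact this

theorem orb_pos (H : Subgroup (Equiv.Perm GolayPt)) (p : GolayPt) : 0 < (orb H p).card :=
  Finset.card_pos.2 ⟨p, self_mem_orb H p⟩

theorem ex_notMem (s : Finset GolayPt) (h : s.card < 24) : ∃ p, p ∉ s := by
  by_contra hcon
  have : s = Finset.univ := Finset.eq_univ_iff_forall.2 (fun x => by
    by_contra hx
    exact hcon ⟨x, hx⟩)
  rw [this, Finset.card_univ, card_pts] at h
  omega

/-- A subgroup fixing a point has order dividing 10200960. -/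
theorem card_dvd_pt (K : Subgroup (Equiv.Perm GolayPt)) (hK : K ≤ M24) {a : GolayPt}
    (hfix : ∀ k ∈ K, k a = a) : Nat.card K ∣ 10200960 := by
  rw [← card_stab1 a]
  exact Subgroup.card_dvd_of_le (fun k hk => ⟨hK hk, hfix k hk⟩)

/-- Orbit lengths are multiples of the index of the largest possible point stabiliser. -/
theorem orb_dvd_of_card (K : Subgroup (Equiv.Perm GolayPt)) (hK : K ≤ M24) (v : GolayPt)
    (N d G : ℕ) (hN : Nat.card K = N) (hG : Nat.gcd N 10200960 = G) (hd : N = d * G)
    (hG0 : G ≠ 0) : d ∣ (orb K v).card := by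
  have hco := card_orb' K v
  rw [hN] at hco
  have h1 : Nat.card ↥(stp K v) ∣ 10200960 :=
    card_dvd_pt (stp K v) (inf_le_left.trans hK) (fun k hk => hk.2)
  have h2 : Nat.card ↥(stp K v) ∣ N := Dvd.intro_left _ hco.symm
  have h3 : Nat.card ↥(stp K v) ∣ G := by
    rw [← hG]
    exact Nat.dvd_gcd h2 h1
  obtain ⟨q, hq⟩ := h3
  refine ⟨q, ?_⟩
  have hc0 : 0 < Nat.card ↥(stp K v) := by
    rcases Nat.eq_zero_or_pos (Nat.card ↥(stp K v)) with h | h
    · rw [h, zero_mul] at hq
      exact absurd hq hG0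
    · exact h
  apply Nat.eq_of_mul_eq_mul_right hc0
  calc (orb K v).card * Nat.card ↥(stp K v) = N := hco.symm
    _ = d * G := hd
    _ = d * q * Nat.card ↥(stp K v) := by rw [hq, mul_assoc, mul_comm q]

theorem trans_of_card (K : Subgroup (Equiv.Perm GolayPt)) (h : ∀ v, (orb K v).card = 24) :
    ∀ v w : GolayPt, ∃ k ∈ K, k v = w := by
  intro v w
  have h1 : orb K v = Finset.univ := Finset.eq_univ_of_card _ (by rw [h v, card_pts])
  have h2 : w ∈ orb K v := by
    rw [h1]
    exact Finset.mem_univ w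
  exact mem_orb.1 h2

/-- If every orbit inside an invariant set has size divisible by `d`, so has the set. -/
theorem orb_sum_dvd (K : Subgroup (Equiv.Perm GolayPt)) (d : ℕ) :
    ∀ (n : ℕ) (S : Finset GolayPt), S.card = n → (∀ k ∈ K, ∀ v, k v ∈ S ↔ v ∈ S) →
      (∀ v ∈ S, d ∣ (orb K v).card) → d ∣ S.card := by
  intro n
  induction n using Nat.strong_induction_on with
  | _ n ih =>
    intro S hn hinv hd
    rcases S.eq_empty_or_nonempty with rfl | ⟨v, hv⟩
    · simp
    · have hsub : orb K v ⊆ S := by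
        intro w hw
        obtain ⟨k, hk, rfl⟩ := mem_orb.1 hw
        exact (hinv k hk v).2 hv
      have hlt : (S \ orb K v).card < n := by
        rw [← hn]
        apply Finset.card_lt_card
        refine ⟨Finset.sdiff_subset, fun h => ?_⟩
        have h' := h hv
        rw [Finset.mem_sdiff] at h'
        exact h'.2 (self_mem_orb K v)
      have h1 := ih _ hlt (S \ orb K v) rfl (by
        intro k hk w
        rw [Finset.mem_sdiff, Finset.mem_sdiff, hinv k hk w, orb_inv hk w]) (by
        intro w hw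
        exact hd w (Finset.mem_sdiff.1 hw).1)
      have h2 := hd v hv
      have h3 : S.card = (S \ orb K v).card + (orb K v).card := by
        rw [Finset.card_sdiff_of_subset hsub]
        have := Finset.card_le_card hsub
        omega
      rw [h3]
      exact Dvd.dvd.add h1 h2

/-- Cauchy's theorem inside a permutation subgroup. -/
theorem cauchy_elt (H : Subgroup (Equiv.Perm GolayPt)) (r : ℕ) [Fact r.Prime]
    (hr : r ∣ Nat.card H) : ∃ ψ ∈ H, ψ ^ r = 1 ∧ ψ ≠ 1 := by
  obtain ⟨s, hs⟩ := exists_prime_orderOf_dvd_card' (G := ↥H) r hr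
  have hsr : s.1 ^ r = 1 := by
    have := pow_orderOf_eq_one s
    rw [hs] at this
    exact congrArg Subtype.val this
  have hs1 : s.1 ≠ 1 := by
    intro h
    have : s = 1 := Subtype.ext h
    rw [this, orderOf_one] at hs
    exact (Fact.out : r.Prime).one_lt.ne hs
  exact ⟨s.1, s.2, hsr, hs1⟩

/-- Stabiliser chain inside an invariant set. -/
theorem chainG (R : Subgroup (Equiv.Perm GolayPt)) (B : Finset GolayPt)
    (hR : ∀ k ∈ R, k • B = B) (m : ℕ)
    (hm : ∀ K' : Subgroup (Equiv.Perm GolayPt), K' ≤ R → (∀ k ∈ K', ∀ u ∈ B, k u = u) →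
      Nat.card K' ≤ m) :
    ∀ (n : ℕ) (K : Subgroup (Equiv.Perm GolayPt)), K ≤ R → ∀ F : Finset GolayPt, F ⊆ B →
      F.card + n = B.card → (∀ k ∈ K, ∀ u ∈ F, k u = u) → Nat.card K ≤ n.factorial * m := by
  intro n
  induction n with
  | zero =>
    intro K hKR F hFB hFc hfix
    have hFB' : F = B := Finset.eq_of_subset_of_card_le hFB (by omega)
    subst hFB'
    simpa using hm K hKR hfix
  | succ n ih =>
    intro K hKR F hFB hFc hfix
    have hpos : 0 < (B \ F).card := by
      rw [Finset.card_sdiff_of_subset hFB]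
      omega
    obtain ⟨y, hy⟩ := Finset.card_pos.1 hpos
    obtain ⟨hyB, hyF⟩ := Finset.mem_sdiff.1 hy
    have hco := card_orb K y
    have hsub : orb K y ⊆ B \ F := by
      intro v hv
      obtain ⟨k, hk, rfl⟩ := mem_orb.1 hv
      rw [Finset.mem_sdiff]
      refine ⟨(mem_of_smul_eq (hR k (hKR hk)) y).2 hyB, ?_⟩
      intro hkF
      have h1 := hfix k hk (k y) hkF
      exact hyF (k.injective h1 ▸ hkF)
    have hle : (orb K y).card ≤ n + 1 := by
      have := Finset.card_le_card hsub
      rw [Finset.card_sdiff_of_subset hFB] at this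
      omega
    have hst := ih (K ⊓ MulAction.stabilizer (Equiv.Perm GolayPt) y) (inf_le_left.trans hKR)
      (insert y F) (Finset.insert_subset hyB hFB)
      (by rw [Finset.card_insert_of_notMem hyF]; omega)
      (by
        intro k hk u hu
        rcases Finset.mem_insert.1 hu with rfl | hu
        · exact hk.2
        · exact hfix k hk.1 u hu)
    rw [hco, Nat.factorial_succ, mul_assoc]
    exact Nat.mul_le_mul hle hst

/-- A map of a finite set into itself by a permutation stabilises it. -/
theorem smul_eq_of_maps {k : Equiv.Perm GolayPt} {S : Finset GolayPt}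
    (h : ∀ q ∈ S, k q ∈ S) : k • S = S := by
  apply Finset.eq_of_subset_of_card_le
  · intro x hx
    obtain ⟨y, hy, rfl⟩ := Finset.mem_smul_finset.1 hx
    exact h y hy
  · rw [Finset.card_smul_finset]

/-- An element of prime order fixes every point of a small invariant set. -/
theorem fix_all_of_small {f : Equiv.Perm GolayPt} (r : ℕ) [Fact r.Prime] (hf : f ^ r = 1)
    (X : Finset GolayPt) (hX : ∀ x, f x ∈ X ↔ x ∈ X) (hlt : X.card < r) :
    ∀ x ∈ X, f x = x := by
  have hm := card_modEq_fixed f r hf X hX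
  have hle : (X.filter (fun x => f x = x)).card ≤ X.card := Finset.card_filter_le _ _
  have heq : (X.filter (fun x => f x = x)).card = X.card := by
    unfold Nat.ModEq at hm
    rw [Nat.mod_eq_of_lt (lt_of_le_of_lt hle hlt), Nat.mod_eq_of_lt hlt] at hm
    exact hm
  have hfe : X.filter (fun x => f x = x) = X :=
    Finset.eq_of_subset_of_card_le (Finset.filter_subset _ _) heq.ge
  intro x hx
  rw [← hfe] at hx
  exact (Finset.mem_filter.1 hx).2

/-- Fixed points of an element of prime order in an invariant set. -/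
theorem fix_ge {f : Equiv.Perm GolayPt} (r : ℕ) [Fact r.Prime] (hf : f ^ r = 1)
    (X : Finset GolayPt) (hX : ∀ x, f x ∈ X ↔ x ∈ X) :
    X.card % r ≤ (X.filter (fun x => f x = x)).card := by
  have hm := card_modEq_fixed f r hf X hX
  unfold Nat.ModEq at hm
  rw [← hm]
  exact Nat.mod_le _ _

theorem fix_two {f : Equiv.Perm GolayPt} {X Y : Finset GolayPt} (hd : Disjoint X Y) :
    (X.filter (fun x => f x = x)).card + (Y.filter (fun x => f x = x)).card ≤
      (Finset.univ.filter (fun x => f x = x)).card := by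
  rw [← Finset.card_union_of_disjoint (Finset.disjoint_filter_filter hd)]
  apply Finset.card_le_card
  intro x hx
  rw [Finset.mem_union, Finset.mem_filter, Finset.mem_filter] at hx
  rw [Finset.mem_filter]
  rcases hx with h | h
  · exact ⟨Finset.mem_univ _, h.2⟩
  · exact ⟨Finset.mem_univ _, h.2⟩

theorem fix_sub {f : Equiv.Perm GolayPt} (X : Finset GolayPt) :
    (X.filter (fun x => f x = x)).card ≤ (Finset.univ.filter (fun x => f x = x)).card :=
  Finset.card_le_card (fun x hx => Finset.mem_filter.2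
    ⟨Finset.mem_univ _, (Finset.mem_filter.1 hx).2⟩)

/-- Blocks: the base-point form of the block property gives the general one. -/
theorem block_of_base (K : Subgroup (Equiv.Perm GolayPt))
    (htr : ∀ v w : GolayPt, ∃ k ∈ K, k v = w) {a : GolayPt} {T : Finset GolayPt}
    (hA : ∀ k ∈ K, k a ∈ T → k • T = T) : ∀ k ∈ K, ∀ p ∈ T, k p ∈ T → k • T = T := by
  intro k hk p hp hkp
  obtain ⟨m, hm, hma⟩ := htr a p
  have h1 := hA m hm (by rw [hma]; exact hp)
  have h2 := hA (k * m) (K.mul_mem hk hm) (by rw [Equiv.Perm.mul_apply, hma]; exact hkp)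
  rw [mul_smul, h1] at h2
  exact h2

/-- Conjugating an element of a point stabiliser. -/
theorem conj_mem_stp {K : Subgroup (Equiv.Perm GolayPt)} {k g : Equiv.Perm GolayPt} {a : GolayPt}
    (hk : k ∈ K) (hg : g ∈ K) (hfix : g (k a) = k a) : k⁻¹ * g * k ∈ stp K a := by
  refine ⟨K.mul_mem (K.mul_mem (K.inv_mem hk) hg) hk, ?_⟩
  show (k⁻¹ * g * k) a = a
  rw [Equiv.Perm.mul_apply, Equiv.Perm.mul_apply, hfix]
  simp

theorem conj_smul {k g : Equiv.Perm GolayPt} {T : Finset GolayPt}
    (h : (k⁻¹ * g * k) • T = T) : g • (k • T) = k • T := by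
  rw [mul_smul, mul_smul] at h
  exact inv_smul_eq_iff.1 h

theorem conj_apply {k g : Equiv.Perm GolayPt} {x : GolayPt}
    (h : (k⁻¹ * g * k) x = x) : g (k x) = k x := by
  rw [Equiv.Perm.mul_apply, Equiv.Perm.mul_apply] at h
  have h2 := congrArg k h
  simpa using h2

theorem conj_pow5 {k g : Equiv.Perm GolayPt} (r : ℕ) (h : g ^ r = 1) : (k⁻¹ * g * k) ^ r = 1 := by
  have e : k⁻¹ * g * k = (MulAut.conj k⁻¹) g := by simp [MulAut.conj_apply]
  rw [e, ← map_pow, h, map_one]

/-- The stabiliser of an octad has order at least 322560. -/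
theorem oct_stab_ge {A : Finset GolayPt} (hA : A ∈ octads) :
    322560 ≤ Nat.card ↥(M24 ⊓ MulAction.stabilizer (Equiv.Perm GolayPt) A) := by
  have h1 := card_orbit_mul_stab (G := ↥M24) A
  have h2 : (MulAction.orbit ↥M24 A).ncard ≤ 759 := by
    have hsub : MulAction.orbit ↥M24 A ⊆ octads := by
      rintro _ ⟨g, rfl⟩
      exact smul_mem_weight g.2 hA
    have h := Set.ncard_le_ncard hsub (Set.toFinite _)
    have h759 : octads.ncard = 759 := by
      have := ncard_weight 8
      rw [count8] at this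
      exact this
    omega
  have h3 : Nat.card ↥(MulAction.stabilizer ↥M24 A) ≤
      Nat.card ↥(M24 ⊓ MulAction.stabilizer (Equiv.Perm GolayPt) A) := by
    rw [← Subgroup.card_map_of_injective (Subgroup.subtype_injective M24)]
    apply Nat.le_of_dvd Nat.card_pos
    apply Subgroup.card_dvd_of_le
    rintro _ ⟨g, hg, rfl⟩
    exact ⟨g.2, hg⟩
  rw [card_M24] at h1
  have h4 := Nat.mul_le_mul h2 h3
  rw [← h1] at h4
  omega

/-- A subgroup fixing a point outside an invariant octad has order dividing 20160. -/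
theorem oct_out_dvd (K : Subgroup (Equiv.Perm GolayPt)) (hK : K ≤ M24) {A : Finset GolayPt}
    (hA : A ∈ octads) {x : GolayPt} (hx : x ∉ A) (hfx : ∀ k ∈ K, k x = x)
    (hinv : ∀ k ∈ K, k • A = A) : Nat.card K ∣ 20160 := by
  obtain ⟨J, hJ⟩ : ∃ J : Subgroup (Equiv.Perm GolayPt),
      J = M24 ⊓ MulAction.stabilizer (Equiv.Perm GolayPt) A := ⟨_, rfl⟩
  have hJM : J ≤ M24 := by
    rw [hJ]
    exact inf_le_left
  have hJA : ∀ k ∈ J, k • A = A := by
    intro k hk
    rw [hJ] at hk
    exact hk.2
  have hJge : 322560 ≤ Nat.card J := by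
    rw [hJ]
    exact oct_stab_ge hA
  have hco := card_orb' J x
  have horb : (orb J x).card ≤ 16 := by
    have hsub : orb J x ⊆ Finset.univ \ A := by
      intro v hv
      obtain ⟨k, hk, rfl⟩ := mem_orb.1 hv
      rw [Finset.mem_sdiff]
      exact ⟨Finset.mem_univ _, fun h => hx ((mem_of_smul_eq (hJA k hk) x).1 h)⟩
    have := Finset.card_le_card hsub
    rw [Finset.card_sdiff_of_subset (Finset.subset_univ A), Finset.card_univ, card_pts, hA.2] at this
    exact this
  have hJ'le : Nat.card ↥(stp J x) ≤ 20160 :=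
    oct_out_bound _ (inf_le_left.trans hJM) hA hx (fun k hk => hk.2) (fun k hk => hJA k hk.1)
  have hJ' : Nat.card ↥(stp J x) = 20160 := by
    have h5 := Nat.mul_le_mul horb (le_refl (Nat.card ↥(stp J x)))
    rw [← hco] at h5
    omega
  rw [← hJ']
  apply Subgroup.card_dvd_of_le
  intro k hk
  refine ⟨?_, hfx k hk⟩
  rw [hJ]
  exact ⟨hK hk, hinv k hk⟩

/-- In a transitive subgroup whose point stabiliser fixes a second point but no third one,
the stabiliser of a further point in the point stabiliser fixes four points. -/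
theorem two_fix (K : Subgroup (Equiv.Perm GolayPt)) (hK : K ≤ M24)
    (htr : ∀ v w : GolayPt, ∃ k ∈ K, k v = w) {a b : GolayPt} (hab : a ≠ b)
    (hfix : ∀ k ∈ stp K a, k b = b)
    (hno3 : ∀ c, c ≠ a → c ≠ b → ¬ ∀ k ∈ stp K a, k c = c)
    {c : GolayPt} (hca : c ≠ a) (hcb : c ≠ b) :
    Nat.card ↥(stp (stp K a) c) ∣ 960 := by
  classical
  have hcard : ∀ v, Nat.card K = 24 * Nat.card ↥(stp K v) := by
    intro v
    have h1 := card_orb' K v
    have h2 : orb K v = Finset.univ := Finset.eq_univ_iff_forall.2 (fun w => mem_orb.2 (htr v w))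
    rw [h2, Finset.card_univ, card_pts] at h1
    exact h1
  have hsame : ∀ v w, Nat.card ↥(stp K v) = Nat.card ↥(stp K w) := by
    intro v w
    have h1 := hcard v
    have h2 := hcard w
    omega
  have hab' : stp K a = stp K b :=
    Subgroup.eq_of_le_of_card_ge (fun k hk => ⟨hk.1, hfix k hk⟩) (hsame a b).ge
  obtain ⟨h, hh, hha⟩ := htr a c
  have hc'fix : ∀ k ∈ stp K c, k (h b) = h b := by
    intro k hk
    have h1 : k (h a) = h a := by
      rw [hha]
      exact hk.2
    exact conj_apply (hfix _ (conj_mem_stp hh hk.1 h1))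
  have hkey : ∀ z, (∀ k ∈ stp K c, k z = z) → (z = a ∨ z = b) → False := by
    intro z hz hzab
    have hle : stp K c ≤ stp K a := by
      intro k hk
      rcases hzab with rfl | rfl
      · exact ⟨hk.1, hz k hk⟩
      · rw [hab']
        exact ⟨hk.1, hz k hk⟩
    have heq : stp K c = stp K a := Subgroup.eq_of_le_of_card_ge hle (hsame a c).le
    apply hno3 c hca hcb
    intro k hk
    rw [← heq] at hk
    exact hk.2
  have hc'c : h b ≠ c := by
    intro e
    rw [← hha] at e
    exact hab (h.injective e).symm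
  have hc'a : h b ≠ a := fun e => hkey (h b) hc'fix (Or.inl e)
  have hc'b : h b ≠ b := fun e => hkey (h b) hc'fix (Or.inr e)
  apply card_dvd_960 _ ((inf_le_left.trans inf_le_left).trans hK) (insert a (insert b (insert c {h b})))
  · rw [Finset.card_insert_of_notMem, Finset.card_insert_of_notMem, Finset.card_insert_of_notMem,
      Finset.card_singleton]
    · rw [Finset.mem_singleton]
      exact hc'c.symm
    · simp only [Finset.mem_insert, Finset.mem_singleton, not_or]
      exact ⟨hcb.symm, hc'b.symm⟩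
    · simp only [Finset.mem_insert, Finset.mem_singleton, not_or]
      exact ⟨hab, hca.symm, hc'a.symm⟩
  · intro k hk u hu
    simp only [Finset.mem_insert, Finset.mem_singleton] at hu
    rcases hu with rfl | rfl | rfl | rfl
    · exact hk.1.2
    · exact hfix k hk.1
    · exact hk.2
    · exact hc'fix k ⟨hk.1.1, hk.2⟩

end AutA
end Cfsg.Agent.Lib.Helper4
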