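import Cfsg.Agent.Lib.Helper4.AutY

set_option autoImplicit false

namespace Cfsg.Agent.Lib.Helper4
namespace AutA

open Pointwise Golay

/-- No transitive subgroup has a point stabiliser of order 40320 stabilising a pair. -/
theorem no253_I (K : Subgroup (Equiv.Perm GolayPt)) (hK : K ≤ M24)
    (htr : ∀ v w : GolayPt, ∃ k ∈ K, k v = w) {a b c : GolayPt}
    (hca : Nat.card ↥(stp K a) = 40320) (hbc : b ≠ c) (hba : b ≠ a) (hca' : c ≠ a)
    (hinv : ∀ k ∈ stp K a, k • ({b, c} : Finset GolayPt) = {b, c}) : False := by
  classical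
  have hLM : stp K a ≤ M24 := inf_le_left.trans hK
  have p5 : Fact (Nat.Prime 5) := ⟨by norm_num⟩
  obtain ⟨f, hfL, hf5, hf1, hflt, hfmod⟩ :=
    prime_elt (stp K a) hLM 5 (by rw [hca]; norm_num) (by norm_num)
  have hf4 : (Finset.univ.filter (fun x => f x = x)).card = 4 := by omega
  have hfa : f a = a := hfL.2
  have h5bc : ∀ φ ∈ stp K a, φ ^ 5 = 1 → φ b = b ∧ φ c = c := by
    intro φ hφ hφ5
    have h := fix_all_of_small 5 hφ5 {b, c} (mem_of_smul_eq (hinv φ hφ))
      (by rw [Finset.card_pair hbc]; norm_num)
    exact ⟨h b (by simp), h c (by simp)⟩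
  obtain ⟨hfb, hfc⟩ := h5bc f hfL hf5
  obtain ⟨T, hT⟩ : ∃ T : Finset GolayPt, T = insert a {b, c} := ⟨_, rfl⟩
  have hTc : T.card = 3 := by
    rw [hT, Finset.card_insert_of_notMem, Finset.card_pair hbc]
    simp only [Finset.mem_insert, Finset.mem_singleton, not_or]
    exact ⟨hba.symm, hca'.symm⟩
  have hTmem : ∀ x, x ∈ T ↔ x = a ∨ x = b ∨ x = c := by
    intro x
    rw [hT]
    simp
  have hN3 : 20160 ≤ Nat.card ↥(stp (stp K a) b) := by
    have hco := card_orb' (stp K a) b
    have horb : (orb (stp K a) b).card ≤ 2 := by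
      have hsub : orb (stp K a) b ⊆ {b, c} := by
        intro v hv
        obtain ⟨k, hk, rfl⟩ := mem_orb.1 hv
        exact (mem_of_smul_eq (hinv k hk) b).2 (by simp)
      exact (Finset.card_le_card hsub).trans (by rw [Finset.card_pair hbc])
    have := Nat.mul_le_mul horb (le_refl (Nat.card ↥(stp (stp K a) b)))
    rw [← hco, hca] at this
    omega
  have hN3fix : ∀ g ∈ stp (stp K a) b, g a = a ∧ g b = b ∧ g c = c := by
    intro g hg
    refine ⟨hg.1.2, hg.2, ?_⟩
    have h1 : g c ∈ ({b, c} : Finset GolayPt) := (mem_of_smul_eq (hinv g hg.1) c).2 (by simp)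
    rw [Finset.mem_insert, Finset.mem_singleton] at h1
    rcases h1 with h1 | h1
    · exact absurd (g.injective (h1.trans hg.2.symm)) hbc.symm
    · exact h1
  have hA : ∀ k ∈ K, k a ∈ T → k • T = T := by
    intro k hk hka
    apply smul_eq_of_maps
    by_cases hkaa : k a = a
    · have hkL : k ∈ stp K a := ⟨hk, hkaa⟩
      intro q hq
      rw [hTmem] at hq ⊢
      rcases hq with rfl | hq
      · exact Or.inl hkaa
      · right
        have h1 : k q ∈ ({b, c} : Finset GolayPt) := (mem_of_smul_eq (hinv k hkL) q).2 (by
          rw [Finset.mem_insert, Finset.mem_singleton]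
          exact hq)
        rw [Finset.mem_insert, Finset.mem_singleton] at h1
        exact h1
    · have hkz : ∀ z, (z = b ∨ z = c) → k z ∈ T := by
        intro z hz
        by_contra hzT
        have hg : ∀ g ∈ stp (stp K a) b, g (k z) = k b ∨ g (k z) = k c := by
          intro g hg
          obtain ⟨ga, gb, gc⟩ := hN3fix g hg
          have hgka : g (k a) = k a := by
            rw [hTmem] at hka
            rcases hka with h | h | h
            · exact absurd h hkaa
            · rw [h]
              exact gb
            · rw [h]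
              exact gc
          have hconj := conj_mem_stp hk hg.1.1 hgka
          have h2 := hinv _ hconj
          have h3 : (k⁻¹ * g * k) z ∈ ({b, c} : Finset GolayPt) := (mem_of_smul_eq h2 z).2 (by
            rw [Finset.mem_insert, Finset.mem_singleton]
            exact hz)
          rw [Finset.mem_insert, Finset.mem_singleton, Equiv.Perm.mul_apply,
            Equiv.Perm.mul_apply] at h3
          rcases h3 with h3 | h3
          · left
            have := congrArg k h3
            simpa using this
          · right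
            have := congrArg k h3
            simpa using this
        have horb : (orb (stp (stp K a) b) (k z)).card ≤ 2 := by
          have hsub : orb (stp (stp K a) b) (k z) ⊆ {k b, k c} := by
            intro v hv
            obtain ⟨g, hg', rfl⟩ := mem_orb.1 hv
            rw [Finset.mem_insert, Finset.mem_singleton]
            exact hg g hg'
          exact (Finset.card_le_card hsub).trans Finset.card_le_two
        have hco := card_orb' (stp (stp K a) b) (k z)
        have h960 : Nat.card ↥(stp (stp (stp K a) b) (k z)) ∣ 960 := by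
          apply card_dvd_960 _ ((inf_le_left.trans inf_le_left).trans hLM) (insert (k z) T)
          · rw [Finset.card_insert_of_notMem hzT, hTc]
          · intro g hg u hu
            rcases Finset.mem_insert.1 hu with rfl | hu
            · exact hg.2
            · obtain ⟨ga, gb, gc⟩ := hN3fix g hg.1
              rw [hTmem] at hu
              rcases hu with rfl | rfl | rfl
              · exact ga
              · exact gb
              · exact gc
        have h960' := Nat.le_of_dvd (by norm_num) h960
        have := Nat.mul_le_mul horb h960'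
        rw [← hco] at this
        omega
      intro q hq
      rw [hTmem] at hq
      rcases hq with rfl | hq
      · exact hka
      · exact hkz q hq
  have hA' := block_of_base K htr hA
  have hfT : ∀ x ∈ T, f x = x := by
    intro x hx
    rw [hTmem] at hx
    rcases hx with rfl | rfl | rfl
    · exact hfa
    · exact hfb
    · exact hfc
  obtain ⟨y, hyT, hfy, hyF⟩ := fixset1 hfT (by rw [hf4, hTc])
  obtain ⟨h, hh, hha⟩ := htr a y
  have hconj := conj_mem_stp hh hfL.1 (by rw [hha]; exact hfy)
  obtain ⟨e1, e2⟩ := h5bc _ hconj (conj_pow5 5 hf5)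
  have hfhb : f (h b) = h b := conj_apply e1
  have hhbT : h b ∈ T := by
    rcases hyF (h b) hfhb with h1 | h1
    · exact h1
    · exfalso
      rw [← hha] at h1
      exact hba (h.injective h1)
  have hbT : b ∈ T := by
    rw [hTmem]
    exact Or.inr (Or.inl rfl)
  have haT : a ∈ T := by
    rw [hTmem]
    exact Or.inl rfl
  have h3 := hA' h hh b hbT hhbT
  have : h a ∈ T := (mem_of_smul_eq h3 a).2 haT
  rw [hha] at this
  exact hyT this

/-- No transitive subgroup has a point stabiliser of order 40320 stabilising an octad. -/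
theorem no253_II (K : Subgroup (Equiv.Perm GolayPt)) (hK : K ≤ M24)
    (htr : ∀ v w : GolayPt, ∃ k ∈ K, k v = w) {a : GolayPt} {O : Finset GolayPt}
    (hca : Nat.card ↥(stp K a) = 40320) (hO : O ∈ octads) (haO : a ∈ O)
    (hinv : ∀ k ∈ stp K a, k • O = O) : False := by
  classical
  have hLM : stp K a ≤ M24 := inf_le_left.trans hK
  have hO8 : O.card = 8 := hO.2
  have hfull : ∀ g ∈ M24, g a = a → g • O = O → g ∈ stp K a := by
    intro g hg hga hgO
    obtain ⟨J, hJ⟩ : ∃ J : Subgroup (Equiv.Perm GolayPt),
        J = stp M24 a ⊓ MulAction.stabilizer (Equiv.Perm GolayPt) O := ⟨_, rfl⟩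
    have hle : stp K a ≤ J := by
      intro k hk
      rw [hJ]
      exact ⟨⟨hK hk.1, hk.2⟩, hinv k hk⟩
    have hJc : Nat.card J ≤ 40320 := by
      apply oct_in_bound J _ hO haO
      · intro k hk
        rw [hJ] at hk
        exact hk.1.2
      · intro k hk
        rw [hJ] at hk
        exact hk.2
      · rw [hJ]
        exact inf_le_left.trans inf_le_left
    have heq : stp K a = J := Subgroup.eq_of_le_of_card_ge hle (by rw [hca]; exact hJc)
    rw [heq, hJ]
    exact ⟨⟨hg, hga⟩, hgO⟩
  obtain ⟨E, hE⟩ : ∃ E : Subgroup (Equiv.Perm GolayPt),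
      E = M24 ⊓ fixingSubgroup (Equiv.Perm GolayPt) (O : Set GolayPt) := ⟨_, rfl⟩
  obtain ⟨hE16, hEinv⟩ := fix_octad hO
  rw [← hE] at hE16 hEinv
  have hEfix : ∀ g ∈ E, ∀ u ∈ O, g u = u := by
    intro g hg u hu
    rw [hE] at hg
    exact (mem_fixingSubgroup_iff _).1 hg.2 u (Finset.mem_coe.2 hu)
  have hEM : E ≤ M24 := by
    rw [hE]
    exact inf_le_left
  have hEO : ∀ g ∈ E, g • O = O := fun g hg =>
    smul_eq_of_maps (fun q hq => by rw [hEfix g hg q hq]; exact hq)
  have hEL : ∀ g ∈ E, g ∈ stp K a := fun g hg =>
    hfull g (hEM hg) (hEfix g hg a haO) (hEO g hg)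
  have hA : ∀ k ∈ K, k a ∈ O → k • O = O := by
    intro k hk hka
    by_contra hne
    have hEk : ∀ g ∈ E, g • (k • O) = k • O := by
      intro g hg
      have h1 : g (k a) = k a := hEfix g hg _ hka
      exact conj_smul (hinv _ (conj_mem_stp hk (hEL g hg).1 h1))
    have hex : ∃ y, y ∈ k • O ∧ y ∉ O := by
      by_contra hcon
      apply hne
      apply Finset.eq_of_subset_of_card_le
      · intro y hy
        by_contra hyO
        exact hcon ⟨y, hy, hyO⟩
      · rw [Finset.card_smul_finset]
    obtain ⟨y, hyk, hyO⟩ := hex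
    have hkak : k a ∈ k • O := Finset.smul_mem_smul_finset haO
    have hsub : orb E y ⊆ (k • O).erase (k a) := by
      intro v hv
      obtain ⟨g, hg, rfl⟩ := mem_orb.1 hv
      rw [Finset.mem_erase]
      refine ⟨?_, (mem_of_smul_eq (hEk g hg) y).2 hyk⟩
      intro e
      apply hyO
      apply (mem_of_smul_eq (hEO g hg) y).1
      rw [e]
      exact hka
    have hle : (orb E y).card ≤ 7 := by
      have := Finset.card_le_card hsub
      rw [Finset.card_erase_of_mem hkak, Finset.card_smul_finset, hO8] at this
      exact this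
    have hbot : stp E y = ⊥ := by
      rw [eq_bot_iff]
      intro g hg
      rw [Subgroup.mem_bot]
      by_contra hg1
      have h8 := inv_two_fix (hEM hg.1) (hEinv g hg.1) hg1 (p := a) (q := y)
        (fun e => hyO (e ▸ haO)) (hEfix g hg.1 a haO) hg.2
      have hsub9 : insert y O ⊆ Finset.univ.filter (fun x => g x = x) := by
        intro u hu
        rw [Finset.mem_filter]
        refine ⟨Finset.mem_univ _, ?_⟩
        rcases Finset.mem_insert.1 hu with rfl | hu
        · exact hg.2
        · exact hEfix g hg.1 u hu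
      have := Finset.card_le_card hsub9
      rw [Finset.card_insert_of_notMem hyO, hO8, h8] at this
      omega
    have hco := card_orb' E y
    rw [hbot, Subgroup.card_bot, hE16] at hco
    omega
  have hA' := block_of_base K htr hA
  have p5 : Fact (Nat.Prime 5) := ⟨by norm_num⟩
  obtain ⟨f, hfL, hf5, hf1, hflt, hfmod⟩ :=
    prime_elt (stp K a) hLM 5 (by rw [hca]; norm_num) (by norm_num)
  have hf4 : (Finset.univ.filter (fun x => f x = x)).card = 4 := by omega
  have hfO := hinv f hfL
  have h3O := fix_ge 5 hf5 O (mem_of_smul_eq hfO)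
  rw [hO8] at h3O
  have hex : ∃ y, f y = y ∧ y ∉ O := by
    by_contra hcon
    have hsub : Finset.univ.filter (fun x => f x = x) ⊆ O.filter (fun x => f x = x) := by
      intro x hx
      rw [Finset.mem_filter] at hx ⊢
      refine ⟨?_, hx.2⟩
      by_contra hxO
      exact hcon ⟨x, hx.2, hxO⟩
    have h1 := Finset.card_le_card hsub
    have h2 := card_modEq_fixed f 5 hf5 O (mem_of_smul_eq hfO)
    rw [hO8] at h2
    unfold Nat.ModEq at h2
    have h3 := fix_sub (f := f) O
    omega
  obtain ⟨y, hfy, hyO⟩ := hex
  obtain ⟨h, hh, hha⟩ := htr a y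
  have hfO1 : f • (h • O) = h • O :=
    conj_smul (hinv _ (conj_mem_stp hh hfL.1 (by rw [hha]; exact hfy)))
  have h3O1 := fix_ge 5 hf5 (h • O) (mem_of_smul_eq hfO1)
  rw [Finset.card_smul_finset, hO8] at h3O1
  have hdisj : Disjoint O (h • O) := by
    rw [Finset.disjoint_left]
    intro p hpO hp
    obtain ⟨q, hq, rfl⟩ := Finset.mem_smul_finset.1 hp
    have h3 := hA' h hh q hq hpO
    have : h a ∈ O := (mem_of_smul_eq h3 a).2 haO
    rw [hha] at this
    exact hyO this
  have := fix_two (f := f) hdisj
  omega

/-- No subgroup of order 967680. -/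
theorem no253 (K : Subgroup (Equiv.Perm GolayPt)) (hK : K ≤ M24) (hc : Nat.card K = 967680) :
    False := by
  classical
  have horb : ∀ v, (orb K v).card = 24 := by
    intro v
    obtain ⟨q, hq⟩ := orb_dvd_of_card K hK v 967680 24 40320 hc (by norm_num) (by norm_num)
      (by norm_num)
    have h2 := orb_le24 K v
    have h3 := orb_pos K v
    omega
  have htr := trans_of_card K horb
  have hca : Nat.card ↥(stp K (none : GolayPt)) = 40320 := by
    have := card_orb' K (none : GolayPt)
    rw [hc, horb] at this
    omega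
  rcases idx253 (stp K (none : GolayPt)) (inf_le_left.trans hK) (fun k hk => hk.2) hca with
    ⟨b, c, hbc, hba, hca', hinv⟩ | ⟨O, hO, haO, hinv⟩
  · exact no253_I K hK htr hca hbc hba hca' hinv
  · exact no253_II K hK htr hca hO haO hinv

end AutA
end Cfsg.Agent.Lib.Helper4
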