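import Cfsg.Agent.Lib.Helper4.AuC

set_option autoImplicit false

namespace Cfsg.Agent.Lib.Helper4
namespace TvC

open Pointwise Golay AutA

/-- Vectors of the 5-dimensional space over the field with two elements. -/
abbrev V : Type := Fin 5 → ZMod 2

/-- Coordinates of the sixteen points outside the standard octad (second coordinate `1`). -/
def ctab : List ℕ :=
  [0, 0, 0, 0, 0, 2, 3, 0, 6, 10, 0, 18, 0, 22, 11, 23, 30, 26, 7, 15, 14, 31, 27, 19]

/-- Inverse table. -/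
def ptab : List ℕ :=
  [0, 0, 5, 6, 0, 0, 8, 18, 0, 0, 9, 14, 0, 0, 20, 19, 0, 0, 11, 23, 0, 0, 13, 15, 0, 0, 17, 22,
    0, 0, 16, 21]

/-- Affine coordinates of a point. -/
def cv (p : GolayPt) : V := fun i => if (ctab.getD (code p) 0).testBit i.val then 1 else 0

/-- Index of a vector. -/
def vidx (x : V) : ℕ :=
  (x 0).val + 2 * (x 1).val + 4 * (x 2).val + 8 * (x 3).val + 16 * (x 4).val

/-- The point with given coordinates. -/
def pv (x : V) : GolayPt := pt (ptab.getD (vidx x) 0)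

/-- First basis vector. -/
def e0 : V := Pi.single 0 1

/-- Second basis vector. -/
def e1 : V := Pi.single 1 1

theorem cv_pv : ∀ x : V, x 1 = 1 → cv (pv x) = x := by decide +kernel

theorem pv_cv : ∀ p : GolayPt, cv p 1 = 1 → pv (cv p) = p := by decide +kernel

theorem cv_mem : ∀ p : GolayPt, cv p 1 = 1 ↔ code p ∉ [0, 1, 2, 3, 4, 7, 10, 12] := by
  decide +kernel

theorem cv_lst : ∀ p : GolayPt, cv p 1 = 1 →
    code p ∈ [5, 6, 8, 9, 11, 13, 14, 15, 16, 17, 18, 19, 20, 21, 22, 23] := by decide +kernel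

theorem x1_cases : ∀ x : V, x 1 = 1 ∨ x 1 = 0 := by
  intro x
  rcases zmod2_cases (x 1) with h | h
  · exact Or.inr h
  · exact Or.inl h

theorem cv_e1 : cv (pt 5) = e1 := by decide +kernel

theorem vkey1 (A B C D τ : V) (t1 : B = A + τ) (h : A + B + C + D = 0) : C + τ = D := by
  funext i
  have h1 := congrFun t1 i
  have h2 := congrFun h i
  simp only [Pi.add_apply, Pi.zero_apply] at h1 h2 ⊢
  revert h1 h2
  generalize A i = a
  generalize B i = b
  generalize C i = c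
  generalize D i = d
  generalize τ i = t
  revert a b c d t
  decide

theorem vkey2 (A C τ : V) : A + (A + τ) + C + (C + τ) = 0 := by
  funext i
  simp only [Pi.add_apply, Pi.zero_apply]
  generalize A i = a
  generalize C i = c
  generalize τ i = t
  revert a c t
  decide

/-- The pointwise stabiliser of the standard octad. -/
abbrev EO : Subgroup (Equiv.Perm GolayPt) :=
  M24 ⊓ fixingSubgroup (Equiv.Perm GolayPt) (O0s : Set GolayPt)

/-- The stabiliser of the standard octad. -/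
abbrev HO : Subgroup (Equiv.Perm GolayPt) :=
  M24 ⊓ MulAction.stabilizer (Equiv.Perm GolayPt) O0s

theorem octTbl_tr : ∀ e ∈ octTbl, ∀ p : GolayPt, cv p 1 = 1 →
    cv (pt (nth e.2.1 (code p))) = cv p + (cv (pt (nth e.2.1 5)) + cv (pt 5)) := by
  decide +kernel

theorem EO_tbl {r : Equiv.Perm GolayPt} (hr : r ∈ EO) :
    ∃ e ∈ octTbl, ∃ h : chk e.2.1 e.2.2 = true, r = mkPerm e.2.1 e.2.2 h := by
  rw [Subgroup.mem_inf, mem_fixO0] at hr
  have h := octTbl_ok
  simp only [lvlChk, Bool.and_eq_true, List.all_eq_true, List.any_eq_true, Nat.beq_eq] at h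
  obtain ⟨e, he, hej⟩ := h.2 _ (target_of_fix hr.2)
  have h1 := h.1 e he
  simp only [entryChk, Bool.and_eq_true, List.all_eq_true, Nat.beq_eq] at h1
  refine ⟨e, he, h1.1.1, ?_⟩
  apply octB hr.1 (mkPerm_mem _ _ _ h1.1.2) hr.2
  · intro f hf
    have hf24 : f < 24 := by
      have : ∀ f ∈ [0, 1, 2, 3, 4, 7, 10, 12], f < 24 := by decide
      exact this f hf
    rw [mkPerm_pt _ _ _ f hf24, h1.2.2 f hf]
  · rw [mkPerm_pt _ _ _ 5 (by norm_num), h1.2.1, hej, pt_code]

theorem EO_transl {r : Equiv.Perm GolayPt} (hr : r ∈ EO) (p : GolayPt) (hp : cv p 1 = 1) :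
    cv (r p) = cv p + (cv (r (pt 5)) + cv (pt 5)) := by
  obtain ⟨e, he, h, rfl⟩ := EO_tbl hr
  rw [mkPerm_apply, mkPerm_pt _ _ _ 5 (by norm_num)]
  exact octTbl_tr e he p hp

theorem EO_reg {a b : GolayPt} (ha : cv a 1 = 1) (hb : cv b 1 = 1) : ∃ r ∈ EO, r a = b := by
  obtain ⟨ra, hra, hfa, hma, hsa⟩ := octA _ (cv_lst a ha)
  obtain ⟨rb, hrb, hfb, hmb, -⟩ := octA _ (cv_lst b hb)
  rw [pt_code] at hma hmb
  refine ⟨rb * ra, Subgroup.mul_mem _ (Subgroup.mem_inf.2 ⟨hrb, mem_fixO0.2 hfb⟩)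
    (Subgroup.mem_inf.2 ⟨hra, mem_fixO0.2 hfa⟩), ?_⟩
  have h1 : ra a = pt 5 := by
    have h2 := congrArg (fun f : Equiv.Perm GolayPt => f (pt 5)) hsa
    simp only [Equiv.Perm.mul_apply, Equiv.Perm.one_apply] at h2
    rw [hma] at h2
    exact h2
  rw [Equiv.Perm.mul_apply, h1, hmb]

theorem cv_O (p : GolayPt) : cv p 1 = 1 ↔ p ∉ O0s := by
  rw [mem_O0s]
  exact cv_mem p

theorem HO_out {g : Equiv.Perm GolayPt} (hg : g ∈ HO) {p : GolayPt} (hp : cv p 1 = 1) :
    cv (g p) 1 = 1 := by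
  rw [cv_O] at hp ⊢
  intro h
  exact hp ((mem_of_smul_eq hg.2 p).1 h)

theorem EO_le_HO : EO ≤ HO := by
  intro r hr
  refine ⟨hr.1, ?_⟩
  have hfix := (mem_fixingSubgroup_iff (Equiv.Perm GolayPt)).1 hr.2
  exact smul_eq_of_maps (fun q hq => by
    have := hfix q (Finset.mem_coe.2 hq)
    rw [Equiv.Perm.smul_def] at this
    rw [this]
    exact hq)

theorem conj_EO {g r : Equiv.Perm GolayPt} (hg : g ∈ HO) (hr : r ∈ EO) : g * r * g⁻¹ ∈ EO := by
  apply fixing_conj M24 hg.1 (O0s : Set GolayPt) (O0s : Set GolayPt) _ hr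
  intro y hy
  rw [Finset.mem_coe] at hy ⊢
  have hg' : g⁻¹ • O0s = O0s := by
    rw [inv_smul_eq_iff]
    exact hg.2.symm
  exact (mem_of_smul_eq hg' y).2 hy

/-- Elements of the octad stabiliser act affinely on the sixteen outside points. -/
theorem aff {g : Equiv.Perm GolayPt} (hg : g ∈ HO) {a b c d : GolayPt} (ha : cv a 1 = 1)
    (hb : cv b 1 = 1) (hc : cv c 1 = 1) (hd : cv d 1 = 1)
    (h : cv a + cv b + cv c + cv d = 0) :
    cv (g a) + cv (g b) + cv (g c) + cv (g d) = 0 := by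
  obtain ⟨r, hr, hrab⟩ := EO_reg ha hb
  have t1 := EO_transl hr a ha
  rw [hrab] at t1
  have t2 := EO_transl hr c hc
  have hrc : r c = d := by
    have hrc1 : cv (r c) 1 = 1 := HO_out (EO_le_HO hr) hc
    have e : cv (r c) = cv d := by
      rw [t2]
      exact vkey1 _ _ _ _ _ t1 h
    rw [← pv_cv (r c) hrc1, e, pv_cv d hd]
  have hr' := conj_EO hg hr
  have u1 := EO_transl hr' (g a) (HO_out hg ha)
  have u2 := EO_transl hr' (g c) (HO_out hg hc)
  have e1 : (g * r * g⁻¹) (g a) = g b := by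
    simp [Equiv.Perm.mul_apply, hrab]
  have e2 : (g * r * g⁻¹) (g c) = g d := by
    simp [Equiv.Perm.mul_apply, hrc]
  rw [e1] at u1
  rw [e2] at u2
  rw [u1, u2]
  exact vkey2 _ _ _

end TvC
end Cfsg.Agent.Lib.Helper4
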