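import Cfsg.Agent.Lib.Helper4.TvA

set_option autoImplicit false

namespace Cfsg.Agent.Lib.Helper4
namespace TvC

open Pointwise Golay AutA

/-- The linear extension of the action of a permutation on the sixteen outside points. -/
def Ff (g : Equiv.Perm GolayPt) (x : V) : V :=
  if x 1 = 1 then cv (g (pv x)) else cv (g (pv (x + e1))) + cv (g (pv e1))

theorem Ff_pos (g : Equiv.Perm GolayPt) {x : V} (hx : x 1 = 1) : Ff g x = cv (g (pv x)) :=
  if_pos hx

theorem Ff_neg (g : Equiv.Perm GolayPt) {x : V} (hx : x 1 = 0) :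
    Ff g x = cv (g (pv (x + e1))) + cv (g (pv e1)) := by
  unfold Ff
  rw [if_neg]
  rw [hx]
  decide

theorem e1_one : e1 1 = 1 := by decide

theorem add_e1 {x : V} (hx : x 1 = 0) : (x + e1) 1 = 1 := by
  rw [Pi.add_apply, hx, e1_one, zero_add]

theorem add_11 {x y : V} (hx : x 1 = 1) (hy : y 1 = 1) : (x + y) 1 = 0 := by
  rw [Pi.add_apply, hx, hy]
  decide

theorem add_10 {x y : V} (hx : x 1 = 1) (hy : y 1 = 0) : (x + y) 1 = 1 := by
  rw [Pi.add_apply, hx, hy, add_zero]

theorem add_01 {x y : V} (hx : x 1 = 0) (hy : y 1 = 1) : (x + y) 1 = 1 := by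
  rw [Pi.add_apply, hx, hy, zero_add]

theorem add_00 {x y : V} (hx : x 1 = 0) (hy : y 1 = 0) : (x + y) 1 = 0 := by
  rw [Pi.add_apply, hx, hy, add_zero]

theorem v4a (A B C D : V) (h : A + B + C + D = 0) : C + D = A + B := by
  funext i
  have h2 := congrFun h i
  simp only [Pi.add_apply, Pi.zero_apply] at h2 ⊢
  revert h2
  generalize A i = a
  generalize B i = b
  generalize C i = c
  generalize D i = d
  revert a b c d
  decide

theorem v4b (A B C D : V) (h : A + B + C + D = 0) : A = B + (C + D) := by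
  funext i
  have h2 := congrFun h i
  simp only [Pi.add_apply, Pi.zero_apply] at h2 ⊢
  revert h2
  generalize A i = a
  generalize B i = b
  generalize C i = c
  generalize D i = d
  revert a b c d
  decide

theorem v4c (A B C D : V) (h : A + B + C + D = 0) : A = B + C + D := by
  funext i
  have h2 := congrFun h i
  simp only [Pi.add_apply, Pi.zero_apply] at h2 ⊢
  revert h2
  generalize A i = a
  generalize B i = b
  generalize C i = c
  generalize D i = d
  revert a b c d
  decide

theorem v4d (A B C D : V) (h : A + B + C + D = 0) : A + D = B + D + (C + D) := by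
  funext i
  have h2 := congrFun h i
  simp only [Pi.add_apply, Pi.zero_apply] at h2 ⊢
  revert h2
  generalize A i = a
  generalize B i = b
  generalize C i = c
  generalize D i = d
  revert a b c d
  decide

theorem id1 (x y e : V) : x + y + (x + y + e) + e = 0 := by
  funext i
  simp only [Pi.add_apply, Pi.zero_apply]
  generalize x i = a
  generalize y i = b
  generalize e i = c
  revert a b c
  decide

theorem id2 (x y e : V) : x + y + x + (y + e) + e = 0 := by
  funext i
  simp only [Pi.add_apply, Pi.zero_apply]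
  generalize x i = a
  generalize y i = b
  generalize e i = c
  revert a b c
  decide

theorem id3 (x y e : V) : x + y + (x + e) + e + y = 0 := by
  funext i
  simp only [Pi.add_apply, Pi.zero_apply]
  generalize x i = a
  generalize y i = b
  generalize e i = c
  revert a b c
  decide

theorem id4 (x y e : V) : x + y + e + (x + e) + (y + e) + e = 0 := by
  funext i
  simp only [Pi.add_apply, Pi.zero_apply]
  generalize x i = a
  generalize y i = b
  generalize e i = c
  revert a b c
  decide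

theorem id5 (x e : V) : x + e + e = x := by
  funext i
  simp only [Pi.add_apply]
  generalize x i = a
  generalize e i = c
  revert a c
  decide

theorem Ff_add {g : Equiv.Perm GolayPt} (hg : g ∈ HO) (x y : V) :
    Ff g (x + y) = Ff g x + Ff g y := by
  have he : cv (pv e1) 1 = 1 := by
    rw [cv_pv e1 e1_one]
    exact e1_one
  rcases x1_cases x with hx | hx <;> rcases x1_cases y with hy | hy
  · have hxy := add_11 hx hy
    rw [Ff_neg g hxy, Ff_pos g hx, Ff_pos g hy]
    have hs := add_e1 hxy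
    have h := aff hg (a := pv x) (b := pv y) (c := pv (x + y + e1)) (d := pv e1)
      (by rw [cv_pv x hx]; exact hx) (by rw [cv_pv y hy]; exact hy)
      (by rw [cv_pv _ hs]; exact hs) he
      (by rw [cv_pv x hx, cv_pv y hy, cv_pv _ hs, cv_pv e1 e1_one]; exact id1 x y e1)
    exact v4a _ _ _ _ h
  · have hxy := add_10 hx hy
    rw [Ff_pos g hxy, Ff_pos g hx, Ff_neg g hy]
    have hs := add_e1 hy
    have h := aff hg (a := pv (x + y)) (b := pv x) (c := pv (y + e1)) (d := pv e1)
      (by rw [cv_pv _ hxy]; exact hxy) (by rw [cv_pv x hx]; exact hx)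
      (by rw [cv_pv _ hs]; exact hs) he
      (by rw [cv_pv _ hxy, cv_pv x hx, cv_pv _ hs, cv_pv e1 e1_one]; exact id2 x y e1)
    exact v4b _ _ _ _ h
  · have hxy := add_01 hx hy
    rw [Ff_pos g hxy, Ff_neg g hx, Ff_pos g hy]
    have hs := add_e1 hx
    have h := aff hg (a := pv (x + y)) (b := pv (x + e1)) (c := pv e1) (d := pv y)
      (by rw [cv_pv _ hxy]; exact hxy) (by rw [cv_pv _ hs]; exact hs) he
      (by rw [cv_pv y hy]; exact hy)
      (by rw [cv_pv _ hxy, cv_pv _ hs, cv_pv e1 e1_one, cv_pv y hy]; exact id3 x y e1)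
    exact v4c _ _ _ _ h
  · have hxy := add_00 hx hy
    rw [Ff_neg g hxy, Ff_neg g hx, Ff_neg g hy]
    have hs := add_e1 hxy
    have hsx := add_e1 hx
    have hsy := add_e1 hy
    have h := aff hg (a := pv (x + y + e1)) (b := pv (x + e1)) (c := pv (y + e1)) (d := pv e1)
      (by rw [cv_pv _ hs]; exact hs) (by rw [cv_pv _ hsx]; exact hsx)
      (by rw [cv_pv _ hsy]; exact hsy) he
      (by rw [cv_pv _ hs, cv_pv _ hsx, cv_pv _ hsy, cv_pv e1 e1_one]; exact id4 x y e1)
    exact v4d _ _ _ _ h

theorem Ff_mul {g h : Equiv.Perm GolayPt} (hg : g ∈ HO) (hh : h ∈ HO) (x : V) :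
    Ff (g * h) x = Ff g (Ff h x) := by
  have he : cv (pv e1) 1 = 1 := by
    rw [cv_pv e1 e1_one]
    exact e1_one
  rcases x1_cases x with hx | hx
  · have h1 : cv (pv x) 1 = 1 := by
      rw [cv_pv x hx]
      exact hx
    have h2 := HO_out hh h1
    rw [Ff_pos _ hx, Ff_pos h hx, Ff_pos g h2, pv_cv _ h2, Equiv.Perm.mul_apply]
  · have hs := add_e1 hx
    have h1 : cv (pv (x + e1)) 1 = 1 := by
      rw [cv_pv _ hs]
      exact hs
    have h2 := HO_out hh h1
    have h3 := HO_out hh he
    rw [Ff_neg _ hx, Ff_neg h hx, Ff_add hg, Ff_pos g h2, Ff_pos g h3, pv_cv _ h2, pv_cv _ h3,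
      Equiv.Perm.mul_apply, Equiv.Perm.mul_apply]

theorem Ff_one (x : V) : Ff 1 x = x := by
  rcases x1_cases x with hx | hx
  · rw [Ff_pos _ hx, Equiv.Perm.one_apply, cv_pv x hx]
  · have hs := add_e1 hx
    rw [Ff_neg _ hx, Equiv.Perm.one_apply, Equiv.Perm.one_apply, cv_pv _ hs, cv_pv e1 e1_one]
    exact id5 x e1

/-- The linear map of an element of the octad stabiliser. -/
noncomputable def Lg (g : Equiv.Perm GolayPt) (hg : g ∈ HO) : V →ₗ[ZMod 2] V :=
  (AddMonoidHom.mk' (Ff g) (Ff_add hg)).toZModLinearMap 2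

theorem Lg_apply (g : Equiv.Perm GolayPt) (hg : g ∈ HO) (x : V) : Lg g hg x = Ff g x := rfl

/-- Its matrix. -/
noncomputable def Mg (g : Equiv.Perm GolayPt) (hg : g ∈ HO) : Matrix (Fin 5) (Fin 5) (ZMod 2) :=
  LinearMap.toMatrix' (Lg g hg)

theorem Mg_mul {g h : Equiv.Perm GolayPt} (hg : g ∈ HO) (hh : h ∈ HO) :
    Mg (g * h) (Subgroup.mul_mem _ hg hh) = Mg g hg * Mg h hh := by
  unfold Mg
  rw [← LinearMap.toMatrix'_comp]
  congr 1
  apply LinearMap.ext
  intro x
  rw [LinearMap.comp_apply, Lg_apply, Lg_apply, Lg_apply]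
  exact Ff_mul hg hh x

theorem Mg_one : Mg 1 (Subgroup.one_mem _) = 1 := by
  unfold Mg
  rw [← LinearMap.toMatrix'_id]
  congr 1
  apply LinearMap.ext
  intro x
  rw [Lg_apply, LinearMap.id_apply]
  exact Ff_one x

theorem Mg_congr {g h : Equiv.Perm GolayPt} (e : g = h) (hg : g ∈ HO) (hh : h ∈ HO) :
    Mg g hg = Mg h hh := by
  subst e
  rfl

theorem Mg_det {g : Equiv.Perm GolayPt} (hg : g ∈ HO) : (Mg g hg).det = 1 := by
  have h1 := Mg_mul hg (Subgroup.inv_mem _ hg)
  rw [Mg_congr (mul_inv_cancel g) _ (Subgroup.one_mem _), Mg_one] at h1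
  have h2 := congrArg Matrix.det h1
  rw [Matrix.det_one, Matrix.det_mul] at h2
  revert h2
  generalize (Mg g hg).det = a
  generalize (Mg g⁻¹ _).det = b
  revert a b
  decide

theorem Mg_inj {g : Equiv.Perm GolayPt} (hg : g ∈ HO) (h : Mg g hg = 1) :
    ∀ p, cv p 1 = 1 → g p = p := by
  intro p hp
  have h1 : Lg g hg = LinearMap.id := by
    apply LinearMap.toMatrix'.injective
    rw [LinearMap.toMatrix'_id]
    exact h
  have h2 := congrArg (fun L : V →ₗ[ZMod 2] V => L (cv p)) h1
  simp only [Lg_apply, LinearMap.id_apply] at h2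
  rw [Ff_pos g hp, pv_cv p hp] at h2
  rw [← pv_cv (g p) (HO_out hg hp), h2, pv_cv p hp]

end TvC
end Cfsg.Agent.Lib.Helper4
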