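import Cfsg.Agent.Lib.Helper4.TvB
import Cfsg.Agent.Lib.Helper19.TransvCent

set_option autoImplicit false

namespace Cfsg.Agent.Lib.Helper4
namespace TvC

open Pointwise Golay AutA

/-- The involution, as a list of images. -/
def zl : List ℕ :=
  [0, 1, 2, 3, 4, 6, 5, 7, 18, 14, 10, 23, 12, 15, 9, 13, 21, 22, 8, 20, 19, 16, 17, 11]

theorem zl_chk : chk zl zl = true := by decide +kernel

/-- The involution fixing the standard octad pointwise. -/
def zP : Equiv.Perm GolayPt := mkPerm zl zl zl_chk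

theorem zP_mem : zP ∈ M24 := mkPerm_mem _ _ _ (by decide +kernel)

theorem zP_sq : zP * zP = 1 := mkPerm_sq _ rfl

theorem zP_apply (p : GolayPt) : zP p = pt (nth zl (code p)) := mkPerm_apply _ _ _ p

theorem zP_fix : ∀ p : GolayPt, pt (nth zl (code p)) = p ↔ cv p 1 = 0 := by decide +kernel

theorem zP_ne5 : ¬ (pt (nth zl (code (pt 5))) = pt 5) := by decide +kernel

theorem zP_ne : zP ≠ 1 := by
  intro h
  have h2 : zP (pt 5) = pt 5 := by
    rw [h]
    rfl
  rw [zP_apply] at h2
  exact zP_ne5 h2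

theorem zP_fixO : ∀ f ∈ [0, 1, 2, 3, 4, 7, 10, 12], pt (nth zl (code (pt f))) = pt f := by
  decide +kernel

theorem zP_EO : zP ∈ EO := by
  refine ⟨zP_mem, mem_fixO0.2 ?_⟩
  intro f hf
  rw [zP_apply]
  exact zP_fixO f hf

theorem zP_HO : zP ∈ HO := EO_le_HO zP_EO

theorem Ff_zP : ∀ x : V, Ff zP x =
    (Matrix.transvection 0 1 1 : Matrix (Fin 5) (Fin 5) (ZMod 2)).mulVec x := by
  decide +kernel

theorem Mg_zP : Mg zP zP_HO = Matrix.transvection 0 1 1 := by
  unfold Mg
  have h : Lg zP zP_HO = Matrix.toLin' (Matrix.transvection 0 1 1) := by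
    apply LinearMap.ext
    intro x
    rw [Lg_apply, Matrix.toLin'_apply]
    exact Ff_zP x
  rw [h, LinearMap.toMatrix'_toLin']

/-- The involution as an element of the group of the code. -/
def zM : ↥M24 := ⟨zP, zP_mem⟩

theorem cent_comm (c : ↥(Subgroup.centralizer ({zM} : Set ↥M24))) :
    zP * (c.1.1 : Equiv.Perm GolayPt) = c.1.1 * zP := by
  have hc : zM * c.1 = c.1 * zM := Subgroup.mem_centralizer_iff.1 c.2 zM (Set.mem_singleton _)
  exact congrArg Subtype.val hc

theorem cent_HO (c : ↥(Subgroup.centralizer ({zM} : Set ↥M24))) :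
    (c.1.1 : Equiv.Perm GolayPt) ∈ HO := by
  refine ⟨c.1.2, ?_⟩
  have hc' := cent_comm c
  show (c.1.1 : Equiv.Perm GolayPt) • O0s = O0s
  apply smul_eq_of_maps
  intro q hq
  have hq0 : cv q 1 = 0 := by
    rcases x1_cases (cv q) with h | h
    · exact absurd hq ((cv_O q).1 h)
    · exact h
  have hzq : zP q = q := by
    rw [zP_apply]
    exact (zP_fix q).2 hq0
  have h1 : zP (c.1.1 q) = c.1.1 q := by
    have h2 := congrArg (fun f : Equiv.Perm GolayPt => f q) hc'
    simp only [Equiv.Perm.mul_apply] at h2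
    rw [h2, hzq]
  rw [zP_apply] at h1
  have h2 := (zP_fix _).1 h1
  by_contra hcon
  have h3 := (cv_O _).2 hcon
  rw [h2] at h3
  exact absurd h3 (by decide)

/-- The matrix representation of the centraliser of the involution. -/
noncomputable def phi : ↥(Subgroup.centralizer ({zM} : Set ↥M24)) →*
    Matrix.SpecialLinearGroup (Fin 5) (ZMod 2) :=
  MonoidHom.mk' (fun c => ⟨Mg c.1.1 (cent_HO c), Mg_det (cent_HO c)⟩) (by
    intro a b
    apply Subtype.ext
    show Mg (a * b).1.1 _ = Mg a.1.1 _ * Mg b.1.1 _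
    exact Mg_mul (cent_HO a) (cent_HO b))

theorem phi_val (c : ↥(Subgroup.centralizer ({zM} : Set ↥M24))) :
    ((phi c : Matrix.SpecialLinearGroup (Fin 5) (ZMod 2)) : Matrix (Fin 5) (Fin 5) (ZMod 2)) =
      Mg c.1.1 (cent_HO c) := rfl

theorem zM_cent : zM ∈ Subgroup.centralizer ({zM} : Set ↥M24) := by
  rw [Subgroup.mem_centralizer_iff]
  intro h hh
  rw [Set.mem_singleton_iff.1 hh]

theorem phi_zM (s : Matrix.SpecialLinearGroup (Fin 5) (ZMod 2))
    (hs : (s : Matrix (Fin 5) (Fin 5) (ZMod 2)) = Matrix.transvection 0 1 1) :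
    phi ⟨zM, zM_cent⟩ = s := by
  apply Subtype.ext
  rw [phi_val]
  show Mg zP _ = _
  rw [hs]
  exact Mg_zP

theorem phi_mem (s : Matrix.SpecialLinearGroup (Fin 5) (ZMod 2))
    (hs : (s : Matrix (Fin 5) (Fin 5) (ZMod 2)) = Matrix.transvection 0 1 1)
    (c : ↥(Subgroup.centralizer ({zM} : Set ↥M24))) :
    phi c ∈ Subgroup.centralizer ({s} : Set (Matrix.SpecialLinearGroup (Fin 5) (ZMod 2))) := by
  rw [Subgroup.mem_centralizer_iff]
  intro h hh
  rw [Set.mem_singleton_iff.1 hh, ← phi_zM s hs, ← map_mul, ← map_mul]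
  congr 1
  apply Subtype.ext
  exact Subgroup.mem_centralizer_iff.1 c.2 zM (Set.mem_singleton _)

/-- An octad disjoint from the standard one. -/
def Od : ℕ := 11952160

theorem Od_ok : red basisP Od = 0 ∧ pc Od = 8 := by decide +kernel

theorem Od_out : ∀ p : GolayPt, Od.testBit (code p) = true → cv p 1 = 1 := by decide +kernel

theorem P16_card : (Finset.univ.filter (fun p : GolayPt => cv p 1 = 1)).card = 16 := by
  decide +kernel

theorem pt56 : pt 5 ≠ pt 6 := by decide

theorem cv5 : cv (pt 5) 1 = 1 := by decide +kernel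

theorem cv6 : cv (pt 6) 1 = 1 := by decide +kernel

theorem fix16 {g : Equiv.Perm GolayPt} (hg : g ∈ M24) (hfix : ∀ p, cv p 1 = 1 → g p = p) :
    g = 1 := by
  classical
  by_contra hne
  have hO : support₂ (word Od) ∈ octads := octad_of_mask Od_ok.2 Od_ok.1
  have hmem : g ∈ M24 ⊓ fixingSubgroup (Equiv.Perm GolayPt)
      ((support₂ (word Od) : Finset GolayPt) : Set GolayPt) := by
    refine Subgroup.mem_inf.2 ⟨hg, (mem_fixingSubgroup_iff (Equiv.Perm GolayPt)).2 ?_⟩
    intro y hy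
    exact hfix y (Od_out y (mem_support_word.1 (Finset.mem_coe.1 hy)))
  have hsq := (fix_octad hO).2 g hmem
  have h8 := inv_two_fix hg hsq hne (p := pt 5) (q := pt 6) pt56 (hfix _ cv5) (hfix _ cv6)
  have hsub : Finset.univ.filter (fun p : GolayPt => cv p 1 = 1) ⊆
      Finset.univ.filter (fun x => g x = x) := by
    intro p hp
    rw [Finset.mem_filter] at hp ⊢
    exact ⟨Finset.mem_univ _, hfix p hp.2⟩
  have h3 := Finset.card_le_card hsub
  rw [P16_card] at h3
  omega

theorem phi_inj : Function.Injective phi := by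
  rw [injective_iff_map_eq_one]
  intro c hc
  have h1 : Mg c.1.1 (cent_HO c) = 1 := by
    rw [← phi_val, hc]
    rfl
  have hfix := Mg_inj (cent_HO c) h1
  apply Subtype.ext
  apply Subtype.ext
  show (c.1.1 : Equiv.Perm GolayPt) = 1
  exact fix16 c.1.2 hfix

/-- The involution inside the pointwise stabiliser. -/
def zE : ↥EO := ⟨zP, zP_EO⟩

/-- The conjugation action of the octad stabiliser on the pointwise stabiliser. -/
@[reducible] def conjA : MulAction ↥HO ↥EO where
  smul g r := ⟨g.1 * r.1 * g.1⁻¹, conj_EO g.2 r.2⟩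
  one_smul r := by
    apply Subtype.ext
    show (1 : Equiv.Perm GolayPt) * r.1 * (1 : Equiv.Perm GolayPt)⁻¹ = r.1
    group
  mul_smul g h r := by
    apply Subtype.ext
    show (g.1 * h.1) * r.1 * (g.1 * h.1)⁻¹ = g.1 * (h.1 * r.1 * h.1⁻¹) * g.1⁻¹
    group

theorem card_cent_ge : 21504 ≤ Nat.card ↥(Subgroup.centralizer ({zM} : Set ↥M24)) := by
  let _ := conjA
  have hH : 322560 ≤ Nat.card ↥HO := oct_stab_ge O0s_octad
  have h1 : Nat.card ↥HO = Nat.card ↥(MulAction.orbit ↥HO zE) *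
      Nat.card ↥(MulAction.stabilizer ↥HO zE) := by
    rw [Subgroup.card_eq_card_quotient_mul_card_subgroup (MulAction.stabilizer ↥HO zE),
      ← Nat.card_congr (MulAction.orbitEquivQuotientStabilizer ↥HO zE)]
  have h2 : Nat.card ↥(MulAction.orbit ↥HO zE) ≤ 15 := by
    rw [Nat.card_coe_set_eq]
    have hsub : MulAction.orbit ↥HO zE ⊆ (Set.univ : Set ↥EO) \ {1} := by
      rintro _ ⟨g, rfl⟩
      refine ⟨Set.mem_univ _, ?_⟩
      intro h
      rw [Set.mem_singleton_iff] at h
      have h' : g.1 * zP * g.1⁻¹ = 1 := congrArg Subtype.val h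
      apply zP_ne
      have e : zP = g.1⁻¹ * (g.1 * zP * g.1⁻¹) * g.1 := by group
      rw [e, h']
      group
    have h3 := Set.ncard_le_ncard hsub (Set.toFinite _)
    rw [Set.ncard_sdiff_singleton_of_mem (Set.mem_univ _), Set.ncard_univ] at h3
    have h16 : Nat.card ↥EO = 16 := card_fixO0
    rw [h16] at h3
    exact h3
  have h4 : Nat.card ↥(MulAction.stabilizer ↥HO zE) ≤
      Nat.card ↥(Subgroup.centralizer ({zM} : Set ↥M24)) := by
    have hcent : ∀ k : ↥(MulAction.stabilizer ↥HO zE),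
        (⟨k.1.1, k.1.2.1⟩ : ↥M24) ∈ Subgroup.centralizer ({zM} : Set ↥M24) := by
      intro k
      rw [Subgroup.mem_centralizer_iff]
      intro h hh
      rw [Set.mem_singleton_iff.1 hh]
      apply Subtype.ext
      show zP * k.1.1 = k.1.1 * zP
      have hk : k.1 • zE = zE := k.2
      have hk' : k.1.1 * zP * k.1.1⁻¹ = zP := congrArg Subtype.val hk
      calc zP * k.1.1 = (k.1.1 * zP * k.1.1⁻¹) * k.1.1 := by rw [hk']
        _ = k.1.1 * zP := by group
    apply Nat.card_le_card_of_injective (fun k : ↥(MulAction.stabilizer ↥HO zE) =>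
      (⟨⟨k.1.1, k.1.2.1⟩, hcent k⟩ : ↥(Subgroup.centralizer ({zM} : Set ↥M24))))
    intro a b hab
    apply Subtype.ext
    apply Subtype.ext
    exact congrArg (fun c : ↥(Subgroup.centralizer ({zM} : Set ↥M24)) =>
      (c.1.1 : Equiv.Perm GolayPt)) hab
  have h5 : 322560 ≤ 15 * Nat.card ↥(Subgroup.centralizer ({zM} : Set ↥M24)) := by
    calc 322560 ≤ Nat.card ↥HO := hH
      _ = Nat.card ↥(MulAction.orbit ↥HO zE) * Nat.card ↥(MulAction.stabilizer ↥HO zE) := h1
      _ ≤ 15 * Nat.card ↥(Subgroup.centralizer ({zM} : Set ↥M24)) := Nat.mul_le_mul h2 h4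
  omega

/-- The centraliser of an octad involution is the centraliser of a transvection. -/
theorem main (s : Matrix.SpecialLinearGroup (Fin 5) (ZMod 2))
    (hs : (s : Matrix (Fin 5) (Fin 5) (ZMod 2)) = Matrix.transvection 0 1 1) :
    ∃ z : ↥Cfsg.M24, orderOf z = 2 ∧ Nonempty (↥(Subgroup.centralizer ({z} : Set ↥Cfsg.M24)) ≃*
      ↥(Subgroup.centralizer ({s} : Set (Matrix.SpecialLinearGroup (Fin 5) (ZMod 2))))) := by
  have p2 : Fact (Nat.Prime 2) := ⟨Nat.prime_two⟩
  refine ⟨zM, orderOf_eq_prime ?_ ?_, ?_⟩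
  · apply Subtype.ext
    show zP ^ 2 = 1
    rw [pow_two]
    exact zP_sq
  · intro h
    exact zP_ne (congrArg Subtype.val h)
  · have hinj : Function.Injective (phi.codRestrict
        (Subgroup.centralizer ({s} : Set (Matrix.SpecialLinearGroup (Fin 5) (ZMod 2))))
        (phi_mem s hs)) := by
      intro a b hab
      apply phi_inj
      exact congrArg Subtype.val hab
    have hle : Nat.card ↥(Subgroup.centralizer
        ({s} : Set (Matrix.SpecialLinearGroup (Fin 5) (ZMod 2)))) ≤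
        Nat.card ↥(Subgroup.centralizer ({zM} : Set ↥M24)) :=
      (Cfsg.Agent.Lib.Helper19.TransvCent.card_cent_transvection_le s hs).trans card_cent_ge
    exact ⟨MulEquiv.ofBijective _ (hinj.bijective_of_nat_card_le hle)⟩

end TvC
end Cfsg.Agent.Lib.Helper4
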